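import Cfsg.Agent.Helper99.Su5B

set_option autoImplicit false

/-!
# `SU_5`: the radical `R_1` and an element leaving `P_1` generate (helper99)
-/

namespace Cfsg.Agent.Helper99

open Matrix
open Cfsg.Agent.Helper5 (frobQ frobQ_apply frobQ_frobQ)

section Su5C

variable {K : Type*} [Field K] [Fintype K] {q : ℕ}
variable (hK : Fintype.card K = q ^ 2)

/-- all transvections with centre `v` lie in `H`. -/
def SuTvC (hK : Fintype.card K = q ^ 2) {n : ℕ} (H : Subgroup ↥(suG hK n)) (v : Fin n → K) : Prop :=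
  ∀ c : K, frobQ hK c = -c → suEl hK v 0 c ∈ H

theorem su_tvHE {n : ℕ} {v : Fin n → K} {c : K} (hv : suH hK n v v = 0)
    (hc : frobQ hK c = -c) : SuHE hK v 0 c := by
  refine ⟨hv, suH_zero_left hK v, ?_⟩
  rw [hc, suH_zero_left]
  ring

theorem su_tv_act (p : ℕ) [Fact p.Prime] [CharP K p] {n : ℕ} {v : Fin n → K} {c : K}
    (hv : suH hK n v v = 0) (hc : frobQ hK c = -c) (x : Fin n → K) :
    suAct (suEl hK v 0 c) x = x + (c * suH hK n x v) • v := by
  rw [suAct_suEl hK p (su_tvHE hK hv hc), smul_zero, add_zero, suH_zero_right, zero_smul, sub_zero]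

theorem suTvC_act (p : ℕ) [Fact p.Prime] [CharP K p] {n : ℕ} {H : Subgroup ↥(suG hK n)}
    {v : Fin n → K} (hv : suH hK n v v = 0) (hC : SuTvC hK H v) {g : ↥(suG hK n)} (hg : g ∈ H) :
    SuTvC hK H (suAct g v) := by
  intro c hc
  have h1 := suEl_conj hK p g (su_tvHE hK hv hc)
  rw [suAct_zero] at h1
  rw [← h1]
  exact H.mul_mem (H.mul_mem hg (hC c hc)) (H.inv_mem hg)

theorem suTvC_smul (p : ℕ) [Fact p.Prime] [CharP K p] {n : ℕ} {H : Subgroup ↥(suG hK n)}
    {v : Fin n → K} (hv : suH hK n v v = 0) (hC : SuTvC hK H v) (l : K) :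
    SuTvC hK H (l • v) := by
  intro c hc
  have hc' : frobQ hK (l * frobQ hK l * c) = -(l * frobQ hK l * c) := by
    rw [map_mul, map_mul, frobQ_frobQ, hc]
    ring
  have hv' : suH hK n (l • v) (l • v) = 0 := by
    rw [suH_smul_left, suH_smul_right, hv, mul_zero, mul_zero]
  have h1 := suEl_smul hK p l (su_tvHE hK hv' hc) (by rw [smul_zero]; exact su_tvHE hK hv hc')
  rw [smul_zero] at h1
  rw [h1]
  exact hC _ hc'

theorem su5_inv_aux (A B C D S : K) (hA : A ≠ 0) (hB : B ≠ 0) (h : C * B + S + A * D = 0) :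
    A⁻¹ * C + B⁻¹ * D + A⁻¹ * (B⁻¹ * S) = 0 := by
  have e : A⁻¹ * C + B⁻¹ * D + A⁻¹ * (B⁻¹ * S) = A⁻¹ * B⁻¹ * (C * B + S + A * D) := by
    first
      | (field_simp; ring)
      | field_simp
  rw [e, h, mul_zero]

/-- the radical `R_1` together with an element moving `e_0` off `e_0^⊥` generates `SU_5`. -/
theorem su5_top_of_R1 (p : ℕ) [Fact p.Prime] [CharP K p] (H : Subgroup ↥(suG hK 5))
    (hR : ∀ (w : Fin 3 → K) (c : K), Su5V hK w c → su5E hK w c ∈ H) (y : ↥(suG hK 5))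
    (hy : y ∈ H) (hy4 : suAct y (su5ext 1 0 0) 4 ≠ 0) : H = ⊤ := by
  have hC0 : SuTvC hK H (su5ext 1 0 0) := by
    intro c hc
    have hV : Su5V hK 0 c := by
      unfold Su5V
      rw [hc, suH_zero_left]
      ring
    have h1 := hR 0 c hV
    unfold su5E at h1
    rw [su5ext_zero, su5_e0] at h1
    exact h1
  have hiso0 : suH hK 5 (su5ext 1 0 0) (su5ext 1 0 0) = 0 := by
    rw [su5H_ext]
    simp [suH_zero_left]
  have hiso4 : suH hK 5 (su5ext 0 0 1) (su5ext 0 0 1) = 0 := by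
    rw [su5H_ext]
    simp [suH_zero_left]
  have hnorm : ∀ v : Fin 5 → K, suH hK 5 v v = 0 → v 4 ≠ 0 →
      ∃ (w' : Fin 3 → K) (a' : K), Su5V hK w' a' ∧
        v 4 • suAct (su5E hK w' a') (su5ext 0 0 1) = v := by
    intro v hv h4
    have hs4 : frobQ hK (v 4) ≠ 0 := su_frob_ne_zero hK h4
    have hiso : v 0 * frobQ hK (v 4) + suH hK 3 ![v 1, v 2, v 3] ![v 1, v 2, v 3] +
        v 4 * frobQ hK (v 0) = 0 := by
      rw [su5_eta v, su5H_ext] at hv
      exact hv
    have hV' : Su5V hK ((v 4)⁻¹ • ![v 1, v 2, v 3]) ((v 4)⁻¹ * v 0) := by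
      unfold Su5V
      rw [suH_smul_left, suH_smul_right, map_mul, map_inv₀]
      exact su5_inv_aux _ _ _ _ _ h4 hs4 hiso
    refine ⟨_, _, hV', ?_⟩
    rw [su5E_act hK p hV', su5ext_smul]
    conv_rhs => rw [su5_eta v]
    apply su5ext_congr
    · rw [suH_zero_left, sub_zero, zero_add, mul_one, ← mul_assoc, mul_inv_cancel₀ h4, one_mul]
    · rw [zero_add, one_smul, smul_smul, mul_inv_cancel₀ h4, one_smul]
    · rw [mul_one]
  have hC4 : SuTvC hK H (su5ext 0 0 1) := by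
    obtain ⟨u0, hu0⟩ : ∃ u0, u0 = suAct y (su5ext 1 0 0) := ⟨_, rfl⟩
    rw [← hu0] at hy4
    have hu0C : SuTvC hK H u0 := by
      rw [hu0]
      exact suTvC_act hK p hiso0 hC0 hy
    have hu0iso : suH hK 5 u0 u0 = 0 := by
      rw [hu0, suH_suAct]
      exact hiso0
    obtain ⟨w', a', hV', he⟩ := hnorm u0 hu0iso hy4
    have h2 : (u0 4)⁻¹ • u0 = suAct (su5E hK w' a') (su5ext 0 0 1) := by
      rw [inv_smul_eq_iff₀ hy4]
      exact he.symm
    have h1 : suAct (su5E hK w' a')⁻¹ ((u0 4)⁻¹ • u0) = su5ext 0 0 1 := by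
      rw [h2, suAct_inv_suAct]
    rw [← h1]
    exact suTvC_act hK p (by rw [suH_smul_left, suH_smul_right, hu0iso, mul_zero, mul_zero])
      (suTvC_smul hK p hu0iso hu0C _) (H.inv_mem (hR w' a' hV'))
  have hCne : ∀ v : Fin 5 → K, suH hK 5 v v = 0 → v 4 ≠ 0 → SuTvC hK H v := by
    intro v hv h4
    obtain ⟨w', a', hV', he⟩ := hnorm v hv h4
    rw [← he]
    exact suTvC_smul hK p (by rw [suH_suAct]; exact hiso4)
      (suTvC_act hK p hiso4 hC4 (hR w' a' hV')) _
  refine su_top_of_tv hK p 5 (by norm_num) (by omega) H (fun v c hv hc => ?_)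
  by_cases h4 : v 4 = 0
  swap
  · exact hCne v hv h4 c hc
  by_cases hv0 : v = 0
  · rw [hv0]
    have h1 : suEl hK (0 : Fin 5 → K) 0 c = 1 := by
      apply su_ext
      intro x
      rw [su_tv_act hK p (suH_zero_left hK 0) hc, smul_zero, add_zero, suAct_one]
    rw [h1]
    exact H.one_mem
  obtain ⟨b, hb, hb4, hvb⟩ : ∃ b : Fin 5 → K, suH hK 5 b b = 0 ∧ b 4 ≠ 0 ∧ suH hK 5 v b ≠ 0 := by
    by_cases h0 : v 0 = 0
    · have hY : (![v 1, v 2, v 3] : Fin 3 → K) ≠ 0 := by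
        intro hY
        apply hv0
        rw [su5_eta v, hY, h0, h4]
        exact su5ext_zero
      obtain ⟨w1, hw1⟩ : ∃ w1, suH hK 3 ![v 1, v 2, v 3] w1 ≠ 0 := by
        by_contra hcon
        push Not at hcon
        exact hY (suH_nondeg hK _ hcon)
      obtain ⟨a1, ha1⟩ := su_exists_c hK w1
      refine ⟨su5ext a1 w1 1, ?_, ?_, ?_⟩
      · rw [su5H_ext, map_one, mul_one, one_mul]
        linear_combination ha1
      · rw [su5ext_4]
        exact one_ne_zero
      · rw [su5_eta v, su5H_ext, h0, h4, zero_mul, zero_mul, zero_add, add_zero]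
        exact hw1
    · refine ⟨su5ext 0 0 1, hiso4, ?_, ?_⟩
      · rw [su5ext_4]
        exact one_ne_zero
      · rw [← su5_e4, suH_single_one_right, su5_rev4]
        exact h0
  have hbC : SuTvC hK H b := hCne b hb hb4
  obtain ⟨ε, hε0, hε⟩ := Cfsg.Agent.Helper13.ufld_exists_skew hK
  have hTb : suEl hK b 0 ε ∈ H := hbC ε hε
  have ha : suAct (suEl hK b 0 ε) v = v + (ε * suH hK 5 v b) • b := su_tv_act hK p hb hε v
  have ha4 : suAct (suEl hK b 0 ε) v 4 ≠ 0 := by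
    rw [ha, Pi.add_apply, Pi.smul_apply, h4, zero_add, smul_eq_mul]
    exact mul_ne_zero (mul_ne_zero hε0 hvb) hb4
  have haC : SuTvC hK H (suAct (suEl hK b 0 ε) v) :=
    hCne _ (by rw [suH_suAct]; exact hv) ha4
  have h9 := suTvC_act hK p (by rw [suH_suAct]; exact hv) haC (H.inv_mem hTb)
  rw [suAct_inv_suAct] at h9
  exact h9 c hc

end Su5C

end Cfsg.Agent.Helper99
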