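import Mathlib
import Cfsg.Agent.Helper13.SuBlk
import Cfsg.Agent.Helper99.Su5C

set_option autoImplicit false

/-!
# Piece C of CALL S2282: the two Siegel radicals generate `SU_{2m+1}` (helper99)
-/

namespace Cfsg.Agent.Helper99

open Matrix
open Cfsg.Agent.Helper5 (frobQ frobQ_apply frobQ_frobQ)
open Cfsg.Agent.Helper13 (bVec)

section SuRadC

variable {K : Type*} [Field K] [Fintype K] {q : ℕ}

/-- the pairing `∑ b i * σ (a i)`. -/
noncomputable def radP (hK : Fintype.card K = q ^ 2) {m : ℕ} (b a : Fin m → K) : K :=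
  ∑ i, b i * frobQ hK (a i)

theorem radP_zero_left (hK : Fintype.card K = q ^ 2) {m : ℕ} (a : Fin m → K) :
    radP hK 0 a = 0 := by
  unfold radP
  simp

theorem radP_zero_right (hK : Fintype.card K = q ^ 2) {m : ℕ} (b : Fin m → K) :
    radP hK b 0 = 0 := by
  unfold radP
  simp

theorem radP_single (hK : Fintype.card K = q ^ 2) {m : ℕ} (b : Fin m → K) (i : Fin m) (c : K) :
    radP hK b (Pi.single i c) = b i * frobQ hK c := by
  unfold radP
  rw [Finset.sum_eq_single i]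
  · rw [Pi.single_eq_same]
  · intro j _ hj
    rw [Pi.single_eq_of_ne hj, map_zero, mul_zero]
  · intro h
    exact absurd (Finset.mem_univ i) h

/-- abstract block coordinates (to treat `E` and `E'` symmetrically). -/
structure RadB (hK : Fintype.card K = q ^ 2) (m n : ℕ)
    (B : (Fin m → K) → (Fin m → K) → K → (Fin n → K)) : Prop where
  add : ∀ (a b a' b' : Fin m → K) (l l' : K),
    B a b l + B a' b' l' = B (a + a') (b + b') (l + l')
  smul : ∀ (c : K) (a b : Fin m → K) (l : K), c • B a b l = B (c • a) (c • b) (c * l)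
  surj : ∀ x : Fin n → K, ∃ (a b : Fin m → K) (l : K), x = B a b l
  form : ∀ (a b a' b' : Fin m → K) (l l' : K),
    suH hK n (B a b l) (B a' b' l') = radP hK a b' + radP hK b a' + l * frobQ hK l'

theorem radB_bVec (hK : Fintype.card K = q ^ 2) (m : ℕ) :
    RadB hK m (2 * m + 1) (bVec (K := K) (m := m)) where
  add := Cfsg.Agent.Helper13.bVec_add
  smul := Cfsg.Agent.Helper13.bVec_smul
  surj := Cfsg.Agent.Helper13.bVec_surj
  form := fun a b a' b' l l' => Cfsg.Agent.Helper13.suH_bVec hK a b a' b' l l'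

theorem radB_swap (hK : Fintype.card K = q ^ 2) (m : ℕ) :
    RadB hK m (2 * m + 1) (fun (a b : Fin m → K) (l : K) => bVec b a l) where
  add := fun a b a' b' l l' => Cfsg.Agent.Helper13.bVec_add b a b' a' l l'
  smul := fun c a b l => Cfsg.Agent.Helper13.bVec_smul c b a l
  surj := fun x => by
    obtain ⟨a, b, l, h⟩ := Cfsg.Agent.Helper13.bVec_surj x
    exact ⟨b, a, l, h⟩
  form := fun a b a' b' l l' => by
    show suH hK (2 * m + 1) (bVec b a l) (bVec b' a' l') = _
    rw [Cfsg.Agent.Helper13.suH_bVec]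
    unfold radP
    ring

variable (hK : Fintype.card K = q ^ 2)

theorem radB_congr {m n : ℕ} (B : (Fin m → K) → (Fin m → K) → K → (Fin n → K))
    {a1 a2 b1 b2 : Fin m → K} {l1 l2 : K} (h1 : a1 = a2) (h2 : b1 = b2) (h3 : l1 = l2) :
    B a1 b1 l1 = B a2 b2 l2 := by rw [h1, h2, h3]

theorem radB_sub {m n : ℕ} {B : (Fin m → K) → (Fin m → K) → K → (Fin n → K)}
    (hB : RadB hK m n B) (a b a' b' : Fin m → K) (l l' : K) :
    B a b l - B a' b' l' = B (a - a') (b - b') (l - l') := by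
  rw [sub_eq_iff_eq_add, hB.add, sub_add_cancel, sub_add_cancel, sub_add_cancel]

theorem radB_isoE {m n : ℕ} {B : (Fin m → K) → (Fin m → K) → K → (Fin n → K)}
    (hB : RadB hK m n B) (a a' : Fin m → K) : suH hK n (B a 0 0) (B a' 0 0) = 0 := by
  rw [hB.form, radP_zero_right, radP_zero_left, map_zero, mul_zero, add_zero, add_zero]

theorem rad_step0 {m n : ℕ} {B : (Fin m → K) → (Fin m → K) → K → (Fin n → K)}
    (hB : RadB hK m n B) (g : ↥(suG hK n)) (a : Fin m → K)
    (hfix : ∀ a' : Fin m → K, suAct g (B a' 0 0) = B a' 0 0)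
    (hw : suAct g (B 0 0 1) = B a 0 1) (b : Fin m → K) :
    ∃ x : Fin m → K, suAct g (B 0 b 0) = B x b (-(radP hK b a)) := by
  obtain ⟨x, y, z, hxyz⟩ := hB.surj (suAct g (B 0 b 0))
  have hy : y = b := by
    funext i
    have h1 := suH_suAct g (B 0 b 0) (B (Pi.single i 1) 0 0)
    rw [hfix, hxyz, hB.form, hB.form, radP_single, radP_single] at h1
    simp only [radP_zero_right, radP_zero_left, map_zero, map_one, mul_zero, mul_one, zero_add,
      add_zero] at h1
    exact h1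
  have h1 := suH_suAct g (B 0 b 0) (B 0 0 1)
  rw [hw, hxyz, hB.form, hB.form, hy] at h1
  simp only [radP_zero_right, radP_zero_left, map_zero, map_one, mul_zero, mul_one, zero_add,
    add_zero, zero_mul] at h1
  refine ⟨x, ?_⟩
  rw [hxyz, hy]
  exact radB_congr B rfl rfl (by linear_combination h1)

theorem rad_act {m n : ℕ} {B : (Fin m → K) → (Fin m → K) → K → (Fin n → K)}
    (hB : RadB hK m n B) (g : ↥(suG hK n)) (a : Fin m → K)
    (hfix : ∀ a' : Fin m → K, suAct g (B a' 0 0) = B a' 0 0)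
    (hw : suAct g (B 0 0 1) = B a 0 1) :
    ∃ ξ : (Fin m → K) → (Fin m → K), ∀ (a'' b : Fin m → K) (l : K),
      suAct g (B a'' b l) = B (a'' + ξ b + l • a) b (l - radP hK b a) := by
  choose ξ hξ using fun b => rad_step0 hK hB g a hfix hw b
  refine ⟨ξ, fun a'' b l => ?_⟩
  have hdec : B a'' b l = B a'' 0 0 + B 0 b 0 + l • B 0 0 1 := by
    rw [hB.smul, hB.add, hB.add]
    simp only [add_zero, zero_add, smul_zero, mul_one]
  rw [hdec, suAct_add, suAct_add, suAct_smul, hfix, hξ, hw, hB.smul, hB.add, hB.add]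
  exact radB_congr B rfl (by rw [zero_add, smul_zero, add_zero]) (by ring)

theorem rad_el_act (p : ℕ) [Fact p.Prime] [CharP K p] {m n : ℕ}
    {B : (Fin m → K) → (Fin m → K) → K → (Fin n → K)} (hB : RadB hK m n B)
    (a a' A b : Fin m → K) (L : K) :
    suAct (suEl hK (B a 0 0) (B a' 0 0) 0) (B A b L) =
      B (A + radP hK b a • a' - radP hK b a' • a) b L := by
  have hHE : SuHE hK (B a 0 0) (B a' 0 0) 0 :=
    ⟨radB_isoE hK hB a a, radB_isoE hK hB a' a,
      by rw [radB_isoE hK hB, map_zero, add_zero, add_zero]⟩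
  rw [suAct_suEl hK p hHE, hB.form, hB.form]
  simp only [radP_zero_right, map_zero, mul_zero, add_zero, zero_add, zero_mul, zero_smul]
  rw [hB.smul, hB.smul, hB.add, radB_sub hK hB]
  exact radB_congr B rfl (by rw [smul_zero, smul_zero, add_zero, sub_zero]) (by ring)

theorem rad_comm (p : ℕ) [Fact p.Prime] [CharP K p] {m n : ℕ}
    {B : (Fin m → K) → (Fin m → K) → K → (Fin n → K)} (hB : RadB hK m n B)
    (g g' : ↥(suG hK n)) (a a' : Fin m → K)
    (hfix : ∀ a'' : Fin m → K, suAct g (B a'' 0 0) = B a'' 0 0)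
    (hw : suAct g (B 0 0 1) = B a 0 1)
    (hfix' : ∀ a'' : Fin m → K, suAct g' (B a'' 0 0) = B a'' 0 0)
    (hw' : suAct g' (B 0 0 1) = B a' 0 1) :
    g * g' = suEl hK (B a 0 0) (B a' 0 0) 0 * (g' * g) := by
  obtain ⟨ξ, hξ⟩ := rad_act hK hB g a hfix hw
  obtain ⟨ξ', hξ'⟩ := rad_act hK hB g' a' hfix' hw'
  apply su_ext
  intro x
  obtain ⟨a'', b, l, rfl⟩ := hB.surj x
  rw [suAct_mul, suAct_mul, suAct_mul, hξ', hξ, hξ, hξ', rad_el_act hK p hB]
  refine radB_congr B ?_ rfl (by ring)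
  funext j
  simp only [Pi.add_apply, Pi.sub_apply, Pi.smul_apply, smul_eq_mul]
  ring

theorem rad_el_mem (p : ℕ) [Fact p.Prime] [CharP K p] {m n : ℕ}
    {B : (Fin m → K) → (Fin m → K) → K → (Fin n → K)} (hB : RadB hK m n B)
    (H : Subgroup ↥(suG hK n))
    (hE : ∀ a : Fin m → K, ∃ g ∈ H, (∀ a' : Fin m → K, suAct g (B a' 0 0) = B a' 0 0) ∧
      suAct g (B 0 0 1) = B a 0 1)
    (a a' : Fin m → K) : suEl hK (B a 0 0) (B a' 0 0) 0 ∈ H := by
  obtain ⟨g, hg, hfix, hw⟩ := hE a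
  obtain ⟨g', hg', hfix', hw'⟩ := hE a'
  have h := rad_comm hK p hB g g' a a' hfix hw hfix' hw'
  have h2 : suEl hK (B a 0 0) (B a' 0 0) 0 = g * g' * (g' * g)⁻¹ := by
    rw [h, mul_inv_cancel_right]
  rw [h2]
  exact H.mul_mem (H.mul_mem hg hg') (H.inv_mem (H.mul_mem hg' hg))

theorem su_el_smul_tv (p : ℕ) [Fact p.Prime] [CharP K p] {n : ℕ} {v : Fin n → K}
    (hv : suH hK n v v = 0) (l : K) :
    suEl hK v (l • v) 0 = suEl hK v 0 (l - frobQ hK l) := by
  have hHE : SuHE hK v (l • v) 0 :=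
    ⟨hv, by rw [suH_smul_left, hv, mul_zero],
      by rw [suH_smul_left, suH_smul_right, hv, mul_zero, mul_zero, map_zero, add_zero,
        add_zero]⟩
  have hc : frobQ hK (l - frobQ hK l) = -(l - frobQ hK l) := by
    rw [map_sub, frobQ_frobQ]
    ring
  apply su_ext
  intro x
  rw [suAct_suEl hK p hHE, su_tv_act hK p hv hc, suH_smul_right, smul_smul, zero_mul, zero_smul,
    add_zero, add_sub_assoc, ← sub_smul]
  congr 2
  ring

theorem rad_tv (p : ℕ) [Fact p.Prime] [CharP K p] {m n : ℕ}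
    {B : (Fin m → K) → (Fin m → K) → K → (Fin n → K)} (hB : RadB hK m n B)
    (H : Subgroup ↥(suG hK n))
    (hE : ∀ a : Fin m → K, ∃ g ∈ H, (∀ a' : Fin m → K, suAct g (B a' 0 0) = B a' 0 0) ∧
      suAct g (B 0 0 1) = B a 0 1)
    (a : Fin m → K) : SuTvC hK H (B a 0 0) := by
  intro c hc
  obtain ⟨θ, hθ⟩ := Cfsg.Agent.Helper13.ufld_exists_not_fixed hK
  have hθ' : θ - frobQ hK θ ≠ 0 := fun h => hθ (sub_eq_zero.1 h).symm
  have h1 := rad_el_mem hK p hB H hE a ((c / (θ - frobQ hK θ) * θ) • a)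
  have h2 : B ((c / (θ - frobQ hK θ) * θ) • a) 0 0 = (c / (θ - frobQ hK θ) * θ) • B a 0 0 := by
    rw [hB.smul, smul_zero, mul_zero]
  rw [h2, su_el_smul_tv hK p (radB_isoE hK hB a a)] at h1
  have h3 : c / (θ - frobQ hK θ) * θ - frobQ hK (c / (θ - frobQ hK θ) * θ) = c := by
    rw [map_mul, map_div₀, map_sub, frobQ_frobQ, hc]
    have h5 : frobQ hK θ - θ = -(θ - frobQ hK θ) := by ring
    rw [h5]
    field_simp
  rw [h3] at h1
  exact h1

/-- **Piece C of CALL S2282.** -/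
theorem su_top_of_radicals (hK : Fintype.card K = q ^ 2) (p : ℕ) [Fact p.Prime] [CharP K p]
    (m : ℕ) (hm : 1 ≤ m) (h32 : ¬ (m = 1 ∧ q = 2)) (H : Subgroup ↥(suG hK (2 * m + 1)))
    (hE : ∀ a : Fin m → K, ∃ g ∈ H, (∀ a' : Fin m → K, suAct g (bVec a' 0 0) = bVec a' 0 0) ∧
      suAct g (bVec 0 0 1) = bVec a 0 1)
    (hF : ∀ b : Fin m → K, ∃ g ∈ H, (∀ b' : Fin m → K, suAct g (bVec 0 b' 0) = bVec 0 b' 0) ∧
      suAct g (bVec 0 0 1) = bVec 0 b 1) : H = ⊤ := by
  have hB1 := radB_bVec (K := K) hK m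
  have hB2 := radB_swap (K := K) hK m
  have hisoE : ∀ a a' : Fin m → K, suH hK (2 * m + 1) (bVec a 0 0) (bVec a' 0 0) = 0 :=
    fun a a' => radB_isoE hK hB1 a a'
  have hisoF : ∀ b b' : Fin m → K, suH hK (2 * m + 1) (bVec 0 b 0) (bVec 0 b' 0) = 0 :=
    fun b b' => radB_isoE hK hB2 b b'
  have hTE : ∀ a : Fin m → K, SuTvC hK H (bVec a 0 0) := fun a => rad_tv hK p hB1 H hE a
  have hTF : ∀ b : Fin m → K, SuTvC hK H (bVec 0 b 0) := fun b => rad_tv hK p hB2 H hF b
  have hS1 : ∀ a a' : Fin m → K, suEl hK (bVec a 0 0) (bVec a' 0 0) 0 ∈ H :=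
    fun a a' => rad_el_mem hK p hB1 H hE a a'
  refine su_top_of_tv hK p (2 * m + 1) (by omega) (by omega) H (fun x c hx hc => ?_)
  suffices h : SuTvC hK H x from h c hc
  obtain ⟨a, b, l, rfl⟩ := Cfsg.Agent.Helper13.bVec_surj x
  by_cases hb : b = 0
  · have hl : l = 0 := by
      rw [hb, hB1.form, radP_zero_right, radP_zero_left, zero_add, zero_add] at hx
      rcases mul_eq_zero.1 hx with h | h
      · exact h
      · exact su3_frob_eq_zero hK h
    rw [hb, hl]
    exact hTE a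
  · obtain ⟨i, hi⟩ : ∃ i, b i ≠ 0 := by
      by_contra hcon
      push Not at hcon
      exact hb (funext hcon)
    obtain ⟨g, hg, hfix, hw⟩ := hE (Pi.single i (frobQ hK (-l / b i)))
    obtain ⟨β, hβ⟩ := rad_step0 hK hB1 g _ hfix hw b
    have hP : radP hK b (Pi.single i (frobQ hK (-l / b i))) = -l := by
      rw [radP_single, frobQ_frobQ]
      field_simp
    rw [hP, neg_neg] at hβ
    have hy : SuTvC hK H (bVec β b l) := by
      rw [← hβ]
      exact suTvC_act hK p (hisoF b b) (hTF b) hg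
    have hyiso : suH hK (2 * m + 1) (bVec β b l) (bVec β b l) = 0 := by
      rw [← hβ, suH_suAct]
      exact hisoF b b
    have hxd : bVec a b l = bVec β b l + bVec (a - β) 0 0 := by
      rw [Cfsg.Agent.Helper13.bVec_add, add_sub_cancel, add_zero, add_zero]
    obtain ⟨ε, hε⟩ : ∃ ε : K, ε = suH hK (2 * m + 1) (bVec β b l) (bVec (a - β) 0 0) :=
      ⟨_, rfl⟩
    have hεsk : frobQ hK ε = -ε := by
      have h1 := hx
      rw [hxd, suH_add_left, suH_add_right, suH_add_right, hyiso, ← hε, hisoE,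
        ← suH_conj hK (bVec β b l) (bVec (a - β) 0 0), ← hε] at h1
      linear_combination h1
    by_cases hε0 : ε = 0
    · have hv2 : suH hK (2 * m + 1) (bVec β b l)
          (bVec (Pi.single i (frobQ hK (-1 / b i))) 0 0) = -1 := by
        rw [hB1.form, radP_zero_right, radP_single, frobQ_frobQ, map_zero, mul_zero, zero_add,
          add_zero]
        field_simp
      have hHE : SuHE hK (bVec (a - β) 0 0) (bVec (Pi.single i (frobQ hK (-1 / b i))) 0 0) 0 :=
        ⟨hisoE _ _, hisoE _ _, by rw [hisoE, map_zero, add_zero, add_zero]⟩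
      have hzy : suAct (suEl hK (bVec (a - β) 0 0)
          (bVec (Pi.single i (frobQ hK (-1 / b i))) 0 0) 0) (bVec β b l) = bVec a b l := by
        rw [suAct_suEl hK p hHE, ← hε, hε0, hv2, zero_smul, add_zero, mul_zero, zero_smul,
          add_zero, neg_smul, one_smul, sub_neg_eq_add, ← hxd]
      rw [← hzy]
      exact suTvC_act hK p hyiso hy (hS1 _ _)
    · have hc' : frobQ hK ε⁻¹ = -ε⁻¹ := by rw [map_inv₀, hεsk, inv_neg]
      have hzy : suAct (suEl hK (bVec (a - β) 0 0) 0 ε⁻¹) (bVec β b l) = bVec a b l := by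
        rw [su_tv_act hK p (hisoE _ _) hc', ← hε, inv_mul_cancel₀ hε0, one_smul, ← hxd]
      rw [← hzy]
      exact suTvC_act hK p hyiso hy (hTE _ _ hc')

end SuRadC

end Cfsg.Agent.Helper99
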