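import Cfsg.Agent.Helper99.SixA

set_option autoImplicit false

namespace Cfsg.Agent.Helper99

open Equiv

theorem six_card_stab (a : Fin 6) :
    Nat.card (MulAction.stabilizer (Perm (Fin 6)) a) = 120 := by
  apply six_card_of_index
  rw [MulAction.index_stabilizer_of_transitive, Nat.card_fin]

/-- the stabilizer of `0` in `S_6` is `S_5` -/
theorem six_stab_zero_equiv :
    Nonempty (MulAction.stabilizer (Perm (Fin 6)) (0 : Fin 6) ≃* Perm (Fin 5)) := by
  classical
  let ψ : Perm (Fin 5) →* Perm (Fin 6) := Equiv.Perm.viaEmbeddingHom (Fin.succEmb 5)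
  have hψ : Function.Injective ψ := Equiv.Perm.viaEmbeddingHom_injective _
  have hle : ψ.range ≤ MulAction.stabilizer (Perm (Fin 6)) (0 : Fin 6) := by
    rintro _ ⟨π, rfl⟩
    rw [MulAction.mem_stabilizer_iff, Equiv.Perm.smul_def]
    apply Equiv.Perm.viaEmbedding_apply_of_notMem
    rintro ⟨x, hx⟩
    exact Fin.succ_ne_zero x hx
  have heq : ψ.range = MulAction.stabilizer (Perm (Fin 6)) (0 : Fin 6) := by
    apply Subgroup.eq_of_le_of_card_ge hle
    rw [six_card_stab, Nat.card_congr (MonoidHom.ofInjective hψ).toEquiv.symm, Nat.card_perm,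
      Nat.card_fin]
    decide
  exact ⟨(MulEquiv.subgroupCongr heq.symm).trans (MonoidHom.ofInjective hψ).symm⟩

/-- every index-6 subgroup of `S_6` is isomorphic to `S_5` -/
theorem six_index_equiv (H : Subgroup (Perm (Fin 6))) (hH : H.index = 6) :
    Nonempty (H ≃* Perm (Fin 5)) := by
  obtain ⟨α, hα⟩ := six_exists_aut H hH
  obtain ⟨e⟩ := six_stab_zero_equiv
  have hmap : H.map (α : Perm (Fin 6) →* Perm (Fin 6)) =
      MulAction.stabilizer (Perm (Fin 6)) (0 : Fin 6) := by
    ext x
    rw [MulAction.mem_stabilizer_iff, Equiv.Perm.smul_def]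
    constructor
    · rintro ⟨g, hg, rfl⟩
      exact (hα g).mp hg
    · intro hx
      refine ⟨α.symm x, (hα _).mpr (by simpa using hx), by simp⟩
  exact ⟨(α.subgroupMap H).trans ((MulEquiv.subgroupCongr hmap).trans e)⟩

end Cfsg.Agent.Helper99
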