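import Mathlib

set_option autoImplicit false

namespace Cfsg.Agent.Helper99

open Matrix

section TwoByTwo

variable {F : Type*} [Field F]

theorem m2_ext {R : Type*} (A B : Matrix (Fin 2) (Fin 2) R) (h00 : A 0 0 = B 0 0) (h01 : A 0 1 = B 0 1)
    (h10 : A 1 0 = B 1 0) (h11 : A 1 1 = B 1 1) : A = B := by
  ext i j
  fin_cases i <;> fin_cases j <;> assumption

/-- a matrix commuting with a non-scalar 2×2 matrix `Z` is of the form `s + αZ` -/
theorem m2_commutant (X Z : Matrix (Fin 2) (Fin 2) F) (hX : X * Z = Z * X)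
    (hZ : ∀ z : F, Z ≠ z • (1 : Matrix (Fin 2) (Fin 2) F)) :
    ∃ s α : F, X = s • (1 : Matrix (Fin 2) (Fin 2) F) + α • Z := by
  have h00 := congrFun (congrFun hX 0) 0
  have h01 := congrFun (congrFun hX 0) 1
  have h10 := congrFun (congrFun hX 1) 0
  simp only [Matrix.mul_apply, Fin.sum_univ_two] at h00 h01 h10
  by_cases hz01 : Z 0 1 = 0
  · by_cases hz10 : Z 1 0 = 0
    · have hd : Z 0 0 - Z 1 1 ≠ 0 := by
        intro hd
        apply hZ (Z 0 0)
        apply m2_ext
        · simp
        · simp [hz01]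
        · simp [hz10]
        · simp; exact (sub_eq_zero.mp hd).symm
      refine ⟨X 0 0 - (X 0 0 - X 1 1) / (Z 0 0 - Z 1 1) * Z 0 0, (X 0 0 - X 1 1) / (Z 0 0 - Z 1 1), ?_⟩
      have hx01 : X 0 1 = 0 := by
        have : X 0 1 * (Z 0 0 - Z 1 1) = 0 := by
          rw [hz01] at h01
          linear_combination -h01
        exact (mul_eq_zero.mp this).resolve_right hd
      have hx10 : X 1 0 = 0 := by
        have : X 1 0 * (Z 0 0 - Z 1 1) = 0 := by
          rw [hz10] at h10
          linear_combination h10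
        exact (mul_eq_zero.mp this).resolve_right hd
      apply m2_ext
      · simp
      · simp [hz01, hx01]
      · simp [hz10, hx10]
      · simp
        field_simp
        ring
    · refine ⟨X 0 0 - X 1 0 / Z 1 0 * Z 0 0, X 1 0 / Z 1 0, ?_⟩
      apply m2_ext
      · simp
      · simp
        rw [div_mul_eq_mul_div, eq_div_iff hz10]
        linear_combination h00
      · simp
        field_simp
      · simp
        field_simp
        linear_combination h10
  · refine ⟨X 0 0 - X 0 1 / Z 0 1 * Z 0 0, X 0 1 / Z 0 1, ?_⟩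
    apply m2_ext
    · simp
    · simp
      field_simp
    · simp
      rw [div_mul_eq_mul_div, eq_div_iff hz01]
      linear_combination -h00
    · simp
      field_simp
      linear_combination -h01

/-- matrices commuting with a common non-scalar 2×2 matrix commute -/
theorem m2_comm_of_comm (X Y Z : Matrix (Fin 2) (Fin 2) F) (hX : X * Z = Z * X)
    (hY : Y * Z = Z * Y) (hZ : ∀ z : F, Z ≠ z • (1 : Matrix (Fin 2) (Fin 2) F)) :
    X * Y = Y * X := by
  obtain ⟨s, α, rfl⟩ := m2_commutant X Z hX hZ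
  obtain ⟨s', α', rfl⟩ := m2_commutant Y Z hY hZ
  simp only [add_mul, mul_add, smul_mul_assoc, mul_smul_comm, one_mul, mul_one, smul_add,
    smul_smul]
  rw [mul_comm s s', mul_comm α α', mul_comm s α', mul_comm α s']
  abel

/-- a matrix commuting with two non-commuting 2×2 matrices is scalar -/
theorem m2_scalar_of_comm (X Y Z : Matrix (Fin 2) (Fin 2) F) (hX : X * Z = Z * X)
    (hY : Y * Z = Z * Y) (hXY : X * Y ≠ Y * X) :
    ∃ z : F, Z = z • (1 : Matrix (Fin 2) (Fin 2) F) := by
  by_contra hcon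
  push Not at hcon
  exact hXY (m2_comm_of_comm X Y Z hX hY hcon)

/-- Cayley–Hamilton for 2×2 matrices -/
theorem m2_sq (M : Matrix (Fin 2) (Fin 2) F) :
    M * M = M.trace • M - M.det • (1 : Matrix (Fin 2) (Fin 2) F) := by
  apply m2_ext <;>
    simp [Matrix.mul_apply, Fin.sum_univ_two, Matrix.trace_fin_two, Matrix.det_fin_two] <;> ring

/-- the trace and determinant of a non-scalar 2×2 matrix are determined by a quadratic
relation -/
theorem m2_trace_det (M : Matrix (Fin 2) (Fin 2) F) (t d : F)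
    (hM : M * M = t • M - d • (1 : Matrix (Fin 2) (Fin 2) F))
    (hns : ∀ z : F, M ≠ z • (1 : Matrix (Fin 2) (Fin 2) F)) : M.trace = t ∧ M.det = d := by
  have h := m2_sq M
  rw [hM] at h
  have h2 : (M.trace - t) • M = (M.det - d) • (1 : Matrix (Fin 2) (Fin 2) F) := by
    rw [sub_smul, sub_smul]
    have h3 : t • M - d • (1 : Matrix (Fin 2) (Fin 2) F) -
        (M.trace • M - M.det • (1 : Matrix (Fin 2) (Fin 2) F)) = 0 := by rw [h, sub_self]
    have h4 : M.trace • M - t • M - (M.det • (1 : Matrix (Fin 2) (Fin 2) F) -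
        d • (1 : Matrix (Fin 2) (Fin 2) F)) =
        -(t • M - d • (1 : Matrix (Fin 2) (Fin 2) F) -
        (M.trace • M - M.det • (1 : Matrix (Fin 2) (Fin 2) F))) := by abel
    rw [h3, neg_zero] at h4
    exact sub_eq_zero.mp h4
  have ht : M.trace = t := by
    by_contra hne
    have hne' : M.trace - t ≠ 0 := sub_ne_zero.mpr hne
    apply hns ((M.trace - t)⁻¹ * (M.det - d))
    rw [mul_smul, ← h2, smul_smul, inv_mul_cancel₀ hne', one_smul]
  refine ⟨ht, ?_⟩
  rw [ht, sub_self, zero_smul] at h2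
  have h5 := congrFun (congrFun h2 0) 0
  simp at h5
  exact (sub_eq_zero.mp h5.symm)

/-- a non-scalar 2×2 matrix with `M² = tM - d` is conjugate to the companion matrix -/
theorem m2_exists_cyclic (M : Matrix (Fin 2) (Fin 2) F) (t d : F)
    (hM : M * M = t • M - d • (1 : Matrix (Fin 2) (Fin 2) F))
    (hns : ∀ z : F, M ≠ z • (1 : Matrix (Fin 2) (Fin 2) F)) :
    ∃ g : Matrix (Fin 2) (Fin 2) F, g.det ≠ 0 ∧ M * g = g * !![0, -d; 1, t] := by
  have h00 := congrFun (congrFun hM 0) 0
  have h01 := congrFun (congrFun hM 0) 1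
  have h10 := congrFun (congrFun hM 1) 0
  have h11 := congrFun (congrFun hM 1) 1
  simp [Matrix.mul_apply, Fin.sum_univ_two] at h00 h01 h10 h11
  by_cases hm10 : M 1 0 = 0
  · by_cases hm01 : M 0 1 = 0
    · have hd : M 1 1 - M 0 0 ≠ 0 := by
        intro hd
        apply hns (M 0 0)
        apply m2_ext
        · simp
        · simp [hm01]
        · simp [hm10]
        · simp; exact sub_eq_zero.mp hd
      refine ⟨!![1, M 0 0; 1, M 1 1], ?_, ?_⟩
      · rw [Matrix.det_fin_two_of]
        simpa using hd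
      · rw [hm10, hm01] at h00 h11
        apply m2_ext
        · simp [Matrix.mul_apply, Fin.sum_univ_two, hm01]
        · simp [Matrix.mul_apply, Fin.sum_univ_two, hm01]
          linear_combination h00
        · simp [Matrix.mul_apply, Fin.sum_univ_two, hm10]
        · simp [Matrix.mul_apply, Fin.sum_univ_two, hm10]
          linear_combination h11
    · refine ⟨!![0, M 0 1; 1, M 1 1], ?_, ?_⟩
      · rw [Matrix.det_fin_two_of]
        simpa using hm01
      · apply m2_ext
        · simp [Matrix.mul_apply, Fin.sum_univ_two]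
        · simp [Matrix.mul_apply, Fin.sum_univ_two]
          linear_combination h01
        · simp [Matrix.mul_apply, Fin.sum_univ_two]
        · simp [Matrix.mul_apply, Fin.sum_univ_two]
          linear_combination h11
  · refine ⟨!![1, M 0 0; 0, M 1 0], ?_, ?_⟩
    · rw [Matrix.det_fin_two_of]
      simpa using hm10
    · apply m2_ext
      · simp [Matrix.mul_apply, Fin.sum_univ_two]
      · simp [Matrix.mul_apply, Fin.sum_univ_two]
        linear_combination h00
      · simp [Matrix.mul_apply, Fin.sum_univ_two]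
      · simp [Matrix.mul_apply, Fin.sum_univ_two]
        linear_combination h10

/-- two non-scalar 2×2 matrices with the same quadratic relation are conjugate by a matrix of
determinant 1, provided the norm form of the relation represents every nonzero scalar -/
theorem m2_conj_sl (X Y : Matrix (Fin 2) (Fin 2) F) (t d : F)
    (hX : X * X = t • X - d • (1 : Matrix (Fin 2) (Fin 2) F))
    (hY : Y * Y = t • Y - d • (1 : Matrix (Fin 2) (Fin 2) F))
    (hXns : ∀ z : F, X ≠ z • (1 : Matrix (Fin 2) (Fin 2) F))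
    (hYns : ∀ z : F, Y ≠ z • (1 : Matrix (Fin 2) (Fin 2) F))
    (huniv : ∀ δ : F, δ ≠ 0 → ∃ α β : F, α ^ 2 + t * α * β + d * β ^ 2 = δ) :
    ∃ P : Matrix (Fin 2) (Fin 2) F, P.det = 1 ∧ X * P = P * Y := by
  obtain ⟨g, hg, hgX⟩ := m2_exists_cyclic X t d hX hXns
  obtain ⟨h, hh, hhY⟩ := m2_exists_cyclic Y t d hY hYns
  have hhu : IsUnit h.det := isUnit_iff_ne_zero.mpr hh
  have hhinv : h * h⁻¹ = 1 := Matrix.mul_nonsing_inv h hhu
  have hhinv' : h⁻¹ * h = 1 := Matrix.nonsing_inv_mul h hhu
  have hP0 : X * (g * h⁻¹) = (g * h⁻¹) * Y := by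
    have h1 : !![0, -d; 1, t] * h⁻¹ = h⁻¹ * Y := by
      calc !![0, -d; 1, t] * h⁻¹ = h⁻¹ * (h * !![0, -d; 1, t]) * h⁻¹ := by
            rw [← mul_assoc h⁻¹, hhinv', one_mul]
        _ = h⁻¹ * (Y * h) * h⁻¹ := by rw [hhY]
        _ = h⁻¹ * Y := by rw [mul_assoc, mul_assoc, hhinv, mul_one]
    rw [← mul_assoc, hgX, mul_assoc, h1, mul_assoc]
  have hdet0 : (g * h⁻¹).det ≠ 0 := by
    rw [Matrix.det_mul]
    apply mul_ne_zero hg
    intro h0
    have := congrArg Matrix.det hhinv
    rw [Matrix.det_mul, h0, mul_zero, Matrix.det_one] at this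
    exact zero_ne_one this
  obtain ⟨α, β, hαβ⟩ := huniv ((g * h⁻¹).det)⁻¹ (inv_ne_zero hdet0)
  obtain ⟨htr, hdt⟩ := m2_trace_det Y t d hY hYns
  refine ⟨(g * h⁻¹) * (α • (1 : Matrix (Fin 2) (Fin 2) F) + β • Y), ?_, ?_⟩
  · rw [Matrix.det_mul]
    have hdc : (α • (1 : Matrix (Fin 2) (Fin 2) F) + β • Y).det =
        α ^ 2 + t * α * β + d * β ^ 2 := by
      rw [← htr, ← hdt, Matrix.det_fin_two, Matrix.trace_fin_two, Matrix.det_fin_two]
      simp
      ring
    rw [hdc, hαβ, mul_inv_cancel₀ hdet0]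
  · have hc : Y * (α • (1 : Matrix (Fin 2) (Fin 2) F) + β • Y) =
        (α • (1 : Matrix (Fin 2) (Fin 2) F) + β • Y) * Y := by
      simp only [mul_add, add_mul, smul_mul_assoc, mul_smul_comm, one_mul, mul_one]
    rw [← mul_assoc, hP0, mul_assoc, hc]
    simp only [mul_assoc]

end TwoByTwo

end Cfsg.Agent.Helper99
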