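import Mathlib

/-!
# Helper99: PIECE USUM of CALL S0984 (helper82): the sum of a class function over a cyclic
group of order four.
-/

set_option autoImplicit false
open scoped ComplexConjugate

universe u

namespace Cfsg.Agent.Helper99

/-- PIECE USUM -/
theorem a7_cyc_sum {G : Type u} [Group G] (f : G → ℂ) (hfinv : ∀ g : G, f g⁻¹ = conj (f g))
    (h2 : ∀ g : G, orderOf g = 2 → f g = 2) (h1 : f 1 = 6) (u : G) (hu : orderOf u = 4) :
    ∑ᶠ g ∈ ((Subgroup.zpowers u : Subgroup G) : Set G), f g = 8 + (f u + conj (f u)) := by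
  classical
  have hfin : IsOfFinOrder u := by
    rw [← orderOf_pos_iff, hu]
    norm_num
  have hset : ((Subgroup.zpowers u : Subgroup G) : Set G)
      = (((Finset.range 4).image (u ^ ·) : Finset G) : Set G) := by
    ext y
    rw [SetLike.mem_coe, hfin.mem_zpowers_iff_mem_range_orderOf, hu, Finset.mem_coe]
  have hu4 : u ^ 4 = 1 := by
    rw [← hu]
    exact pow_orderOf_eq_one u
  have hu2 : orderOf (u ^ 2) = 2 := by
    have h := orderOf_pow' (x := u) (n := 2) (by norm_num)
    rw [hu] at h
    simpa using h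
  have hu3 : u ^ 3 = u⁻¹ := by
    apply eq_inv_of_mul_eq_one_left
    rw [← pow_succ, hu4]
  have hinj : Set.InjOn (u ^ ·) ((Finset.range 4 : Finset ℕ) : Set ℕ) := by
    intro i hi j hj hij
    have h := pow_injOn_Iio_orderOf (x := u)
    rw [hu] at h
    exact h (by simpa using hi) (by simpa using hj) hij
  rw [hset, finsum_mem_coe_finset, Finset.sum_image hinj]
  simp only [Finset.sum_range_succ, Finset.sum_range_zero, pow_zero, pow_one, zero_add]
  rw [h1, h2 _ hu2, hu3, hfinv]
  ring

/-- A subgroup of a finite group as a finset, with the translation of `finsum`s. -/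
theorem a7_subgroup_finset {G : Type u} [Group G] [Finite G] (H : Subgroup G) :
    ∃ s : Finset G, (∀ g, g ∈ s ↔ g ∈ H) ∧ s.card = Nat.card H ∧
      ∀ f : G → ℂ, ∑ᶠ g ∈ (H : Set G), f g = ∑ g ∈ s, f g := by
  classical
  refine ⟨(Set.toFinite (H : Set G)).toFinset, fun g => ?_, ?_, fun f => ?_⟩
  · rw [Set.Finite.mem_toFinset, SetLike.mem_coe]
  · rw [← Set.ncard_eq_toFinset_card (H : Set G) (Set.toFinite _)]
    exact (Nat.card_coe_set_eq (H : Set G)).symm
  · exact finsum_mem_eq_finite_toFinset_sum f _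

end Cfsg.Agent.Helper99
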