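import Mathlib
import Cfsg.Agent.Helper99.A7USUM

/-!
# Helper99: PIECE NSUM of CALL S0984 (helper82): the sum of a class function over the normalizer
`N = P ⟨u⟩` of a Sylow 3-subgroup `P` of order nine, `u` of order four with `u²` inverting `P`.
-/

set_option autoImplicit false
open scoped ComplexConjugate

universe u

namespace Cfsg.Agent.Helper99

/-- PIECE NSUM -/
theorem a7_norm_sum {G : Type u} [Group G] [Finite G] (P : Sylow 3 G)
    (hP9 : Nat.card (P : Subgroup G) = 9)
    (hN36 : Nat.card (Subgroup.normalizer ((P : Subgroup G) : Set G)) = 36)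
    (f : G → ℂ) (hf : ∀ g h : G, f (h * g * h⁻¹) = f g) (hfinv : ∀ g : G, f g⁻¹ = conj (f g))
    (hP : ∑ᶠ g ∈ ((P : Subgroup G) : Set G), f g = 18)
    (h2 : ∀ g : G, orderOf g = 2 → f g = 2)
    (u : G) (huN : u ∈ Subgroup.normalizer ((P : Subgroup G) : Set G)) (hu : orderOf u = 4)
    (huinv : ∀ y ∈ (P : Subgroup G), u * u * y * (u * u)⁻¹ = y⁻¹) :
    ∑ᶠ g ∈ ((Subgroup.normalizer ((P : Subgroup G) : Set G) : Subgroup G) : Set G), f g
      = 36 + 9 * (f u + conj (f u)) := by
  classical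
  have hu4 : u ^ 4 = 1 := by
    rw [← hu]
    exact pow_orderOf_eq_one u
  have hPN : (P : Subgroup G) ≤ Subgroup.normalizer ((P : Subgroup G) : Set G) :=
    Subgroup.le_normalizer
  have hconjP : ∀ y ∈ (P : Subgroup G), u * y * u⁻¹ ∈ (P : Subgroup G) := fun y hy =>
    (Subgroup.mem_normalizer_iff.mp huN y).mp hy
  have hy9 : ∀ y ∈ (P : Subgroup G), y ^ 9 = 1 := by
    intro y hy
    have h := pow_card_eq_one' (G := (P : Subgroup G)) (x := ⟨y, hy⟩)
    rw [hP9] at h
    have h' := congrArg (fun z : (P : Subgroup G) => (z : G)) h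
    simpa using h'
  have hnot : ∀ k : ℕ, 0 < k → k < 4 → u ^ k ∉ (P : Subgroup G) := by
    intro k hk0 hk4 hmem
    have h9 := hy9 _ hmem
    rw [← pow_mul] at h9
    have hdvd : 4 ∣ k * 9 := by
      rw [← hu]
      exact orderOf_dvd_of_pow_eq_one h9
    omega
  -- `y u` is conjugate to `u` for `y ∈ P`
  have hL1 : ∀ y ∈ (P : Subgroup G), f (y * u) = f u := by
    intro y hy
    let φ : ↥(P : Subgroup G) → ↥(P : Subgroup G) := fun z =>
      ⟨(z : G) * (u * (z : G)⁻¹ * u⁻¹), mul_mem z.2 (hconjP _ (inv_mem z.2))⟩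
    have hφ : Function.Injective φ := by
      intro z z' hzz
      have heq : (z : G) * (u * (z : G)⁻¹ * u⁻¹) = (z' : G) * (u * (z' : G)⁻¹ * u⁻¹) :=
        congrArg Subtype.val hzz
      have hw : (z' : G)⁻¹ * (z : G) ∈ (P : Subgroup G) := mul_mem (inv_mem z'.2) z.2
      have hcomm : ((z' : G)⁻¹ * (z : G)) * u = u * ((z' : G)⁻¹ * (z : G)) := by
        calc ((z' : G)⁻¹ * (z : G)) * u
            = (z' : G)⁻¹ * ((z : G) * (u * (z : G)⁻¹ * u⁻¹)) * u * (z : G) := by group
          _ = (z' : G)⁻¹ * ((z' : G) * (u * (z' : G)⁻¹ * u⁻¹)) * u * (z : G) := by rw [heq]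
          _ = u * ((z' : G)⁻¹ * (z : G)) := by group
      have hfix : u * u * ((z' : G)⁻¹ * (z : G)) * (u * u)⁻¹ = (z' : G)⁻¹ * (z : G) := by
        rw [mul_assoc u u, ← hcomm, ← mul_assoc u, ← hcomm]
        group
      have hinv : ((z' : G)⁻¹ * (z : G))⁻¹ = (z' : G)⁻¹ * (z : G) := by
        rw [← huinv _ hw]
        exact hfix
      have hw2 : ((z' : G)⁻¹ * (z : G)) ^ 2 = 1 := by
        rw [pow_two]
        nth_rewrite 1 [← hinv]
        exact inv_mul_cancel _
      have hw9 : ((z' : G)⁻¹ * (z : G)) ^ 9 = (z' : G)⁻¹ * (z : G) := by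
        rw [show 9 = 2 * 4 + 1 from rfl, pow_succ, pow_mul, hw2, one_pow, one_mul]
      have hw1 : (z' : G)⁻¹ * (z : G) = 1 := by
        rw [← hw9]
        exact hy9 _ hw
      apply Subtype.ext
      exact (inv_mul_eq_one.mp hw1).symm
    obtain ⟨z, hz⟩ := (Finite.injective_iff_surjective.mp hφ) ⟨y, hy⟩
    have hz' : (z : G) * (u * (z : G)⁻¹ * u⁻¹) = y := congrArg Subtype.val hz
    have e : y * u = (z : G) * u * (z : G)⁻¹ := by
      rw [← hz']
      group
    rw [e, hf]
  -- `y u²` is an involution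
  have hL2 : ∀ y ∈ (P : Subgroup G), f (y * u ^ 2) = 2 := by
    intro y hy
    have e : u * u * y = y⁻¹ * (u * u) := mul_inv_eq_iff_eq_mul.mp (huinv y hy)
    have hsq : (y * u ^ 2) ^ 2 = 1 := by
      calc (y * u ^ 2) ^ 2 = y * (u * u * y) * (u * u) := by simp only [pow_two, mul_assoc]
        _ = y * (y⁻¹ * (u * u)) * (u * u) := by rw [e]
        _ = u * u * (u * u) := by rw [mul_inv_cancel_left]
        _ = u ^ 4 := by rw [show (4 : ℕ) = 2 + 2 from rfl, pow_add, pow_two]
        _ = 1 := hu4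
    have hne : y * u ^ 2 ≠ 1 := by
      intro h
      apply hnot 2 (by norm_num) (by norm_num)
      have : u ^ 2 = y⁻¹ := eq_inv_of_mul_eq_one_right h
      rw [this]
      exact inv_mem hy
    exact h2 _ (orderOf_eq_prime hsq hne)
  -- `y u³` is conjugate to `u⁻¹`
  have hL3 : ∀ y ∈ (P : Subgroup G), f (y * u ^ 3) = conj (f u) := by
    intro y hy
    have h := hfinv (y * u ^ 3)⁻¹
    rw [inv_inv] at h
    have e3 : (y * u ^ 3)⁻¹ = (u * y⁻¹ * u⁻¹) * u := by
      rw [mul_inv_rev, inv_eq_of_mul_eq_one_right (show u ^ 3 * u = 1 by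
        rw [← pow_succ]; exact hu4)]
      group
    rw [h, e3, hL1 _ (hconjP _ (inv_mem hy))]
  obtain ⟨sP, hsP, hcP, hsumP⟩ := a7_subgroup_finset (P : Subgroup G)
  obtain ⟨sN, hsN, hcN, hsumN⟩ :=
    a7_subgroup_finset (Subgroup.normalizer ((P : Subgroup G) : Set G))
  have hinj : Set.InjOn (fun p : G × ℕ => p.1 * u ^ p.2)
      ((sP ×ˢ Finset.range 4 : Finset (G × ℕ)) : Set (G × ℕ)) := by
    have key : ∀ (y y' : G) (i j : ℕ), y ∈ (P : Subgroup G) → y' ∈ (P : Subgroup G) → i < j →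
        j < 4 → y * u ^ i ≠ y' * u ^ j := by
      intro y y' i j hy hy' hij hj4 h
      apply hnot (j - i) (by omega) (by omega)
      have e1 : u ^ j = u ^ (j - i) * u ^ i := by
        rw [← pow_add]
        congr 1
        omega
      rw [e1, ← mul_assoc] at h
      have e2 : y = y' * u ^ (j - i) := mul_right_cancel h
      have e3 : u ^ (j - i) = y'⁻¹ * y := by
        rw [e2]
        group
      rw [e3]
      exact mul_mem (inv_mem hy') hy
    rintro ⟨y, i⟩ hyi ⟨y', j⟩ hyj h
    simp only [Finset.coe_product, Set.mem_prod, Finset.mem_coe, Finset.mem_range] at hyi hyj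
    have hy := (hsP y).mp hyi.1
    have hy' := (hsP y').mp hyj.1
    simp only at h
    rcases lt_trichotomy i j with hlt | heq | hgt
    · exact absurd h (key y y' i j hy hy' hlt hyj.2)
    · subst heq
      have : y = y' := mul_right_cancel h
      rw [this]
    · exact absurd h.symm (key y' y j i hy' hy hgt hyi.2)
  have himg : (sP ×ˢ Finset.range 4).image (fun p : G × ℕ => p.1 * u ^ p.2) = sN := by
    apply Finset.eq_of_subset_of_card_le
    · intro g hg
      obtain ⟨p, hp, rfl⟩ := Finset.mem_image.mp hg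
      rw [Finset.mem_product] at hp
      rw [hsN]
      exact mul_mem (hPN ((hsP _).mp hp.1)) (pow_mem huN _)
    · rw [Finset.card_image_of_injOn hinj, Finset.card_product, hcP, hP9, hcN, hN36,
        Finset.card_range]
  rw [hsumN, ← himg, Finset.sum_image hinj, Finset.sum_product]
  have hinner : ∀ y ∈ sP, ∑ i ∈ Finset.range 4, f (y * u ^ i)
      = f y + (f u + 2 + conj (f u)) := by
    intro y hy
    have hyP := (hsP y).mp hy
    simp only [Finset.sum_range_succ, Finset.sum_range_zero, pow_zero, pow_one, zero_add,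
      mul_one]
    rw [hL1 y hyP, hL2 y hyP, hL3 y hyP]
    ring
  rw [Finset.sum_congr rfl hinner, Finset.sum_add_distrib, ← hsumP, hP, Finset.sum_const, hcP,
    hP9]
  simp only [nsmul_eq_mul]
  push_cast
  ring

end Cfsg.Agent.Helper99
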