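import Mathlib
import Cfsg.Agent.Helper99.A7USUM

/-!
# Helper99: PIECE TSUM of CALL S0984 (helper82): the sum of a class function over a group of
order eight all of whose elements outside a cyclic subgroup of order four are involutions.
-/

set_option autoImplicit false
open scoped ComplexConjugate

universe u

namespace Cfsg.Agent.Helper99

/-- PIECE TSUM -/
theorem a7_syl2_sum {G : Type u} [Group G] [Finite G] (f : G → ℂ)
    (hfinv : ∀ g : G, f g⁻¹ = conj (f g)) (h2 : ∀ g : G, orderOf g = 2 → f g = 2)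
    (h1 : f 1 = 6) (u : G) (hu : orderOf u = 4) (T : Subgroup G) (hT8 : Nat.card T = 8)
    (huT : u ∈ T) (hTinv : ∀ g ∈ T, g ∉ Subgroup.zpowers u → orderOf g = 2) :
    ∑ᶠ g ∈ (T : Set G), f g = 16 + (f u + conj (f u)) := by
  classical
  have hZT : ((Subgroup.zpowers u : Subgroup G) : Set G) ⊆ (T : Set G) := by
    intro g hg
    exact (Subgroup.zpowers_le.mpr huT) hg
  have hsplit : (T : Set G) = ((Subgroup.zpowers u : Subgroup G) : Set G) ∪
      ((T : Set G) \ ((Subgroup.zpowers u : Subgroup G) : Set G)) :=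
    (Set.union_diff_cancel hZT).symm
  have hcT : (T : Set G).ncard = 8 := by
    rw [← hT8]
    exact (Nat.card_coe_set_eq (T : Set G)).symm
  have hcZ : ((Subgroup.zpowers u : Subgroup G) : Set G).ncard = 4 := by
    rw [← hu, ← Nat.card_zpowers u]
    exact (Nat.card_coe_set_eq ((Subgroup.zpowers u : Subgroup G) : Set G)).symm
  have hD : ∑ᶠ g ∈ ((T : Set G) \ ((Subgroup.zpowers u : Subgroup G) : Set G)), f g = 8 := by
    rw [finsum_mem_eq_finite_toFinset_sum f (Set.toFinite _)]
    have hc : ∀ g ∈ (Set.toFinite ((T : Set G) \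
        ((Subgroup.zpowers u : Subgroup G) : Set G))).toFinset, f g = (2 : ℂ) := by
      intro g hg
      rw [Set.Finite.mem_toFinset] at hg
      exact h2 g (hTinv g hg.1 hg.2)
    rw [Finset.sum_congr rfl hc, Finset.sum_const, ← Set.ncard_eq_toFinset_card,
      Set.ncard_diff hZT, hcT, hcZ]
    norm_num
  rw [hsplit, finsum_mem_union Set.disjoint_sdiff_right (Set.toFinite _) (Set.toFinite _),
    a7_cyc_sum f hfinv h2 h1 u hu, hD]
  ring

end Cfsg.Agent.Helper99
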