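import Mathlib
import Cfsg.Prelude.Def_FusionSystem
import Cfsg.Prelude.Def_Local
import Cfsg.Agent.Helper84.FusionIso
import Cfsg.Agent.Helper84.FusionAut
import Cfsg.Agent.Helper84.ModelSub
import Cfsg.Agent.Helper84.Model
import Cfsg.Agent.Helper84.QuotModelF
import Cfsg.Agent.Helper85.Constrained
import Cfsg.Agent.Helper32.HallHigman
import Cfsg.Agent.Helper32.PSolvable
import Cfsg.Agent.Helper63.PSolv
import Cfsg.Agent.Helper76.PSolvable
import Cfsg.Agent.S5103

/-!
# Fusion systems of `p`-solvable groups (helper99)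

`psr_range`: for a system `F` realized by `ι : S →* G` and `Q ≤ S`, the automizer `Aut_F(Q)` is the image of
`N_G(ι Q) → Aut(Q)`.  `psr_autGroup_isPSolvable`: so it is `p`-solvable when `G` is.
`psr_model_isPSolvable`: a model of a constrained system whose `Aut_F(O_p(F))` is `p`-solvable is `p`-solvable.
-/

set_option autoImplicit false

namespace Cfsg.Agent.Helper99

open Cfsg Cfsg.FusionSystem

universe u

section
variable {Ω : Type*} [Group Ω] {S : Subgroup Ω}

/-- The embedding of `Q ≤ S` in `G` along `ι`. -/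
def psrJ {G : Type*} [Group G] (ι : S →* G) {Q : Subgroup Ω} (hQ : Q ≤ S) : ↥Q →* G :=
  ι.comp (Subgroup.inclusion hQ)

theorem psrJ_apply {G : Type*} [Group G] (ι : S →* G) {Q : Subgroup Ω} (hQ : Q ≤ S) (x : Q) :
    psrJ ι hQ x = ι ⟨x, hQ x.2⟩ := rfl

theorem psrJ_injective {G : Type*} [Group G] (ι : S →* G) (hι : Function.Injective ι)
    {Q : Subgroup Ω} (hQ : Q ≤ S) : Function.Injective (psrJ ι hQ) :=
  hι.comp (Subgroup.inclusion_injective hQ)

/-- The homomorphism `N_G(ι Q) → Aut(Q)`. -/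
noncomputable def psrPhi {G : Type*} [Group G] (ι : S →* G) (hι : Function.Injective ι)
    {Q : Subgroup Ω} (hQ : Q ≤ S) :
    ↥(Subgroup.normalizer ((psrJ ι hQ).range : Set G)) →* MulAut ↥Q :=
  (MulAut.congr (MonoidHom.ofInjective (psrJ_injective ι hι hQ)).symm).toMonoidHom.comp
    (psrJ ι hQ).range.normalizerMonoidHom

theorem psrPhi_apply {G : Type*} [Group G] (ι : S →* G) (hι : Function.Injective ι)
    {Q : Subgroup Ω} (hQ : Q ≤ S) (n : ↥(Subgroup.normalizer ((psrJ ι hQ).range : Set G))) (q : Q) :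
    psrJ ι hQ (psrPhi ι hι hQ n q) = (n : G) * psrJ ι hQ q * (n : G)⁻¹ := by
  set e := MonoidHom.ofInjective (psrJ_injective ι hι hQ) with he
  have h1 : psrPhi ι hι hQ n q = e.symm ((psrJ ι hQ).range.normalizerMonoidHom n (e q)) := rfl
  have h2 : ∀ y : (psrJ ι hQ).range, psrJ ι hQ (e.symm y) = (y : G) := by
    intro y
    have := MonoidHom.ofInjective_apply (psrJ_injective ι hι hQ) (x := e.symm y)
    rw [← he, MulEquiv.apply_symm_apply] at this
    exact this.symm
  rw [h1, h2]
  have h3 : ((e q : (psrJ ι hQ).range) : G) = psrJ ι hQ q :=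
    MonoidHom.ofInjective_apply (psrJ_injective ι hι hQ)
  rw [← h3]
  rfl

/-- For a realized system, `Aut_F(Q)` is the image of `N_G(ι Q)`. -/
theorem psr_range {G : Type*} [Group G] (F : FusionSystem S) (ι : S →* G) (hreal : F.IsRealizedBy ι)
    {Q : Subgroup Ω} (hQ : Q ≤ S) : (psrPhi ι hreal.1 hQ).range = F.autGroup Q := by
  have hinj := psrJ_injective ι hreal.1 hQ
  ext α
  rw [Helper84.mem_autGroup_iff F hQ α]
  have hφ : ∀ x : Q, (Q.subtype.comp α.toMonoidHom) x ∈ S := fun x => hQ (α x).2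
  rw [hreal.2 Q hQ _ hφ]
  constructor
  · rintro ⟨n, rfl⟩
    exact ⟨n, fun x => psrPhi_apply ι hreal.1 hQ n x⟩
  · rintro ⟨g, hg⟩
    have hg' : ∀ x : Q, psrJ ι hQ (α x) = g * psrJ ι hQ x * g⁻¹ := hg
    have hgN : g ∈ Subgroup.normalizer ((psrJ ι hQ).range : Set G) := by
      rw [Subgroup.mem_normalizer_iff]
      intro h
      constructor
      · rintro ⟨x, rfl⟩
        exact ⟨α x, hg' x⟩
      · rintro ⟨y, hy⟩
        refine ⟨α⁻¹ y, ?_⟩
        have h1 := hg' (α⁻¹ y)
        rw [MulAut.apply_inv_self, hy] at h1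
        have h2 : g * h * g⁻¹ = g * psrJ ι hQ (α⁻¹ y) * g⁻¹ := h1
        exact (mul_left_cancel (mul_right_cancel h2)).symm
    refine ⟨⟨g, hgN⟩, ?_⟩
    ext x
    have h1 := psrPhi_apply ι hreal.1 hQ ⟨g, hgN⟩ x
    have h2 : psrJ ι hQ (psrPhi ι hreal.1 hQ ⟨g, hgN⟩ x) = psrJ ι hQ (α x) := by
      rw [h1, hg' x]
    exact congrArg Subtype.val (hinj h2)

/-- The kernel of `N_G(ι Q) → Aut(Q)` centralizes `ι Q`. -/
theorem psr_ker_le {G : Type*} [Group G] (ι : S →* G) (hι : Function.Injective ι)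
    {Q : Subgroup Ω} (hQ : Q ≤ S) (n : ↥(Subgroup.normalizer ((psrJ ι hQ).range : Set G)))
    (hn : n ∈ (psrPhi ι hι hQ).ker) :
    (n : G) ∈ Subgroup.centralizer ((psrJ ι hQ).range : Set G) := by
  rw [Subgroup.mem_centralizer_iff]
  rintro _ ⟨q, rfl⟩
  have h1 := psrPhi_apply ι hι hQ n q
  rw [MonoidHom.mem_ker] at hn
  rw [hn] at h1
  have h2 : psrJ ι hQ q = (n : G) * psrJ ι hQ q * (n : G)⁻¹ := h1
  calc psrJ ι hQ q * (n : G) = (n : G) * psrJ ι hQ q * (n : G)⁻¹ * (n : G) := by rw [← h2]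
    _ = (n : G) * psrJ ι hQ q := by group

/-- In a system realized by a `p`-solvable group all automizers are `p`-solvable. -/
theorem psr_autGroup_isPSolvable {p : ℕ} [hp : Fact p.Prime] {G : Type*} [Group G]
    (F : FusionSystem S) (ι : S →* G) (hreal : F.IsRealizedBy ι) (hG : IsPSolvable p G)
    {Q : Subgroup Ω} (hQ : Q ≤ S) : IsPSolvable p ↥(F.autGroup Q) := by
  have h1 : IsPSolvable p ↥(Subgroup.normalizer ((psrJ ι hQ).range : Set G)) :=
    Helper32.isPSolvable_subgroup hp.out hG _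
  have h2 := Helper32.isPSolvable_quotient hp.out h1 (psrPhi ι hreal.1 hQ).ker
  have h3 := Helper32.isPSolvable_of_equiv
    (QuotientGroup.quotientKerEquivRange (psrPhi ι hreal.1 hQ)) h2
  exact Helper32.isPSolvable_of_equiv (MulEquiv.subgroupCongr (psr_range F ι hreal hQ)) h3

end

section
variable {Ω : Type u} [Group Ω] {S : Subgroup Ω}

/-- A model of a constrained system whose automizer of `O_p(F)` is `p`-solvable is `p`-solvable. -/
theorem psr_model_isPSolvable [Finite S] {p : ℕ} [hp : Fact p.Prime] (hS : IsPGroup p S)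
    (F : FusionSystem S) (hF : F.IsConstrained p) (hA : IsPSolvable p ↥(F.autGroup F.core))
    {L : Type*} [Group L] (ι : S →* L) (hM : F.IsModel p L ι) : IsPSolvable p L := by
  obtain ⟨hn, hc⟩ := Helper85.core_isCentric hF
  have hQ : F.core ≤ S := hn.1
  haveI : Finite L := hM.1
  have hreal := hM.2.1
  have hcen := hM.2.2.2
  have hcore : F.core = Helper84.corePre p ι :=
    le_antisymm (Helper84.le_corePre hS F hF.1 hn hc hM)
      (le_sSup (Helper84.corePre_isNormal F hM))
  have hrange : (psrJ ι hQ).range = pCore p L := by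
    ext y
    constructor
    · rintro ⟨q, rfl⟩
      have hq : ((⟨q, hQ q.2⟩ : S) : Ω) ∈ Helper84.corePre p ι := hcore ▸ q.2
      exact (Helper84.mem_corePre_iff p ι _).1 hq
    · intro hy
      obtain ⟨s, rfl⟩ := Helper84.model_pCore_le_range F hM hy
      have hs : (s : Ω) ∈ F.core := by
        rw [hcore]
        exact (Helper84.mem_corePre_iff p ι s).2 hy
      exact ⟨⟨s, hs⟩, rfl⟩
  have hOn : (pCore p L).Normal := inferInstance
  have hNtop : Subgroup.normalizer ((psrJ ι hQ).range : Set L) = ⊤ := by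
    rw [hrange]
    exact Subgroup.normalizer_eq_top_iff.mpr hOn
  have hOp : IsPGroup p (pCore p L) := Helper32.pCore_isPGroup' p L
  have hcc : Subgroup.centralizer ((psrJ ι hQ).range : Set L) ≤ pCore p L := by
    rw [hrange]
    exact hcen
  have hker : IsPGroup p ↥(psrPhi ι hreal.1 hQ).ker := by
    intro x
    have h1 := psr_ker_le ι hreal.1 hQ x.1 x.2
    have h2 : ((x : ↥(Subgroup.normalizer ((psrJ ι hQ).range : Set L))) : L) ∈ pCore p L :=
      hcc h1
    obtain ⟨k, hk⟩ := hOp ⟨_, h2⟩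
    refine ⟨k, ?_⟩
    have hk' : ((x : ↥(Subgroup.normalizer ((psrJ ι hQ).range : Set L))) : L) ^ p ^ k = 1 := by
      have := congrArg Subtype.val hk
      simpa using this
    apply Subtype.ext
    apply Subtype.ext
    rw [Subgroup.coe_pow, Subgroup.coe_pow]
    exact hk'
  have h3 : IsPSolvable p (↥(Subgroup.normalizer ((psrJ ι hQ).range : Set L)) ⧸
      (psrPhi ι hreal.1 hQ).ker) := by
    have h4 := Helper32.isPSolvable_of_equiv
      (MulEquiv.subgroupCongr (psr_range F ι hreal hQ)).symm hA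
    exact Helper32.isPSolvable_of_equiv
      (QuotientGroup.quotientKerEquivRange (psrPhi ι hreal.1 hQ)).symm h4
  have h5 : IsPSolvable p ↥(Subgroup.normalizer ((psrJ ι hQ).range : Set L)) :=
    Helper63.PSolv.isPSolvable_extension (psrPhi ι hreal.1 hQ).ker
      (Or.inl hker.exists_card_eq) h3
  exact Helper32.isPSolvable_of_equiv
    ((MulEquiv.subgroupCongr hNtop).trans Subgroup.topEquiv) h5

/-- A system realized by a `p`-solvable group on a Sylow `p`-subgroup is constrained. -/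
theorem psr_constrained [Finite S] {p : ℕ} [hp : Fact p.Prime] (hS : IsPGroup p S)
    (F : FusionSystem S) {G : Type*} [Group G] [Finite G] (ι : S →* G)
    (hG : IsPSolvable p G) (hreal : F.IsRealizedBy ι) (T : Sylow p G)
    (hT : (T : Subgroup G) = ι.range) : F.IsConstrained p := by
  have hD : ¬ p ∣ Nat.card (pPrimeCore p G) := by
    have h1 : (Nat.card (pPrimeCore p G)).Coprime p := Helper76.pPrimeCore_coprime
    intro h2
    exact hp.out.one_lt.ne' (Nat.Coprime.eq_one_of_dvd h1.symm h2)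
  obtain ⟨hreal', P₂, hP₂⟩ := Helper84.realized_quot_pprime hS F hreal T hT (pPrimeCore p G) hD
  have hG' : IsPSolvable p (G ⧸ pPrimeCore p G) :=
    Helper32.isPSolvable_quotient hp.out hG (pPrimeCore p G)
  have hred : pPrimeCore p (G ⧸ pPrimeCore p G) = ⊥ := Helper76.pPrimeCore_quotient_eq_bot
  have hcen := Helper32.centralizer_pCore_le_of_isPSolvable hG' hred
  exact Cfsg.Agent.S5103.result p hS F _ ⟨inferInstance, hreal', ⟨P₂, hP₂⟩, hcen⟩

end

end Cfsg.Agent.Helper99
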