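import Mathlib
import Cfsg.Agent.Helper99.QdStable
import Cfsg.Agent.Helper99.DicksonLiteB

set_option autoImplicit false
set_option linter.unusedSimpArgs false

namespace Cfsg.Agent.Helper99

open Cfsg Matrix

/-- `H` is involved in `G` as soon as some group embeds in `G` and maps onto `H`. -/
theorem involves_of_inj_surj {H : Type*} {G : Type*} {A : Type*} [Group H] [Group G] [Group A]
    (j : A →* G) (hj : Function.Injective j) (f : A →* H) (hf : Function.Surjective f) :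
    Cfsg.Involves H G := by
  let e : A ≃* j.range := MonoidHom.ofInjective hj
  let f' : j.range →* H := f.comp e.symm.toMonoidHom
  have hf' : Function.Surjective f' := hf.comp e.symm.surjective
  have hR : (f'.ker.map j.range.subtype).subgroupOf j.range = f'.ker :=
    Subgroup.comap_map_eq_self_of_injective (Subgroup.subtype_injective _) _
  have hn : ((f'.ker.map j.range.subtype).subgroupOf j.range).Normal := by
    rw [hR]; infer_instance
  exact ⟨j.range, f'.ker.map j.range.subtype, hn,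
    ⟨(QuotientGroup.quotientMulEquivOfEq hR).trans
      (QuotientGroup.quotientKerEquivOfSurjective f' hf')⟩⟩

section Plane

variable (p : ℕ) [Fact p.Prime]

/-- the central involution `-1` of `SL(2, p)` -/
def qdZ : Matrix.SpecialLinearGroup (Fin 2) (ZMod p) :=
  ⟨!![-1, 0; 0, -1], by simp [Matrix.det_fin_two]⟩

@[simp] theorem qdZ_00 : (qdZ p).1 0 0 = -1 := rfl
@[simp] theorem qdZ_01 : (qdZ p).1 0 1 = 0 := rfl
@[simp] theorem qdZ_10 : (qdZ p).1 1 0 = 0 := rfl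
@[simp] theorem qdZ_11 : (qdZ p).1 1 1 = -1 := rfl

theorem qdZ_central (A : Matrix.SpecialLinearGroup (Fin 2) (ZMod p)) :
    A * qdZ p = qdZ p * A := by
  apply sl_ext' <;> rw [sl_mul_apply', sl_mul_apply'] <;> simp

theorem qdZ_sq : qdZ p ^ 2 = 1 := by
  rw [pow_two]
  apply sl_ext' <;> rw [sl_mul_apply', sl_one_apply'] <;> simp

theorem qdZ_pow_odd {m : ℕ} (hm : Odd m) : qdZ p ^ m = qdZ p := by
  rw [pow_eq_pow_mod m (qdZ_sq p), Nat.odd_iff.mp hm, pow_one]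

/-- the natural action of `SL(2, p)` on the plane, written multiplicatively -/
def qdActHom : Matrix.SpecialLinearGroup (Fin 2) (ZMod p) →*
    MulAut (Multiplicative (Fin 2 → ZMod p)) where
  toFun A :=
    { toFun := fun v => Multiplicative.ofAdd (A.1 *ᵥ Multiplicative.toAdd v)
      invFun := fun v => Multiplicative.ofAdd ((A⁻¹).1 *ᵥ Multiplicative.toAdd v)
      left_inv := by
        intro v
        change Multiplicative.ofAdd ((A⁻¹).1 *ᵥ (A.1 *ᵥ Multiplicative.toAdd v)) = v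
        rw [Matrix.mulVec_mulVec, ← Matrix.SpecialLinearGroup.coe_mul, inv_mul_cancel,
          Matrix.SpecialLinearGroup.coe_one, Matrix.one_mulVec]
        rfl
      right_inv := by
        intro v
        change Multiplicative.ofAdd (A.1 *ᵥ ((A⁻¹).1 *ᵥ Multiplicative.toAdd v)) = v
        rw [Matrix.mulVec_mulVec, ← Matrix.SpecialLinearGroup.coe_mul, mul_inv_cancel,
          Matrix.SpecialLinearGroup.coe_one, Matrix.one_mulVec]
        rfl
      map_mul' := by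
        intro v w
        change Multiplicative.ofAdd
          (A.1 *ᵥ (Multiplicative.toAdd v + Multiplicative.toAdd w)) = _
        rw [Matrix.mulVec_add]
        rfl }
  map_one' := by
    apply MulEquiv.ext
    intro v
    change Multiplicative.ofAdd
      ((1 : Matrix.SpecialLinearGroup (Fin 2) (ZMod p)).1 *ᵥ Multiplicative.toAdd v) = v
    rw [Matrix.SpecialLinearGroup.coe_one, Matrix.one_mulVec]
    rfl
  map_mul' := by
    intro A B
    apply MulEquiv.ext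
    intro v
    change Multiplicative.ofAdd ((A * B).1 *ᵥ Multiplicative.toAdd v) =
      Multiplicative.ofAdd (A.1 *ᵥ (B.1 *ᵥ Multiplicative.toAdd v))
    rw [Matrix.mulVec_mulVec, Matrix.SpecialLinearGroup.coe_mul]

theorem qdActHom_apply (A : Matrix.SpecialLinearGroup (Fin 2) (ZMod p))
    (v : Multiplicative (Fin 2 → ZMod p)) :
    qdActHom p A v = Multiplicative.ofAdd (A.1 *ᵥ Multiplicative.toAdd v) := rfl

/-- translations of `Qd(p)` -/
def qdTr : Multiplicative (Fin 2 → ZMod p) →* ↥(Cfsg.qd p) where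
  toFun v := qdMk p 1 0 0 1 (Multiplicative.toAdd v 0) (Multiplicative.toAdd v 1) (by ring)
  map_one' := by
    rw [← qdMk_one]
    apply qdMk_congr <;> simp
  map_mul' := by
    intro v w
    rw [qdMk_mul]
    apply qdMk_congr <;> simp [toAdd_mul] <;> ring

/-- the complement `SL(2, p)` of `Qd(p)` -/
def qdBl : Matrix.SpecialLinearGroup (Fin 2) (ZMod p) →* ↥(Cfsg.qd p) where
  toFun A := qdMk p (A.1 0 0) (A.1 0 1) (A.1 1 0) (A.1 1 1) 0 0 (sl_det' A)
  map_one' := by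
    rw [← qdMk_one]
    apply qdMk_congr <;> simp [sl_one_apply']
  map_mul' := by
    intro A B
    rw [qdMk_mul]
    apply qdMk_congr <;> simp [sl_mul_apply']

theorem qdTr_apply (v : Multiplicative (Fin 2 → ZMod p)) :
    qdTr p v = qdMk p 1 0 0 1 (Multiplicative.toAdd v 0) (Multiplicative.toAdd v 1) (by ring) :=
  rfl

theorem qdBl_apply (A : Matrix.SpecialLinearGroup (Fin 2) (ZMod p)) :
    qdBl p A = qdMk p (A.1 0 0) (A.1 0 1) (A.1 1 0) (A.1 1 1) 0 0 (sl_det' A) := rfl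

theorem qdBl_mul_qdTr (A : Matrix.SpecialLinearGroup (Fin 2) (ZMod p))
    (v : Multiplicative (Fin 2 → ZMod p)) :
    qdBl p A * qdTr p v = qdTr p (qdActHom p A v) * qdBl p A := by
  rw [qdBl_apply, qdTr_apply, qdTr_apply, qdMk_mul, qdMk_mul]
  apply qdMk_congr <;>
    simp [qdActHom_apply, Matrix.mulVec, dotProduct, Fin.sum_univ_two]

theorem qdTr_mul_qdBl (A : Matrix.SpecialLinearGroup (Fin 2) (ZMod p)) (s t : ZMod p) :
    qdTr p (Multiplicative.ofAdd ![s, t]) * qdBl p A =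
      qdMk p (A.1 0 0) (A.1 0 1) (A.1 1 0) (A.1 1 1) s t (sl_det' A) := by
  rw [qdBl_apply, qdTr_apply, qdMk_mul]
  apply qdMk_congr <;> simp

variable {G : Type*} [Group G]

theorem qd_pow_val {u : G} (hu : u ^ p = 1) (x : ZMod p) (n : ℕ) (h : (n : ZMod p) = x) :
    u ^ x.val = u ^ n := by
  rw [← h, ZMod.val_natCast, ← pow_eq_pow_mod n hu]

/-- the map `v ↦ u₁ ^ v₀ * u₂ ^ v₁` -/
def qdE (u₁ u₂ : G) (v : Fin 2 → ZMod p) : G := u₁ ^ (v 0).val * u₂ ^ (v 1).val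

theorem qdE_zero (u₁ u₂ : G) : qdE p u₁ u₂ 0 = 1 := by
  simp [qdE]

theorem qdE_add {u₁ u₂ : G} (hc : Commute u₁ u₂) (h₁ : u₁ ^ p = 1) (h₂ : u₂ ^ p = 1)
    (v w : Fin 2 → ZMod p) : qdE p u₁ u₂ (v + w) = qdE p u₁ u₂ v * qdE p u₁ u₂ w := by
  unfold qdE
  have e1 : u₁ ^ ((v + w) 0).val = u₁ ^ ((v 0).val + (w 0).val) :=
    qd_pow_val p h₁ _ _ (by simp)
  have e2 : u₂ ^ ((v + w) 1).val = u₂ ^ ((v 1).val + (w 1).val) :=
    qd_pow_val p h₂ _ _ (by simp)
  rw [e1, e2, pow_add, pow_add]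
  have hc' : Commute (u₁ ^ (w 0).val) (u₂ ^ (v 1).val) := hc.pow_pow _ _
  calc u₁ ^ (v 0).val * u₁ ^ (w 0).val * (u₂ ^ (v 1).val * u₂ ^ (w 1).val)
      = u₁ ^ (v 0).val * (u₁ ^ (w 0).val * u₂ ^ (v 1).val) * u₂ ^ (w 1).val := by
        simp only [mul_assoc]
    _ = u₁ ^ (v 0).val * (u₂ ^ (v 1).val * u₁ ^ (w 0).val) * u₂ ^ (w 1).val := by rw [hc'.eq]
    _ = _ := by simp only [mul_assoc]

theorem qdE_pow {u₁ u₂ : G} (hc : Commute u₁ u₂) (h₁ : u₁ ^ p = 1) (h₂ : u₂ ^ p = 1)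
    (v : Fin 2 → ZMod p) (n : ℕ) : qdE p u₁ u₂ v ^ n = qdE p u₁ u₂ ((n : ZMod p) • v) := by
  induction n with
  | zero => simp [qdE_zero]
  | succ n ih =>
    rw [pow_succ, ih, ← qdE_add p hc h₁ h₂]
    congr 1
    push_cast
    rw [add_smul, one_smul]

theorem qdE_eq_one {u₁ u₂ : G}
    (hind : ∀ i j : ℕ, u₁ ^ i * u₂ ^ j = 1 → p ∣ i ∧ p ∣ j) (v : Fin 2 → ZMod p)
    (h : qdE p u₁ u₂ v = 1) : v = 0 := by
  obtain ⟨h0, h1⟩ := hind _ _ h
  have hp0 : NeZero p := ⟨(Fact.out : p.Prime).ne_zero⟩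
  ext i
  fin_cases i
  · have := Nat.eq_zero_of_dvd_of_lt h0 (ZMod.val_lt (v 0))
    simpa using (ZMod.val_eq_zero (v 0)).mp this
  · have := Nat.eq_zero_of_dvd_of_lt h1 (ZMod.val_lt (v 1))
    simpa using (ZMod.val_eq_zero (v 1)).mp this

theorem qdE_conj {u₁ u₂ : G} (hc : Commute u₁ u₂) (h₁ : u₁ ^ p = 1) (h₂ : u₂ ^ p = 1)
    (k : G) (A : Matrix (Fin 2) (Fin 2) (ZMod p))
    (hk₁ : k * u₁ * k⁻¹ = u₁ ^ (A 0 0).val * u₂ ^ (A 1 0).val)
    (hk₂ : k * u₂ * k⁻¹ = u₁ ^ (A 0 1).val * u₂ ^ (A 1 1).val) (v : Fin 2 → ZMod p) :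
    k * qdE p u₁ u₂ v * k⁻¹ = qdE p u₁ u₂ (A *ᵥ v) := by
  have hp0 : NeZero p := ⟨(Fact.out : p.Prime).ne_zero⟩
  have e : k * qdE p u₁ u₂ v * k⁻¹ =
      (k * u₁ * k⁻¹) ^ (v 0).val * (k * u₂ * k⁻¹) ^ (v 1).val := by
    rw [conj_pow, conj_pow]
    unfold qdE
    group
  have e1 : u₁ ^ (A 0 0).val * u₂ ^ (A 1 0).val = qdE p u₁ u₂ ![A 0 0, A 1 0] := by
    simp [qdE]
  have e2 : u₁ ^ (A 0 1).val * u₂ ^ (A 1 1).val = qdE p u₁ u₂ ![A 0 1, A 1 1] := by
    simp [qdE]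
  rw [e, hk₁, hk₂, e1, e2, qdE_pow p hc h₁ h₂, qdE_pow p hc h₁ h₂, ← qdE_add p hc h₁ h₂]
  congr 1
  ext i
  fin_cases i <;> simp [Matrix.mulVec, dotProduct, Fin.sum_univ_two] <;> ring

/-- `qdE` as a homomorphism -/
def qdEhom {u₁ u₂ : G} (hc : Commute u₁ u₂) (h₁ : u₁ ^ p = 1) (h₂ : u₂ ^ p = 1) :
    Multiplicative (Fin 2 → ZMod p) →* G where
  toFun v := qdE p u₁ u₂ (Multiplicative.toAdd v)
  map_one' := qdE_zero p u₁ u₂
  map_mul' _ _ := qdE_add p hc h₁ h₂ _ _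

/-- **Natural module ⇒ `Qd(p)` section.** If `K ≤ G` maps onto `SL(2, p)` and acts on the
independent commuting elements `u₁, u₂` of order `p` as on the natural module, then `Qd(p)` is
involved in `G`. -/
theorem qd_involved_of_natural [Finite G] (hp : p ≠ 2)
    (u₁ u₂ : G) (hc : Commute u₁ u₂) (h₁ : u₁ ^ p = 1) (h₂ : u₂ ^ p = 1)
    (hind : ∀ i j : ℕ, u₁ ^ i * u₂ ^ j = 1 → p ∣ i ∧ p ∣ j)
    (K : Subgroup G) (f : K →* Matrix.SpecialLinearGroup (Fin 2) (ZMod p))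
    (hf : Function.Surjective f)
    (hact₁ : ∀ k : K, (k : G) * u₁ * (k : G)⁻¹ =
      u₁ ^ ((f k).1 0 0).val * u₂ ^ ((f k).1 1 0).val)
    (hact₂ : ∀ k : K, (k : G) * u₂ * (k : G)⁻¹ =
      u₁ ^ ((f k).1 0 1).val * u₂ ^ ((f k).1 1 1).val) :
    Cfsg.Involves ↥(Cfsg.qd p) G := by
  classical
  have hconj : ∀ (k : K) (v : Fin 2 → ZMod p),
      (k : G) * qdE p u₁ u₂ v * (k : G)⁻¹ = qdE p u₁ u₂ ((f k).1 *ᵥ v) :=
    fun k v => qdE_conj p hc h₁ h₂ (k : G) (f k).1 (hact₁ k) (hact₂ k) v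
  -- a 2-element `t` with `f t = -1`
  obtain ⟨t₀, ht₀⟩ := hf (qdZ p)
  obtain ⟨e, m, hm, hom⟩ := Nat.exists_eq_two_pow_mul_odd (orderOf_pos t₀).ne'
  set t : K := t₀ ^ m with htdef
  have hft : f t = qdZ p := by
    rw [htdef, map_pow, ht₀]
    exact qdZ_pow_odd p hm
  have ht2 : t ^ (2 ^ e) = 1 := by
    rw [htdef, ← pow_mul, mul_comm, ← hom, pow_orderOf_eq_one]
  -- the preimage `B` of `⟨-1⟩`
  have hZ2n : (Subgroup.zpowers (qdZ p)).Normal := by
    constructor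
    intro n hn g
    obtain ⟨i, rfl⟩ := Subgroup.mem_zpowers_iff.mp hn
    have hcomm : Commute g (qdZ p) := qdZ_central p g
    have : g * qdZ p ^ i * g⁻¹ = qdZ p ^ i := by
      rw [(hcomm.zpow_right i).eq, mul_inv_cancel_right]
    rw [this]
    exact Subgroup.zpow_mem_zpowers _ _
  set B : Subgroup K := (Subgroup.zpowers (qdZ p)).comap f with hBdef
  have hBn : B.Normal := hZ2n.comap f
  have htB : t ∈ B := by
    rw [hBdef, Subgroup.mem_comap, hft]
    exact Subgroup.mem_zpowers _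
  have h2t : IsPGroup 2 (Subgroup.zpowers (⟨t, htB⟩ : B)) := by
    rintro ⟨g, hg⟩
    obtain ⟨i, rfl⟩ := Subgroup.mem_zpowers_iff.mp hg
    refine ⟨e, ?_⟩
    apply Subtype.ext
    have h1 : (⟨t, htB⟩ : B) ^ (2 ^ e) = 1 := Subtype.ext ht2
    change ((⟨t, htB⟩ : B) ^ i) ^ (2 ^ e) = 1
    rw [← zpow_natCast, ← _root_.zpow_mul, mul_comm, _root_.zpow_mul, zpow_natCast, h1, _root_.one_zpow]
  obtain ⟨T, hT⟩ := h2t.exists_le_sylow
  have hFr := Sylow.normalizer_sup_eq_top T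
  set T' : Subgroup K := (T : Subgroup B).map B.subtype with hT'
  set K₁ : Subgroup K := Subgroup.normalizer (T' : Set K) with hK₁
  have htT' : t ∈ T' := ⟨⟨t, htB⟩, hT (Subgroup.mem_zpowers _), rfl⟩
  have htK₁ : t ∈ K₁ := Subgroup.le_normalizer htT'
  -- `K₁` maps onto `SL(2, p)`
  have hsurj : ∀ s, ∃ n : K, n ∈ K₁ ∧ f n = s := by
    intro s
    obtain ⟨k, rfl⟩ := hf s
    have hk : k ∈ K₁ ⊔ B := by rw [hFr]; trivial
    rw [← SetLike.mem_coe, Subgroup.mul_normal] at hk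
    obtain ⟨n, hn, b, hb, rfl⟩ := Set.mem_mul.mp hk
    have hb' : f b ∈ Subgroup.zpowers (qdZ p) := hb
    obtain ⟨i, hi⟩ := Subgroup.mem_zpowers_iff.mp hb'
    refine ⟨n * t ^ i, K₁.mul_mem hn (K₁.zpow_mem htK₁ i), ?_⟩
    rw [map_mul, map_mul, map_zpow, hft, hi]
  -- `t` inverts the plane
  have hinv : ∀ v, (t : G) * qdE p u₁ u₂ v * (t : G)⁻¹ = qdE p u₁ u₂ (-v) := by
    intro v
    rw [hconj, hft]
    congr 1
    ext i
    fin_cases i <;> simp [qdZ, Matrix.mulVec, dotProduct, Fin.sum_univ_two]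
  have h2ne : (2 : ZMod p) ≠ 0 := by
    intro h2
    have h3 : ((2 : ℕ) : ZMod p) = 0 := by exact_mod_cast h2
    rw [ZMod.natCast_eq_zero_iff] at h3
    exact hp ((Nat.prime_dvd_prime_iff_eq (Fact.out : p.Prime) Nat.prime_two).1 h3)
  -- `K₁` meets the plane trivially
  have hK₁U : ∀ n : K, n ∈ K₁ → ∀ v, (n : G) = qdE p u₁ u₂ v → v = 0 := by
    intro n hn v hv
    have hc1 : n * t * n⁻¹ ∈ T' := (Subgroup.mem_normalizer_iff.mp hn t).mp htT'
    have hc2 : n * t * n⁻¹ * t⁻¹ ∈ T' := T'.mul_mem hc1 (T'.inv_mem htT')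
    have hT'2 : IsPGroup 2 T' := T.isPGroup'.map _
    obtain ⟨r, hr⟩ := hT'2 ⟨_, hc2⟩
    have hr' : ((n * t * n⁻¹ * t⁻¹ : K) : G) ^ (2 ^ r) = 1 := by
      have := congrArg (fun x : T' => ((x : K) : G)) hr
      simpa using this
    have hcG : ((n * t * n⁻¹ * t⁻¹ : K) : G) = qdE p u₁ u₂ (v + v) := by
      have hninv : ((n : G))⁻¹ = qdE p u₁ u₂ (-v) := by
        rw [hv]
        apply inv_eq_of_mul_eq_one_right
        rw [← qdE_add p hc h₁ h₂, add_neg_cancel, qdE_zero]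
      have e' : ((n * t * n⁻¹ * t⁻¹ : K) : G) =
          (n : G) * ((t : G) * (n : G)⁻¹ * (t : G)⁻¹) := by
        simp only [Subgroup.coe_mul, Subgroup.coe_inv]
        group
      rw [e', hninv, hinv, neg_neg, hv, ← qdE_add p hc h₁ h₂]
    rw [hcG, qdE_pow p hc h₁ h₂] at hr'
    have h5 := qdE_eq_one p hind _ hr'
    rw [← two_smul (ZMod p) v, smul_smul] at h5
    rcases smul_eq_zero.mp h5 with h6 | h6
    · exfalso
      rcases mul_eq_zero.mp h6 with h7 | h7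
      · have h8 : (2 : ZMod p) ^ r = 0 := by exact_mod_cast h7
        exact h2ne (pow_eq_zero_iff (n := r) (by
          intro hr0
          rw [hr0] at h8
          simp at h8) |>.mp h8)
      · exact h2ne h7
    · exact h6
  -- the semidirect product
  let φ : K₁ →* MulAut (Multiplicative (Fin 2 → ZMod p)) :=
    (qdActHom p).comp (f.comp K₁.subtype)
  let j : (Multiplicative (Fin 2 → ZMod p)) ⋊[φ] K₁ →* G :=
    SemidirectProduct.lift (qdEhom p hc h₁ h₂) (K.subtype.comp K₁.subtype) (by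
      intro k
      apply MonoidHom.ext
      intro v
      exact (hconj (k : K) _).symm)
  let ψ : (Multiplicative (Fin 2 → ZMod p)) ⋊[φ] K₁ →* ↥(Cfsg.qd p) :=
    SemidirectProduct.lift (qdTr p) ((qdBl p).comp (f.comp K₁.subtype)) (by
      intro k
      apply MonoidHom.ext
      intro v
      have := qdBl_mul_qdTr p (f (k : K)) v
      have h' : (qdTr p) (qdActHom p (f (k : K)) v) =
          qdBl p (f (k : K)) * qdTr p v * (qdBl p (f (k : K)))⁻¹ := by
        rw [this, mul_inv_cancel_right]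
      exact h')
  have hj : Function.Injective j := by
    rw [injective_iff_map_eq_one]
    rintro ⟨v, n⟩ h
    have h' : qdE p u₁ u₂ (Multiplicative.toAdd v) * ((n : K) : G) = 1 := h
    have hn : ((n : K) : G) = qdE p u₁ u₂ (-(Multiplicative.toAdd v)) := by
      have h1 : qdE p u₁ u₂ (Multiplicative.toAdd v) * qdE p u₁ u₂ (-(Multiplicative.toAdd v)) = 1 := by
        rw [← qdE_add p hc h₁ h₂, add_neg_cancel, qdE_zero]
      exact mul_left_cancel (h'.trans h1.symm)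
    have hv0 := hK₁U n n.2 _ hn
    have hv1 : Multiplicative.toAdd v = 0 := neg_eq_zero.mp hv0
    have hn1 : ((n : K) : G) = 1 := by rw [hn, hv0, qdE_zero]
    have hn2 : n = 1 := Subtype.ext (Subtype.ext hn1)
    have hv2 : v = 1 := by
      apply Multiplicative.toAdd.injective
      rw [hv1]; rfl
    subst hn2 hv2
    rfl
  have hψ : Function.Surjective ψ := by
    intro M
    obtain ⟨a, b, c, d, s, t', h, rfl⟩ := qd_eq_mk p M
    obtain ⟨n, hn, hfn⟩ := hsurj ⟨!![a, b; c, d], by rw [Matrix.det_fin_two]; simpa using h⟩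
    refine ⟨⟨Multiplicative.ofAdd ![s, t'], ⟨n, hn⟩⟩, ?_⟩
    change qdTr p (Multiplicative.ofAdd ![s, t']) * qdBl p (f n) = _
    rw [qdTr_mul_qdBl]
    apply qdMk_congr
    · rw [hfn]; rfl
    · rw [hfn]; rfl
    · rw [hfn]; rfl
    · rw [hfn]; rfl
    · rfl
    · rfl
  exact involves_of_inj_surj j hj ψ hψ

end Plane

end Cfsg.Agent.Helper99
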