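import Mathlib
import Cfsg.Prelude.Def_LocalEven
import Cfsg.Agent.Helper99.QdStable
import Cfsg.Agent.Helper22.Fitting
import Cfsg.Agent.Helper66.PGroupMisc

set_option autoImplicit false
set_option linter.unusedSimpArgs false

/-!
# Sylow `p`-subgroups of `Qd(p)` and their characteristic subgroups

* `qdu p b s t`: the unitriangular element `[[1, b, s], [0, 1, t], [0, 0, 1]]`, `qdU p` the group of these;
* `qdsyl_eq_conj`: every Sylow `p`-subgroup of `Qd(p)` is a conjugate of `qdU p`;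
* `qdPsi`: the automorphism `(b, s, t) ↦ (t, b t - s, b)` of `qdU p`;
* `qdU_char_normalizer`: a nontrivial characteristic subgroup of `qdU p` has the same normalizer as `qdU p`;
* `qdU_normalizer_ne_top`, `qdsyl_char_transport`.
-/

namespace Cfsg.Agent.Helper99

open Cfsg

section QdSylow

variable (p : ℕ) [Fact p.Prime]

theorem qdMk_inj {a b c d s t a' b' c' d' s' t' : ZMod p} (h : a * d - b * c = 1)
    (h' : a' * d' - b' * c' = 1)
    (e : qdMk p a b c d s t h = qdMk p a' b' c' d' s' t' h') :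
    a = a' ∧ b = b' ∧ c = c' ∧ d = d' ∧ s = s' ∧ t = t' := by
  have e1 : (qdMk p a b c d s t h).1.1 = (qdMk p a' b' c' d' s' t' h').1.1 := by rw [e]
  have k00 := congrFun (congrFun e1 0) 0
  have k01 := congrFun (congrFun e1 0) 1
  have k02 := congrFun (congrFun e1 0) 2
  have k10 := congrFun (congrFun e1 1) 0
  have k11 := congrFun (congrFun e1 1) 1
  have k12 := congrFun (congrFun e1 1) 2
  simp [qdMk] at k00 k01 k02 k10 k11 k12
  exact ⟨k00, k01, k10, k11, k02, k12⟩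

/-- the unitriangular element `[[1, b, s], [0, 1, t], [0, 0, 1]]` of `Qd(p)` -/
def qdu (b s t : ZMod p) : ↥(Cfsg.qd p) := qdMk p 1 b 0 1 s t (by ring)

theorem qdu_mul (b s t b' s' t' : ZMod p) :
    qdu p b s t * qdu p b' s' t' = qdu p (b + b') (s' + b * t' + s) (t' + t) := by
  unfold qdu
  rw [qdMk_mul]
  apply qdMk_congr <;> ring

theorem qdu_one : qdu p 0 0 0 = 1 := qdMk_one p

theorem qdu_congr {b s t b' s' t' : ZMod p} (e1 : b = b') (e2 : s = s') (e3 : t = t') :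
    qdu p b s t = qdu p b' s' t' := by
  subst e1 e2 e3; rfl

theorem qdu_inv (b s t : ZMod p) : (qdu p b s t)⁻¹ = qdu p (-b) (b * t - s) (-t) := by
  apply inv_eq_of_mul_eq_one_right
  rw [qdu_mul, ← qdu_one]
  apply qdu_congr <;> ring

theorem qdu_inj {b s t b' s' t' : ZMod p} (e : qdu p b s t = qdu p b' s' t') :
    b = b' ∧ s = s' ∧ t = t' := by
  obtain ⟨-, h2, -, -, h5, h6⟩ := qdMk_inj p _ _ e
  exact ⟨h2, h5, h6⟩

theorem qdu_entry_b (b s t : ZMod p) : (qdu p b s t).1.1 0 1 = b := by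
  simp [qdu, qdMk]

theorem qdu_entry_s (b s t : ZMod p) : (qdu p b s t).1.1 0 2 = s := by
  simp [qdu, qdMk]

theorem qdu_entry_t (b s t : ZMod p) : (qdu p b s t).1.1 1 2 = t := by
  simp [qdu, qdMk]

/-- powers of a translation -/
theorem qdu_pow_b0 (s t : ZMod p) (k : ℕ) : (qdu p 0 s t) ^ k = qdu p 0 (k * s) (k * t) := by
  induction k with
  | zero =>
    rw [pow_zero, ← qdu_one]
    apply qdu_congr <;> simp
  | succ k ih =>
    rw [pow_succ, ih, qdu_mul]
    apply qdu_congr <;> push_cast <;> ring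

/-- powers of an element of the other abelian subgroup of order `p ^ 2` -/
theorem qdu_pow_t0 (b s : ZMod p) (k : ℕ) : (qdu p b s 0) ^ k = qdu p (k * b) (k * s) 0 := by
  induction k with
  | zero =>
    rw [pow_zero, ← qdu_one]
    apply qdu_congr <;> simp
  | succ k ih =>
    rw [pow_succ, ih, qdu_mul]
    apply qdu_congr <;> push_cast <;> ring

/-- the general power, up to the middle coordinate -/
theorem qdu_pow_exists (b s t : ZMod p) (k : ℕ) :
    ∃ s' : ZMod p, (qdu p b s t) ^ k = qdu p (k * b) s' (k * t) := by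
  induction k with
  | zero =>
    refine ⟨0, ?_⟩
    rw [pow_zero, ← qdu_one]
    apply qdu_congr <;> simp
  | succ k ih =>
    obtain ⟨s', hs'⟩ := ih
    refine ⟨s + k * b * t + s', ?_⟩
    rw [pow_succ, hs', qdu_mul]
    apply qdu_congr <;> push_cast <;> ring

/-- the unitriangular subgroup of `Qd(p)` -/
def qdU : Subgroup ↥(Cfsg.qd p) where
  carrier := {M | ∃ b s t : ZMod p, M = qdu p b s t}
  one_mem' := ⟨0, 0, 0, (qdu_one p).symm⟩
  mul_mem' := by
    rintro _ _ ⟨b, s, t, rfl⟩ ⟨b', s', t', rfl⟩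
    exact ⟨_, _, _, qdu_mul p b s t b' s' t'⟩
  inv_mem' := by
    rintro _ ⟨b, s, t, rfl⟩
    exact ⟨_, _, _, qdu_inv p b s t⟩

theorem qdu_mem (b s t : ZMod p) : qdu p b s t ∈ qdU p := ⟨b, s, t, rfl⟩

theorem qdu_mem_qdW (s t : ZMod p) : qdu p 0 s t ∈ qdW p := ⟨s, t, rfl⟩

theorem qdW_le_qdU : qdW p ≤ qdU p := by
  rintro _ ⟨s, t, rfl⟩
  exact ⟨0, s, t, rfl⟩

theorem qdU_pow (x : ↥(Cfsg.qd p)) (hx : x ∈ qdU p) : x ^ (p ^ 2) = 1 := by
  obtain ⟨b, s, t, rfl⟩ := hx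
  obtain ⟨s', hs'⟩ := qdu_pow_exists p b s t p
  rw [pow_two, pow_mul, hs']
  apply qdW_pow
  refine ⟨s', 0, ?_⟩
  unfold qdu
  apply qdMk_congr <;> simp

theorem qdU_isPGroup : IsPGroup p ↥(qdU p) := by
  rintro ⟨x, hx⟩
  refine ⟨2, ?_⟩
  apply Subtype.ext
  simpa using qdU_pow p x hx

theorem qdW_isPGroup : IsPGroup p ↥(qdW p) := by
  rintro ⟨x, hx⟩
  refine ⟨1, ?_⟩
  apply Subtype.ext
  simpa using qdW_pow p x hx

/-- the centralizer of the translation `(1, 0)` is the unitriangular group -/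
theorem qdU_of_commute (y : ↥(Cfsg.qd p)) (hy : y * qdu p 0 1 0 = qdu p 0 1 0 * y) :
    y ∈ qdU p := by
  obtain ⟨a, b, c, d, s, t, h, rfl⟩ := qd_eq_mk p y
  unfold qdu at hy
  rw [qdMk_mul, qdMk_mul] at hy
  obtain ⟨-, -, -, -, e5, e6⟩ := qdMk_inj p _ _ hy
  have ha : a = 1 := by linear_combination e5
  have hc : c = 0 := by linear_combination e6
  subst ha hc
  have hd : d = 1 := by linear_combination h
  subst hd
  exact ⟨b, s, t, rfl⟩

/-- every Sylow `p`-subgroup of `Qd(p)` is conjugate to the unitriangular group -/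
theorem qdsyl_eq_conj (S : Sylow p ↥(Cfsg.qd p)) :
    ∃ g : ↥(Cfsg.qd p), (S : Subgroup ↥(Cfsg.qd p)) = (qdU p).map (MulAut.conj g).toMonoidHom := by
  classical
  have hfin : Finite ↥(Cfsg.qd p) := inferInstance
  have := qdW_normal p
  have hWS : qdW p ≤ (S : Subgroup ↥(Cfsg.qd p)) := (qdW_isPGroup p).le_sylow_of_normal S
  -- a nontrivial central element of `S` inside `W`
  have hne : (qdW p).subgroupOf (S : Subgroup ↥(Cfsg.qd p)) ≠ ⊥ := by
    intro hbot
    have h1 : (⟨qdW0 p, hWS (qdW0_mem p)⟩ : ↥(S : Subgroup ↥(Cfsg.qd p))) ∈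
        (qdW p).subgroupOf (S : Subgroup ↥(Cfsg.qd p)) := by
      rw [Subgroup.mem_subgroupOf]
      exact qdW0_mem p
    rw [hbot, Subgroup.mem_bot] at h1
    have h2 : qdW0 p = 1 := congrArg Subtype.val h1
    unfold qdW0 at h2
    rw [← qdMk_one] at h2
    obtain ⟨-, -, -, -, e5, -⟩ := qdMk_inj p _ _ h2
    exact one_ne_zero e5
  obtain ⟨z, hzW, hz1, hzc⟩ := Cfsg.Agent.Helper66.exists_mem_center_of_normal p S.isPGroup'
    ((qdW p).subgroupOf (S : Subgroup ↥(Cfsg.qd p))) hne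
  rw [Subgroup.mem_subgroupOf] at hzW
  obtain ⟨s, t, hzst⟩ := hzW
  have hst : ¬ (s = 0 ∧ t = 0) := by
    rintro ⟨rfl, rfl⟩
    apply hz1
    apply Subtype.ext
    rw [hzst]
    exact qdMk_one p
  -- an element moving the translation `(1, 0)` to `z`
  have hg : ∃ g : ↥(Cfsg.qd p), (z : ↥(Cfsg.qd p)) * g = g * qdu p 0 1 0 := by
    by_cases hs : s = 0
    · have ht : t ≠ 0 := fun ht => hst ⟨hs, ht⟩
      refine ⟨qdMk p 0 (-t⁻¹) t 0 0 0 (by rw [zero_mul, zero_sub, neg_mul, neg_neg, inv_mul_cancel₀ ht]), ?_⟩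
      rw [hzst]
      unfold qdu
      rw [qdMk_mul, qdMk_mul]
      apply qdMk_congr <;> simp [hs]
    · refine ⟨qdMk p s 0 t s⁻¹ 0 0 (by rw [mul_inv_cancel₀ hs]; ring), ?_⟩
      rw [hzst]
      unfold qdu
      rw [qdMk_mul, qdMk_mul]
      apply qdMk_congr <;> simp
  obtain ⟨g, hg⟩ := hg
  refine ⟨g, ?_⟩
  have hle : (S : Subgroup ↥(Cfsg.qd p)) ≤ (qdU p).map (MulAut.conj g).toMonoidHom := by
    intro x hx
    have hcomm : (⟨x, hx⟩ : ↥(S : Subgroup ↥(Cfsg.qd p))) * z = z * ⟨x, hx⟩ :=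
      (Subgroup.mem_center_iff.1 hzc ⟨x, hx⟩)
    have hcomm' : x * (z : ↥(Cfsg.qd p)) = (z : ↥(Cfsg.qd p)) * x := congrArg Subtype.val hcomm
    have hzg : (z : ↥(Cfsg.qd p)) = g * qdu p 0 1 0 * g⁻¹ := by
      rw [← hg]; group
    have h1 : g⁻¹ * x * g ∈ qdU p := by
      apply qdU_of_commute
      rw [hzg] at hcomm'
      calc g⁻¹ * x * g * qdu p 0 1 0 = g⁻¹ * (x * (g * qdu p 0 1 0 * g⁻¹)) * g := by group
        _ = g⁻¹ * (g * qdu p 0 1 0 * g⁻¹ * x) * g := by rw [hcomm']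
        _ = qdu p 0 1 0 * (g⁻¹ * x * g) := by group
    refine ⟨g⁻¹ * x * g, h1, ?_⟩
    show g * (g⁻¹ * x * g) * g⁻¹ = x
    group
  exact (S.is_maximal' ((qdU_isPGroup p).map _) hle).symm

/-- the "Borel subgroup": the elements of `Qd(p)` with lower-left entry `0` -/
def qdB : Subgroup ↥(Cfsg.qd p) where
  carrier := {M | ∃ (a b d s t : ZMod p) (h : a * d - b * 0 = 1), M = qdMk p a b 0 d s t h}
  one_mem' := ⟨1, 0, 1, 0, 0, by ring, (qdMk_one p).symm⟩
  mul_mem' := by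
    rintro _ _ ⟨a, b, d, s, t, h, rfl⟩ ⟨a', b', d', s', t', h', rfl⟩
    refine ⟨a * a', a * b' + b * d', d * d', a * s' + b * t' + s, d * t' + t,
      by linear_combination (a' * d') * h + h', ?_⟩
    rw [qdMk_mul]
    apply qdMk_congr <;> ring
  inv_mem' := by
    rintro _ ⟨a, b, d, s, t, h, rfl⟩
    refine ⟨d, -b, a, -(d * s) + b * t, -(a * t), by linear_combination h, ?_⟩
    apply inv_eq_of_mul_eq_one_right
    rw [qdMk_mul, ← qdMk_one]
    apply qdMk_congr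
    · linear_combination h
    · ring
    · ring
    · linear_combination h
    · linear_combination (-s) * h
    · linear_combination (-t) * h

/-- the Borel subgroup normalizes the unitriangular group (one inclusion) -/
theorem qdB_conj_mem (g : ↥(Cfsg.qd p)) (hg : g ∈ qdB p) (x : ↥(Cfsg.qd p)) (hx : x ∈ qdU p) :
    g * x * g⁻¹ ∈ qdU p := by
  obtain ⟨a, b, d, s, t, h, rfl⟩ := hg
  obtain ⟨b', s', t', rfl⟩ := hx
  refine ⟨a * b' * a, a * s' + b * t' - a * b' * a * t, d * t', ?_⟩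
  rw [mul_inv_eq_iff_eq_mul]
  unfold qdu
  rw [qdMk_mul, qdMk_mul]
  apply qdMk_congr
  · ring
  · linear_combination (-(a * b')) * h
  · ring
  · ring
  · ring
  · ring

theorem qdB_le_normalizer : qdB p ≤ Subgroup.normalizer ((qdU p : Subgroup ↥(Cfsg.qd p)) : Set ↥(Cfsg.qd p)) := by
  intro g hg
  rw [Subgroup.mem_normalizer_iff]
  intro x
  constructor
  · exact qdB_conj_mem p g hg x
  · intro hx
    have h1 := qdB_conj_mem p g⁻¹ (inv_mem hg) _ hx
    have h2 : g⁻¹ * (g * x * g⁻¹) * g⁻¹⁻¹ = x := by group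
    rwa [h2] at h1

/-- an element conjugating the transvection into the unitriangular group is in the Borel subgroup -/
theorem qdB_of_conj_x (g : ↥(Cfsg.qd p)) (hg : g * qdu p 1 0 0 * g⁻¹ ∈ qdU p) : g ∈ qdB p := by
  obtain ⟨b', s', t', hb⟩ := hg
  rw [mul_inv_eq_iff_eq_mul] at hb
  obtain ⟨a, b, c, d, s, t, h, rfl⟩ := qd_eq_mk p g
  unfold qdu at hb
  rw [qdMk_mul, qdMk_mul] at hb
  obtain ⟨-, -, -, e4, -, -⟩ := qdMk_inj p _ _ hb
  have hc : c = 0 := by linear_combination e4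
  subst hc
  exact ⟨a, b, d, s, t, h, rfl⟩

/-- an element conjugating the translation `(1, 0)` to a translation `(σ, 0)` is in the Borel subgroup -/
theorem qdB_of_conj_z (g : ↥(Cfsg.qd p)) (σ : ZMod p)
    (hg : g * qdu p 0 1 0 * g⁻¹ = qdu p 0 σ 0) : g ∈ qdB p := by
  rw [mul_inv_eq_iff_eq_mul] at hg
  obtain ⟨a, b, c, d, s, t, h, rfl⟩ := qd_eq_mk p g
  unfold qdu at hg
  rw [qdMk_mul, qdMk_mul] at hg
  obtain ⟨-, -, -, -, -, e6⟩ := qdMk_inj p _ _ hg
  have hc : c = 0 := by linear_combination e6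
  subst hc
  exact ⟨a, b, d, s, t, h, rfl⟩

theorem qdU_normalizer_eq : Subgroup.normalizer ((qdU p : Subgroup ↥(Cfsg.qd p)) : Set ↥(Cfsg.qd p)) = qdB p := by
  apply le_antisymm _ (qdB_le_normalizer p)
  intro g hg
  apply qdB_of_conj_x
  exact (Subgroup.mem_normalizer_iff.1 hg _).1 (qdu_mem p 1 0 0)

theorem qdU_normalizer_ne_top :
    Subgroup.normalizer ((qdU p : Subgroup ↥(Cfsg.qd p)) : Set ↥(Cfsg.qd p)) ≠ ⊤ := by
  intro htop
  have h1 : qdN p ∈ qdB p := by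
    rw [← qdU_normalizer_eq, htop]; trivial
  obtain ⟨a, b, d, s, t, h, e⟩ := h1
  unfold qdN at e
  obtain ⟨-, -, e3, -, -, -⟩ := qdMk_inj p _ _ e
  exact one_ne_zero (neg_eq_zero.1 e3)

/-- the automorphism `(b, s, t) ↦ (t, b t - s, b)` of the unitriangular group -/
def qdPsi : ↥(qdU p) ≃* ↥(qdU p) where
  toFun x := ⟨qdu p (x.1.1.1 1 2) (x.1.1.1 0 1 * x.1.1.1 1 2 - x.1.1.1 0 2) (x.1.1.1 0 1),
    qdu_mem p _ _ _⟩
  invFun x := ⟨qdu p (x.1.1.1 1 2) (x.1.1.1 0 1 * x.1.1.1 1 2 - x.1.1.1 0 2) (x.1.1.1 0 1),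
    qdu_mem p _ _ _⟩
  left_inv := by
    rintro ⟨_, b, s, t, rfl⟩
    apply Subtype.ext
    simp only [qdu_entry_b, qdu_entry_s, qdu_entry_t]
    apply qdu_congr <;> ring
  right_inv := by
    rintro ⟨_, b, s, t, rfl⟩
    apply Subtype.ext
    simp only [qdu_entry_b, qdu_entry_s, qdu_entry_t]
    apply qdu_congr <;> ring
  map_mul' := by
    rintro ⟨_, b, s, t, rfl⟩ ⟨_, b', s', t', rfl⟩
    apply Subtype.ext
    show qdu p _ _ _ = qdu p _ _ _ * qdu p _ _ _
    have e : ((⟨qdu p b s t, qdu_mem p b s t⟩ : ↥(qdU p)) * ⟨qdu p b' s' t', qdu_mem p b' s' t'⟩).1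
        = qdu p (b + b') (s' + b * t' + s) (t' + t) := qdu_mul p b s t b' s' t'
    rw [e]
    simp only [qdu_entry_b, qdu_entry_s, qdu_entry_t]
    rw [qdu_mul]
    apply qdu_congr <;> ring

theorem qdPsi_apply (b s t : ZMod p) (h : qdu p b s t ∈ qdU p) :
    ((qdPsi p ⟨qdu p b s t, h⟩ : ↥(qdU p)) : ↥(Cfsg.qd p)) = qdu p t (b * t - s) b := by
  show qdu p _ _ _ = _
  simp only [qdu_entry_b, qdu_entry_s, qdu_entry_t]

/-- a nontrivial characteristic subgroup of the unitriangular group has the same normalizer -/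
theorem qdU_char_normalizer (T : Subgroup ↥(qdU p)) (hT : T ≠ ⊥) (hTc : T.Characteristic) :
    Subgroup.normalizer ((T.map (qdU p).subtype : Subgroup ↥(Cfsg.qd p)) : Set ↥(Cfsg.qd p)) =
      Subgroup.normalizer ((qdU p : Subgroup ↥(Cfsg.qd p)) : Set ↥(Cfsg.qd p)) := by
  classical
  have : NeZero p := ⟨(Fact.out : p.Prime).ne_zero⟩
  have := hTc
  have hTn : T.Normal := inferInstance
  apply le_antisymm _ (Cfsg.Agent.Helper22.normalizer_le_normalizer_map_subtype (qdU p) T)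
  set T₀ : Subgroup ↥(Cfsg.qd p) := T.map (qdU p).subtype with hT₀
  have hT₀U : T₀ ≤ qdU p := by
    rintro _ ⟨x, -, rfl⟩
    exact x.2
  -- normality
  have hnorm : ∀ y ∈ qdU p, ∀ x ∈ T₀, y * x * y⁻¹ ∈ T₀ := by
    rintro y hy _ ⟨x, hx, rfl⟩
    exact ⟨⟨y, hy⟩ * x * ⟨y, hy⟩⁻¹, hTn.conj_mem x hx ⟨y, hy⟩, rfl⟩
  -- invariance under `qdPsi`
  have hpsi : ∀ b s t : ZMod p, qdu p b s t ∈ T₀ → qdu p t (b * t - s) b ∈ T₀ := by
    intro b s t hx
    obtain ⟨x, hx, hxe⟩ := hx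
    have h1 : qdPsi p x ∈ T := (Subgroup.characteristic_iff_le_comap.1 hTc (qdPsi p)) hx
    refine ⟨qdPsi p x, h1, ?_⟩
    have hx' : x = ⟨qdu p b s t, qdu_mem p b s t⟩ := Subtype.ext hxe
    rw [hx']
    exact qdPsi_apply p b s t _
  -- a nontrivial central element
  have hz0 : ∃ σ₀ : ZMod p, σ₀ ≠ 0 ∧ qdu p 0 σ₀ 0 ∈ T₀ := by
    obtain ⟨⟨x, hxT⟩, hx1⟩ := (Subgroup.ne_bot_iff_exists_ne_one).1 hT
    have hx1' : x ≠ 1 := fun h => hx1 (Subtype.ext h)
    have hxT₀ : (x : ↥(Cfsg.qd p)) ∈ T₀ := ⟨x, hxT, rfl⟩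
    obtain ⟨b, s, t, hxe⟩ := x.2
    rw [hxe] at hxT₀
    by_cases ht : t = 0
    · by_cases hb : b = 0
      · refine ⟨s, ?_, ?_⟩
        · rintro rfl
          apply hx1'
          apply Subtype.ext
          rw [hxe, hb, ht]
          exact qdu_one p
        · rw [hb, ht] at hxT₀
          exact hxT₀
      · refine ⟨-b, neg_ne_zero.2 hb, ?_⟩
        have h1 := hnorm _ (qdu_mem p 0 0 1) _ hxT₀
        have h2 := T₀.mul_mem h1 (T₀.inv_mem hxT₀)
        have h3 : qdu p 0 0 1 * qdu p b s t * (qdu p 0 0 1)⁻¹ * (qdu p b s t)⁻¹ = qdu p 0 (-b) 0 := by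
          rw [qdu_inv, qdu_inv, qdu_mul, qdu_mul, qdu_mul]
          apply qdu_congr <;> ring
        rwa [h3] at h2
    · refine ⟨t, ht, ?_⟩
      have h1 := hnorm _ (qdu_mem p 1 0 0) _ hxT₀
      have h2 := T₀.mul_mem h1 (T₀.inv_mem hxT₀)
      have h3 : qdu p 1 0 0 * qdu p b s t * (qdu p 1 0 0)⁻¹ * (qdu p b s t)⁻¹ = qdu p 0 t 0 := by
        rw [qdu_inv, qdu_inv, qdu_mul, qdu_mul, qdu_mul]
        apply qdu_congr <;> ring
      rwa [h3] at h2
  obtain ⟨σ₀, hσ₀, hσ₀T⟩ := hz0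
  have hZ : ∀ σ : ZMod p, qdu p 0 σ 0 ∈ T₀ := by
    intro σ
    have h1 := T₀.pow_mem hσ₀T (σ * σ₀⁻¹).val
    rw [qdu_pow_b0] at h1
    have h2 : qdu p 0 (((σ * σ₀⁻¹).val : ZMod p) * σ₀) (((σ * σ₀⁻¹).val : ZMod p) * 0) = qdu p 0 σ 0 := by
      apply qdu_congr
      · rfl
      · rw [ZMod.natCast_zmod_val]; field_simp
      · ring
    rwa [h2] at h1
  -- dichotomy
  by_cases hex : ∃ s t : ZMod p, t ≠ 0 ∧ qdu p 0 s t ∈ T₀
  · obtain ⟨s, t, ht, hx⟩ := hex
    have hy : qdu p t (-s) 0 ∈ T₀ := by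
      have := hpsi 0 s t hx
      have e : qdu p t (0 * t - s) 0 = qdu p t (-s) 0 := by
        apply qdu_congr <;> ring
      rwa [e] at this
    have hall : ∀ b₁ s₁ t₁ : ZMod p, qdu p b₁ s₁ t₁ ∈ T₀ := by
      intro b₁ s₁ t₁
      have h1 := T₀.pow_mem hx (t₁ * t⁻¹).val
      rw [qdu_pow_b0] at h1
      have h2 := T₀.pow_mem hy (b₁ * t⁻¹).val
      rw [qdu_pow_t0] at h2
      have e1 : (((t₁ * t⁻¹).val : ZMod p)) * t = t₁ := by
        rw [ZMod.natCast_zmod_val]; field_simp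
      have e2 : (((b₁ * t⁻¹).val : ZMod p)) * t = b₁ := by
        rw [ZMod.natCast_zmod_val]; field_simp
      rw [e1] at h1
      rw [e2] at h2
      have h3 := T₀.mul_mem (T₀.mul_mem h2 h1)
        (hZ (s₁ - (((t₁ * t⁻¹).val : ZMod p) * s + b₁ * t₁ + ((b₁ * t⁻¹).val : ZMod p) * (-s))))
      rw [qdu_mul, qdu_mul] at h3
      have e3 : qdu p (b₁ + 0 + 0)
          (s₁ - (((t₁ * t⁻¹).val : ZMod p) * s + b₁ * t₁ + ((b₁ * t⁻¹).val : ZMod p) * (-s)) +
            (b₁ + 0) * 0 + (((t₁ * t⁻¹).val : ZMod p) * s + b₁ * t₁ +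
              ((b₁ * t⁻¹).val : ZMod p) * (-s))) (0 + (t₁ + 0)) = qdu p b₁ s₁ t₁ := by
        apply qdu_congr <;> ring
      rwa [e3] at h3
    have hTU : T₀ = qdU p := by
      apply le_antisymm hT₀U
      rintro _ ⟨b, s, t, rfl⟩
      exact hall b s t
    rw [hTU]
  · push Not at hex
    intro g hg
    apply qdB_le_normalizer
    have h1 : g * qdu p 0 1 0 * g⁻¹ ∈ T₀ := (Subgroup.mem_normalizer_iff.1 hg _).1 (hZ 1)
    have h2 : g * qdu p 0 1 0 * g⁻¹ ∈ qdW p := (qdW_normal p).conj_mem _ (qdu_mem_qdW p 1 0) g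
    obtain ⟨s, t, hst⟩ := h2
    have hst' : g * qdu p 0 1 0 * g⁻¹ = qdu p 0 s t := hst
    rw [hst'] at h1
    have ht : t = 0 := by
      by_contra ht
      exact hex s t ht h1
    rw [ht] at hst'
    exact qdB_of_conj_z p g s hst'

end QdSylow

/-- transport of "nontrivial characteristic subgroups have the same normalizer" to a conjugate -/
theorem qdsyl_char_transport {G : Type*} [Group G] (U : Subgroup G)
    (hU : ∀ T : Subgroup ↥U, T ≠ ⊥ → T.Characteristic →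
      Subgroup.normalizer ((T.map U.subtype : Subgroup G) : Set G) = Subgroup.normalizer (U : Set G))
    (g : G) (S : Subgroup G) (hS : S = U.map (MulAut.conj g).toMonoidHom)
    (T : Subgroup ↥S) (hT : T ≠ ⊥) (hTc : T.Characteristic) :
    Subgroup.normalizer ((T.map S.subtype : Subgroup G) : Set G) = Subgroup.normalizer (S : Set G) := by
  have hmem : ∀ x : G, x ∈ S ↔ g⁻¹ * x * g ∈ U := by
    intro x
    rw [hS]
    constructor
    · rintro ⟨u, hu, rfl⟩
      have : g⁻¹ * ((MulAut.conj g).toMonoidHom u) * g = u := by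
        show g⁻¹ * (g * u * g⁻¹) * g = u
        group
      rw [this]; exact hu
    · intro h
      refine ⟨g⁻¹ * x * g, h, ?_⟩
      show g * (g⁻¹ * x * g) * g⁻¹ = x
      group
  let e : ↥U ≃* ↥S :=
    { toFun := fun u => ⟨g * u * g⁻¹, (hmem _).2 (by
        have : g⁻¹ * (g * (u : G) * g⁻¹) * g = u := by group
        rw [this]; exact u.2)⟩
      invFun := fun x => ⟨g⁻¹ * x * g, (hmem _).1 x.2⟩
      left_inv := fun u => by
        apply Subtype.ext
        show g⁻¹ * (g * (u : G) * g⁻¹) * g = u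
        group
      right_inv := fun x => by
        apply Subtype.ext
        show g * (g⁻¹ * (x : G) * g) * g⁻¹ = x
        group
      map_mul' := fun u v => by
        apply Subtype.ext
        show g * ((u : G) * v) * g⁻¹ = (g * u * g⁻¹) * (g * v * g⁻¹)
        group }
  have he : ∀ u : ↥U, ((e u : ↥S) : G) = g * u * g⁻¹ := fun u => rfl
  let T' : Subgroup ↥U := T.comap e.toMonoidHom
  have hT'mem : ∀ u : ↥U, u ∈ T' ↔ e u ∈ T := fun u => Iff.rfl
  have hT'ne : T' ≠ ⊥ := by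
    obtain ⟨⟨x, hxT⟩, hx1⟩ := (Subgroup.ne_bot_iff_exists_ne_one).1 hT
    have hx1' : x ≠ 1 := fun h => hx1 (Subtype.ext h)
    intro hbot
    have h1 : e.symm x ∈ T' := by
      rw [hT'mem, MulEquiv.apply_symm_apply]; exact hxT
    rw [hbot, Subgroup.mem_bot] at h1
    apply hx1'
    have := congrArg e h1
    rwa [MulEquiv.apply_symm_apply, map_one] at this
  have hT'c : T'.Characteristic := by
    rw [Subgroup.characteristic_iff_comap_eq]
    intro φ
    ext u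
    rw [Subgroup.mem_comap, hT'mem, hT'mem]
    have h1 := Subgroup.characteristic_iff_comap_eq.1 hTc (e.symm.trans (φ.trans e))
    have h2 : e u ∈ T.comap (e.symm.trans (φ.trans e)).toMonoidHom ↔ e u ∈ T := by rw [h1]
    rw [Subgroup.mem_comap] at h2
    have h3 : (e.symm.trans (φ.trans e)).toMonoidHom (e u) = e (φ u) := by
      show e (φ (e.symm (e u))) = e (φ u)
      rw [MulEquiv.symm_apply_apply]
    rw [h3] at h2
    exact h2
  have key := hU T' hT'ne hT'c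
  have hmap : (T.map S.subtype : Subgroup G) =
      ((T'.map U.subtype : Subgroup G)).map (MulAut.conj g).toMonoidHom := by
    ext y
    constructor
    · rintro ⟨x, hx, rfl⟩
      refine ⟨(e.symm x : ↥U), ⟨e.symm x, ?_, rfl⟩, ?_⟩
      · show e.symm x ∈ T'
        rw [hT'mem, MulEquiv.apply_symm_apply]; exact hx
      · have : ((e (e.symm x) : ↥S) : G) = g * (e.symm x : ↥U) * g⁻¹ := he _
        rw [MulEquiv.apply_symm_apply] at this
        exact this.symm
    · rintro ⟨_, ⟨u, hu, rfl⟩, rfl⟩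
      exact ⟨e u, (hT'mem u).1 hu, rfl⟩
  rw [hmap, ← Subgroup.map_equiv_normalizer_eq, key, Subgroup.map_equiv_normalizer_eq, ← hS]

/-- transport of "not normal" to a conjugate -/
theorem qdsyl_ne_top_transport {G : Type*} [Group G] (U : Subgroup G)
    (hU : Subgroup.normalizer (U : Set G) ≠ ⊤)
    (g : G) (S : Subgroup G) (hS : S = U.map (MulAut.conj g).toMonoidHom) :
    Subgroup.normalizer (S : Set G) ≠ ⊤ := by
  intro htop
  apply hU
  rw [hS, ← Subgroup.map_equiv_normalizer_eq] at htop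
  rw [eq_top_iff]
  intro x _
  have h1 : (MulAut.conj g).toMonoidHom x ∈
      (Subgroup.normalizer (U : Set G)).map (MulAut.conj g).toMonoidHom := by
    rw [htop]; trivial
  obtain ⟨n, hn, hnx⟩ := h1
  have : n = x := (MulAut.conj g).injective hnx
  rw [← this]; exact hn

end Cfsg.Agent.Helper99
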