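import Mathlib
import Cfsg.Prelude.Def_LocalEven
import Cfsg.Agent.Helper99.QdStable
import Cfsg.Agent.Helper99.QdNat
import Cfsg.Agent.Helper99.QdSylow

set_option autoImplicit false
set_option linter.unusedSimpArgs false

/-!
# `Qd(p)` and alternating groups

* `qdAffHom`: the faithful affine action of `Qd(p)` on the plane `Fin 2 → ZMod p`;
* `qdalt_units_trivial`: for `p` odd every homomorphism `Qd(p) →* ℤˣ` is trivial;
* `qdalt_perm_pgroup_comm`: the `p`-subgroups of `Perm (Fin n)`, `n < p ^ 2`, are commutative;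
* `qdalt_not_involves_of_comm`: `Qd(p)` is not involved in a finite group whose `p`-subgroups are commutative.
-/

namespace Cfsg.Agent.Helper99

open Cfsg

section QdAlt

variable (p : ℕ) [Fact p.Prime]

theorem qdMk_e00 (a b c d s t : ZMod p) (h : a * d - b * c = 1) :
    (qdMk p a b c d s t h).1.1 0 0 = a := by simp [qdMk]

theorem qdMk_e01 (a b c d s t : ZMod p) (h : a * d - b * c = 1) :
    (qdMk p a b c d s t h).1.1 0 1 = b := by simp [qdMk]

theorem qdMk_e02 (a b c d s t : ZMod p) (h : a * d - b * c = 1) :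
    (qdMk p a b c d s t h).1.1 0 2 = s := by simp [qdMk]

theorem qdMk_e10 (a b c d s t : ZMod p) (h : a * d - b * c = 1) :
    (qdMk p a b c d s t h).1.1 1 0 = c := by simp [qdMk]

theorem qdMk_e11 (a b c d s t : ZMod p) (h : a * d - b * c = 1) :
    (qdMk p a b c d s t h).1.1 1 1 = d := by simp [qdMk]

theorem qdMk_e12 (a b c d s t : ZMod p) (h : a * d - b * c = 1) :
    (qdMk p a b c d s t h).1.1 1 2 = t := by simp [qdMk]

/-- the affine action of `Qd(p)` on the plane -/
def qdAffFun (M : ↥(Cfsg.qd p)) (x : Fin 2 → ZMod p) : Fin 2 → ZMod p :=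
  ![M.1.1 0 0 * x 0 + M.1.1 0 1 * x 1 + M.1.1 0 2, M.1.1 1 0 * x 0 + M.1.1 1 1 * x 1 + M.1.1 1 2]

theorem qdAffFun_mk (a b c d s t : ZMod p) (h : a * d - b * c = 1) (x : Fin 2 → ZMod p) :
    qdAffFun p (qdMk p a b c d s t h) x = ![a * x 0 + b * x 1 + s, c * x 0 + d * x 1 + t] := by
  simp only [qdAffFun, qdMk_e00, qdMk_e01, qdMk_e02, qdMk_e10, qdMk_e11, qdMk_e12]

theorem qdAffFun_one (x : Fin 2 → ZMod p) : qdAffFun p 1 x = x := by
  rw [← qdMk_one, qdAffFun_mk]
  ext i
  fin_cases i <;> simp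

theorem qdAffFun_mul (M N : ↥(Cfsg.qd p)) (x : Fin 2 → ZMod p) :
    qdAffFun p (M * N) x = qdAffFun p M (qdAffFun p N x) := by
  obtain ⟨a, b, c, d, s, t, h, rfl⟩ := qd_eq_mk p M
  obtain ⟨a', b', c', d', s', t', h', rfl⟩ := qd_eq_mk p N
  rw [qdMk_mul, qdAffFun_mk, qdAffFun_mk, qdAffFun_mk]
  ext i
  fin_cases i <;> simp <;> ring

/-- the affine action as a homomorphism into the permutations of the plane -/
def qdAffHom : ↥(Cfsg.qd p) →* Equiv.Perm (Fin 2 → ZMod p) where
  toFun M :=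
    { toFun := qdAffFun p M
      invFun := qdAffFun p M⁻¹
      left_inv := fun x => by rw [← qdAffFun_mul, inv_mul_cancel, qdAffFun_one]
      right_inv := fun x => by rw [← qdAffFun_mul, mul_inv_cancel, qdAffFun_one] }
  map_one' := by
    apply Equiv.ext
    intro x
    exact qdAffFun_one p x
  map_mul' M N := by
    apply Equiv.ext
    intro x
    exact qdAffFun_mul p M N x

theorem qdAffHom_apply (M : ↥(Cfsg.qd p)) (x : Fin 2 → ZMod p) :
    qdAffHom p M x = qdAffFun p M x := rfl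

theorem qdAffHom_injective : Function.Injective (qdAffHom p) := by
  rw [injective_iff_map_eq_one]
  intro M hM
  have hx : ∀ x, qdAffFun p M x = x := by
    intro x
    rw [← qdAffHom_apply, hM]; rfl
  obtain ⟨a, b, c, d, s, t, h, rfl⟩ := qd_eq_mk p M
  have h0 := hx 0
  have h1 := hx ![1, 0]
  have h2 := hx ![0, 1]
  rw [qdAffFun_mk] at h0 h1 h2
  have h00 := congrFun h0 0
  have h01 := congrFun h0 1
  have h10 := congrFun h1 0
  have h11 := congrFun h1 1
  have h20 := congrFun h2 0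
  have h21 := congrFun h2 1
  simp at h00 h01 h10 h11 h20 h21
  rw [← qdMk_one]
  apply qdMk_congr
  · rw [h00] at h10; simpa using h10
  · rw [h00] at h20; simpa using h20
  · rw [h01] at h11; simpa using h11
  · rw [h01] at h21; simpa using h21
  · exact h00
  · exact h01

/-- the lower transvection -/
def qdl (c : ZMod p) : ↥(Cfsg.qd p) := qdMk p 1 0 c 1 0 0 (by ring)

/-- an element of order dividing `p` (odd) is killed by every homomorphism to `ℤˣ` -/
theorem qdalt_units_of_pow (hp : p ≠ 2) {X : Type*} [Group X] (χ : X →* ℤˣ) (x : X)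
    (hx : x ^ p = 1) : χ x = 1 := by
  have h1 : χ x ^ p = 1 := by rw [← map_pow, hx, map_one]
  obtain ⟨m, hm⟩ := ((Fact.out : p.Prime).eq_two_or_odd').resolve_left hp
  rw [hm, pow_succ, pow_mul, Int.units_sq, one_pow, one_mul] at h1
  exact h1

/-- for `p` odd every homomorphism from `Qd(p)` to `ℤˣ` is trivial -/
theorem qdalt_units_trivial (hp : p ≠ 2) (χ : ↥(Cfsg.qd p) →* ℤˣ) (M : ↥(Cfsg.qd p)) :
    χ M = 1 := by
  have hX : ∀ b : ZMod p, χ (qdu p b 0 0) = 1 := by
    intro b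
    apply qdalt_units_of_pow p hp
    rw [qdu_pow_t0, ← qdu_one]
    apply qdu_congr <;> simp
  have hW : ∀ s t : ZMod p, χ (qdu p 0 s t) = 1 := by
    intro s t
    apply qdalt_units_of_pow p hp
    exact qdW_pow p _ (qdu_mem_qdW p s t)
  have hL : ∀ c : ZMod p, χ (qdl p c) = 1 := by
    intro c
    have e : qdl p c * qdN p = qdN p * qdu p (-c) 0 0 := by
      unfold qdN qdu qdl
      rw [qdMk_mul, qdMk_mul]
      apply qdMk_congr <;> ring
    have h1 : χ (qdl p c) * χ (qdN p) = χ (qdN p) * χ (qdu p (-c) 0 0) := by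
      rw [← map_mul, ← map_mul, e]
    calc χ (qdl p c) = χ (qdl p c) * χ (qdN p) * (χ (qdN p))⁻¹ := by group
      _ = χ (qdN p) * χ (qdu p (-c) 0 0) * (χ (qdN p))⁻¹ := by rw [h1]
      _ = 1 := by rw [hX, mul_one, mul_inv_cancel]
  have hA : ∀ (a b c d : ZMod p) (h : a * d - b * c = 1), c ≠ 0 →
      χ (qdMk p a b c d 0 0 h) = 1 := by
    intro a b c d h hc
    have e : qdMk p a b c d 0 0 h =
        qdu p ((a - 1) * c⁻¹) 0 0 * qdl p c * qdu p ((d - 1) * c⁻¹) 0 0 := by
      unfold qdu qdl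
      rw [qdMk_mul, qdMk_mul]
      apply qdMk_congr
      · field_simp; ring
      · field_simp; linear_combination (-1 : ZMod p) * h
      · ring
      · field_simp; ring
      · ring
      · ring
    rw [e, map_mul, map_mul, hX, hX, hL, mul_one, mul_one]
  obtain ⟨a, b, c, d, s, t, h, rfl⟩ := qd_eq_mk p M
  have e1 : qdMk p a b c d s t h = qdu p 0 s t * qdMk p a b c d 0 0 h := by
    unfold qdu
    rw [qdMk_mul]
    apply qdMk_congr <;> ring
  rw [e1, map_mul, hW, one_mul]
  by_cases hc : c = 0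
  · subst hc
    have ha : a ≠ 0 := by
      rintro rfl
      simp at h
    have e2 : qdMk p a b 0 d 0 0 h =
        qdl p (-1) * qdMk p a b a (b + d) 0 0 (by linear_combination h) := by
      unfold qdl
      rw [qdMk_mul]
      apply qdMk_congr <;> ring
    rw [e2, map_mul, hL, one_mul]
    exact hA _ _ _ _ _ ha
  · exact hA _ _ _ _ _ hc

/-- `p ^ 2` does not divide `p !` -/
theorem qdalt_sq_not_dvd_factorial : ¬ p ^ 2 ∣ p.factorial := by
  have hpp : p.Prime := Fact.out
  intro h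
  obtain ⟨m, hm⟩ : ∃ m, p = m + 1 := ⟨p - 1, by have := hpp.pos; omega⟩
  have h1 : p ^ 2 ∣ p * m.factorial := by
    have : p.factorial = p * m.factorial := by
      rw [hm, Nat.factorial_succ]
    rwa [this] at h
  rw [pow_two] at h1
  have h2 : p ∣ m.factorial := Nat.dvd_of_mul_dvd_mul_left hpp.pos h1
  have h3 : p ≤ m := (hpp.dvd_factorial).1 h2
  omega

/-- the `p`-subgroups of `Perm (Fin n)`, `n < p ^ 2`, are commutative -/
theorem qdalt_perm_pgroup_comm (n : ℕ) (hn : n < p ^ 2) (P : Subgroup (Equiv.Perm (Fin n)))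
    (hP : IsPGroup p P) (a b : Equiv.Perm (Fin n)) (ha : a ∈ P) (hb : b ∈ P) :
    a * b = b * a := by
  classical
  have hpp : p.Prime := Fact.out
  apply Equiv.ext
  intro x
  let φ : ↥P →* Equiv.Perm ↥(MulAction.orbit ↥P x) := MulAction.toPermHom ↥P ↥(MulAction.orbit ↥P x)
  have hR : IsPGroup p ↥φ.range := hP.of_surjective φ.rangeRestrict φ.rangeRestrict_surjective
  obtain ⟨k, hk⟩ := hP.card_orbit x
  have hk1 : k ≤ 1 := by
    have h1 : Nat.card ↥(MulAction.orbit ↥P x) ≤ Nat.card (Fin n) := Finite.card_subtype_le _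
    rw [hk, Nat.card_fin] at h1
    have h2 : p ^ k < p ^ 2 := lt_of_le_of_lt h1 hn
    have h3 := (Nat.pow_lt_pow_iff_right hpp.one_lt).1 h2
    omega
  obtain ⟨j, hj⟩ := IsPGroup.iff_card.1 hR
  have hj1 : j ≤ 1 := by
    have h1 : Nat.card ↥φ.range ∣ Nat.card (Equiv.Perm ↥(MulAction.orbit ↥P x)) :=
      Subgroup.card_subgroup_dvd_card _
    rw [Nat.card_perm, hk, hj] at h1
    have h2 : (p ^ k).factorial ∣ p.factorial := by
      apply Nat.factorial_dvd_factorial
      calc p ^ k ≤ p ^ 1 := Nat.pow_le_pow_right hpp.pos hk1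
        _ = p := pow_one p
    have h3 : p ^ j ∣ p.factorial := h1.trans h2
    by_contra hj2
    apply qdalt_sq_not_dvd_factorial p
    exact (pow_dvd_pow p (by omega)).trans h3
  have hcomm : ∀ u v : ↥φ.range, u * v = v * u := by
    interval_cases j
    · rw [pow_zero] at hj
      have : Subsingleton ↥φ.range := (Nat.card_eq_one_iff_unique.1 hj).1
      intro u v
      exact Subsingleton.elim _ _
    · rw [pow_one] at hj
      have : IsCyclic ↥φ.range := isCyclic_of_prime_card hj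
      exact isMulCommutative_iff.1 inferInstance
  have h1 := hcomm ⟨φ ⟨a, ha⟩, ⟨_, rfl⟩⟩ ⟨φ ⟨b, hb⟩, ⟨_, rfl⟩⟩
  have h2 : φ ⟨a, ha⟩ * φ ⟨b, hb⟩ = φ ⟨b, hb⟩ * φ ⟨a, ha⟩ := congrArg Subtype.val h1
  have h3 := congrArg (fun σ : Equiv.Perm ↥(MulAction.orbit ↥P x) =>
    ((σ ⟨x, MulAction.mem_orbit_self x⟩ : ↥(MulAction.orbit ↥P x)) : Fin n)) h2
  exact h3

/-- `Qd(p)` is not involved in a finite group all of whose `p`-subgroups are commutative -/
theorem qdalt_not_involves_of_comm {G : Type*} [Group G] [Finite G]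
    (hcomm : ∀ P : Subgroup G, IsPGroup p P → ∀ a ∈ P, ∀ b ∈ P, a * b = b * a) :
    ¬ Cfsg.Involves ↥(Cfsg.qd p) G := by
  classical
  rintro ⟨K₀, R, hN, ⟨e⟩⟩
  let ψ : K₀ →* Cfsg.qd p := e.toMonoidHom.comp (QuotientGroup.mk' (R.subgroupOf K₀))
  have hψ : Function.Surjective ψ := e.surjective.comp (QuotientGroup.mk'_surjective _)
  let T : Subgroup (Cfsg.qd p) := qdU p
  have hT : IsPGroup p T := qdU_isPGroup p
  let H₁ : Subgroup K₀ := T.comap ψ
  let θ₁ : H₁ →* T := ψ.subgroupComap T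
  have hθ₁ : Function.Surjective θ₁ := ψ.subgroupComap_surjective_of_surjective T hψ
  let S : Sylow p H₁ := default
  have hS : (S : Subgroup H₁).map θ₁ = ⊤ := by
    have h1 : ((S : Subgroup H₁).map θ₁).index ∣ (S : Subgroup H₁).index :=
      Subgroup.index_map_dvd _ hθ₁
    have h2 : ¬ p ∣ (S : Subgroup H₁).index := S.not_dvd_index
    obtain ⟨n, hn⟩ := hT.index ((S : Subgroup H₁).map θ₁)
    rw [hn] at h1
    rcases Nat.eq_zero_or_pos n with h0 | h0
    · rw [h0, pow_zero] at hn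
      exact Subgroup.index_eq_one.mp hn
    · exact absurd (dvd_trans (dvd_pow_self p h0.ne') h1) h2
  let ι : H₁ →* G := K₀.subtype.comp H₁.subtype
  have hι : Function.Injective ι := fun a b hab => Subtype.ext (Subtype.ext hab)
  have hP : IsPGroup p ((S : Subgroup H₁).map ι) := S.isPGroup'.map ι
  have hScomm : ∀ a b : H₁, a ∈ S → b ∈ S → a * b = b * a := by
    intro a b ha hb
    apply hι
    rw [map_mul, map_mul]
    exact hcomm _ hP (ι a) (Subgroup.mem_map_of_mem ι ha) (ι b) (Subgroup.mem_map_of_mem ι hb)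
  let x' : T := ⟨qdu p 1 0 0, qdu_mem p 1 0 0⟩
  let y' : T := ⟨qdu p 0 0 1, qdu_mem p 0 0 1⟩
  have hx : x' ∈ (S : Subgroup H₁).map θ₁ := by rw [hS]; trivial
  have hy : y' ∈ (S : Subgroup H₁).map θ₁ := by rw [hS]; trivial
  obtain ⟨a, ha, hax⟩ := hx
  obtain ⟨b, hb, hby⟩ := hy
  have hab := congrArg θ₁ (hScomm a b ha hb)
  rw [map_mul, map_mul, hax, hby] at hab
  have h2 : qdu p 1 0 0 * qdu p 0 0 1 = qdu p 0 0 1 * qdu p 1 0 0 := congrArg Subtype.val hab
  rw [qdu_mul, qdu_mul] at h2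
  obtain ⟨-, h3, -⟩ := qdu_inj p h2
  simp at h3

/-- `Qd(p)`, `p` odd, embeds into the alternating group of degree `n ≥ p ^ 2` -/
theorem qdalt_embeds (hp : p ≠ 2) (n : ℕ) (hn : p ^ 2 ≤ n) :
    ∃ H : Subgroup (alternatingGroup (Fin n)), Nonempty (↥H ≃* ↥(Cfsg.qd p)) := by
  classical
  have : NeZero p := ⟨(Fact.out : p.Prime).ne_zero⟩
  have hcard : Fintype.card (Fin 2 → ZMod p) ≤ Fintype.card (Fin n) := by
    rw [Fintype.card_fun, ZMod.card, Fintype.card_fin, Fintype.card_fin]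
    exact hn
  obtain ⟨ι⟩ := Function.Embedding.nonempty_of_card_le hcard
  let F : ↥(Cfsg.qd p) →* Equiv.Perm (Fin n) := (Equiv.Perm.viaEmbeddingHom ι).comp (qdAffHom p)
  have hF : Function.Injective F :=
    (Equiv.Perm.viaEmbeddingHom_injective ι).comp (qdAffHom_injective p)
  have hsign : ∀ M, F M ∈ alternatingGroup (Fin n) := by
    intro M
    rw [Equiv.Perm.mem_alternatingGroup]
    exact qdalt_units_trivial p hp (Equiv.Perm.sign.comp F) M
  let f : ↥(Cfsg.qd p) →* ↥(alternatingGroup (Fin n)) := F.codRestrict _ hsign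
  have hf : Function.Injective f := by
    intro a b hab
    apply hF
    exact congrArg Subtype.val hab
  exact ⟨f.range, ⟨(MonoidHom.ofInjective hf).symm⟩⟩

end QdAlt

end Cfsg.Agent.Helper99
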