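import Mathlib
import Cfsg.Agent.Helper99.QdNat
import Cfsg.Agent.Helper99.QdAlt
import Cfsg.Agent.Helper33.Sections

set_option autoImplicit false
set_option linter.unusedSimpArgs false

/-!
Helper99: the projection of `Qd(p)` onto `SL(2, p)`.

* `qdPr`: the homomorphism `Qd(p) →* SL(2, p)` (upper left block); kernel `qdW`, split by `qdBl`;
* `qdpr_mul_qdTr`: `M * qdTr v = qdTr (qdPr M • v) * M`;
* `qdpr_normal_coprime_eq_bot`: `Qd(p)` has no nontrivial normal subgroup of order prime to `p`;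
* `qdpr_section_quotient`: if `Qd(p)` is a section of a finite group `M` and `O` is a normal subgroup of `M`
  of order prime to `p`, then `Qd(p)` is a section of `M ⧸ O`.
-/

namespace Cfsg.Agent.Helper99

open Cfsg Matrix

section QdProj

variable (p : ℕ) [Fact p.Prime]

theorem qdpr_det (M : ↥(Cfsg.qd p)) :
    Matrix.det !![M.1.1 0 0, M.1.1 0 1; M.1.1 1 0, M.1.1 1 1] = 1 := by
  obtain ⟨a, b, c, d, s, t, h, rfl⟩ := qd_eq_mk p M
  rw [Matrix.det_fin_two_of, qdMk_e00, qdMk_e01, qdMk_e10, qdMk_e11]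
  linear_combination h

/-- the upper left block of an element of `Qd(p)` -/
def qdPrFun (M : ↥(Cfsg.qd p)) : Matrix.SpecialLinearGroup (Fin 2) (ZMod p) :=
  ⟨!![M.1.1 0 0, M.1.1 0 1; M.1.1 1 0, M.1.1 1 1], qdpr_det p M⟩

theorem qdPrFun_00 (M : ↥(Cfsg.qd p)) : (qdPrFun p M).1 0 0 = M.1.1 0 0 := rfl
theorem qdPrFun_01 (M : ↥(Cfsg.qd p)) : (qdPrFun p M).1 0 1 = M.1.1 0 1 := rfl
theorem qdPrFun_10 (M : ↥(Cfsg.qd p)) : (qdPrFun p M).1 1 0 = M.1.1 1 0 := rfl
theorem qdPrFun_11 (M : ↥(Cfsg.qd p)) : (qdPrFun p M).1 1 1 = M.1.1 1 1 := rfl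

/-- the projection of `Qd(p)` onto `SL(2, p)` -/
def qdPr : ↥(Cfsg.qd p) →* Matrix.SpecialLinearGroup (Fin 2) (ZMod p) where
  toFun := qdPrFun p
  map_one' := by
    have h1 : (1 : ↥(Cfsg.qd p)) = qdMk p 1 0 0 1 0 0 (by ring) := (qdMk_one p).symm
    rw [h1]
    apply sl_ext' <;> rw [sl_one_apply'] <;>
      simp only [qdPrFun_00, qdPrFun_01, qdPrFun_10, qdPrFun_11, qdMk_e00, qdMk_e01, qdMk_e10,
        qdMk_e11] <;> simp
  map_mul' := by
    intro M N
    obtain ⟨a, b, c, d, s, t, h, rfl⟩ := qd_eq_mk p M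
    obtain ⟨a', b', c', d', s', t', h', rfl⟩ := qd_eq_mk p N
    rw [qdMk_mul]
    apply sl_ext' <;> rw [sl_mul_apply'] <;>
      simp only [qdPrFun_00, qdPrFun_01, qdPrFun_10, qdPrFun_11, qdMk_e00, qdMk_e01, qdMk_e10,
        qdMk_e11]

theorem qdPr_00 (M : ↥(Cfsg.qd p)) : (qdPr p M).1 0 0 = M.1.1 0 0 := rfl
theorem qdPr_01 (M : ↥(Cfsg.qd p)) : (qdPr p M).1 0 1 = M.1.1 0 1 := rfl
theorem qdPr_10 (M : ↥(Cfsg.qd p)) : (qdPr p M).1 1 0 = M.1.1 1 0 := rfl
theorem qdPr_11 (M : ↥(Cfsg.qd p)) : (qdPr p M).1 1 1 = M.1.1 1 1 := rfl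

theorem qdPr_mk_00 (a b c d s t : ZMod p) (h : a * d - b * c = 1) :
    (qdPr p (qdMk p a b c d s t h)).1 0 0 = a := by rw [qdPr_00, qdMk_e00]
theorem qdPr_mk_01 (a b c d s t : ZMod p) (h : a * d - b * c = 1) :
    (qdPr p (qdMk p a b c d s t h)).1 0 1 = b := by rw [qdPr_01, qdMk_e01]
theorem qdPr_mk_10 (a b c d s t : ZMod p) (h : a * d - b * c = 1) :
    (qdPr p (qdMk p a b c d s t h)).1 1 0 = c := by rw [qdPr_10, qdMk_e10]
theorem qdPr_mk_11 (a b c d s t : ZMod p) (h : a * d - b * c = 1) :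
    (qdPr p (qdMk p a b c d s t h)).1 1 1 = d := by rw [qdPr_11, qdMk_e11]

theorem qdPr_qdBl (A : Matrix.SpecialLinearGroup (Fin 2) (ZMod p)) : qdPr p (qdBl p A) = A := by
  rw [qdBl_apply]
  apply sl_ext'
  · rw [qdPr_mk_00]
  · rw [qdPr_mk_01]
  · rw [qdPr_mk_10]
  · rw [qdPr_mk_11]

theorem qdPr_surjective : Function.Surjective (qdPr p) := fun A => ⟨qdBl p A, qdPr_qdBl p A⟩

theorem qdPr_eq_one_iff (M : ↥(Cfsg.qd p)) : qdPr p M = 1 ↔ M ∈ qdW p := by
  obtain ⟨a, b, c, d, s, t, h, rfl⟩ := qd_eq_mk p M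
  constructor
  · intro h1
    have h00 := congrArg (fun A : Matrix.SpecialLinearGroup (Fin 2) (ZMod p) => A.1 0 0) h1
    have h01 := congrArg (fun A : Matrix.SpecialLinearGroup (Fin 2) (ZMod p) => A.1 0 1) h1
    have h10 := congrArg (fun A : Matrix.SpecialLinearGroup (Fin 2) (ZMod p) => A.1 1 0) h1
    have h11 := congrArg (fun A : Matrix.SpecialLinearGroup (Fin 2) (ZMod p) => A.1 1 1) h1
    simp only [qdPr_mk_00, qdPr_mk_01, qdPr_mk_10, qdPr_mk_11, sl_one_apply'] at h00 h01 h10 h11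
    refine ⟨s, t, ?_⟩
    apply qdMk_congr
    · simpa using h00
    · simpa using h01
    · simpa using h10
    · simpa using h11
    · rfl
    · rfl
  · rintro ⟨s', t', h2⟩
    rw [h2]
    apply sl_ext' <;> rw [sl_one_apply'] <;>
      simp only [qdPr_mk_00, qdPr_mk_01, qdPr_mk_10, qdPr_mk_11] <;> simp

theorem qdTr_mem_qdW (v : Multiplicative (Fin 2 → ZMod p)) : qdTr p v ∈ qdW p :=
  ⟨_, _, rfl⟩

theorem qdW_exists_qdTr (w : ↥(Cfsg.qd p)) (hw : w ∈ qdW p) :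
    ∃ v : Multiplicative (Fin 2 → ZMod p), qdTr p v = w := by
  obtain ⟨s, t, rfl⟩ := hw
  refine ⟨Multiplicative.ofAdd ![s, t], ?_⟩
  rw [qdTr_apply]
  apply qdMk_congr <;> simp

theorem qdTr_injective : Function.Injective (qdTr p) := by
  intro v w h
  rw [qdTr_apply, qdTr_apply] at h
  have h0 := congrArg (fun M : ↥(Cfsg.qd p) => M.1.1 0 2) h
  have h1 := congrArg (fun M : ↥(Cfsg.qd p) => M.1.1 1 2) h
  simp only [qdMk_e02, qdMk_e12] at h0 h1
  apply Multiplicative.toAdd.injective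
  funext i
  fin_cases i
  · exact h0
  · exact h1

theorem qdpr_mul_qdTr (M : ↥(Cfsg.qd p)) (v : Multiplicative (Fin 2 → ZMod p)) :
    M * qdTr p v = qdTr p (qdActHom p (qdPr p M) v) * M := by
  obtain ⟨a, b, c, d, s, t, h, rfl⟩ := qd_eq_mk p M
  rw [qdTr_apply, qdTr_apply, qdMk_mul, qdMk_mul]
  apply qdMk_congr <;>
    simp [qdActHom_apply, qdPr_mk_00, qdPr_mk_01, qdPr_mk_10, qdPr_mk_11, Matrix.mulVec,
      dotProduct, Fin.sum_univ_two] <;> ring

theorem qdpr_conj_qdTr (M : ↥(Cfsg.qd p)) (v : Multiplicative (Fin 2 → ZMod p)) :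
    M * qdTr p v * M⁻¹ = qdTr p (qdActHom p (qdPr p M) v) := by
  rw [qdpr_mul_qdTr, mul_inv_cancel_right]

/-- the two basis translations -/
def qdE1 : ↥(Cfsg.qd p) := qdTr p (Multiplicative.ofAdd ![1, 0])

/-- the two basis translations -/
def qdE2 : ↥(Cfsg.qd p) := qdTr p (Multiplicative.ofAdd ![0, 1])

theorem qdE1_mem : qdE1 p ∈ qdW p := qdTr_mem_qdW p _

theorem qdE2_mem : qdE2 p ∈ qdW p := qdTr_mem_qdW p _

theorem qdW_comm (x y : ↥(Cfsg.qd p)) (hx : x ∈ qdW p) (hy : y ∈ qdW p) : x * y = y * x := by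
  obtain ⟨v, rfl⟩ := qdW_exists_qdTr p x hx
  obtain ⟨w, rfl⟩ := qdW_exists_qdTr p y hy
  rw [← map_mul, ← map_mul, mul_comm]

theorem qdTr_col (a c : ZMod p) :
    qdTr p (Multiplicative.ofAdd ![a, c]) = qdE1 p ^ a.val * qdE2 p ^ c.val := by
  unfold qdE1 qdE2
  rw [← (qdTr p).map_pow, ← (qdTr p).map_pow, ← (qdTr p).map_mul]
  congr 1
  apply Multiplicative.toAdd.injective
  funext i
  fin_cases i <;> simp [toAdd_mul, toAdd_pow]

theorem qdpr_conj_E1 (M : ↥(Cfsg.qd p)) :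
    M * qdE1 p * M⁻¹ = qdE1 p ^ ((qdPr p M).1 0 0).val * qdE2 p ^ ((qdPr p M).1 1 0).val := by
  rw [← qdTr_col]
  unfold qdE1
  rw [qdpr_conj_qdTr]
  congr 1
  rw [qdActHom_apply]
  congr 1
  funext i
  fin_cases i <;> simp [Matrix.mulVec, dotProduct, Fin.sum_univ_two]

theorem qdpr_conj_E2 (M : ↥(Cfsg.qd p)) :
    M * qdE2 p * M⁻¹ = qdE1 p ^ ((qdPr p M).1 0 1).val * qdE2 p ^ ((qdPr p M).1 1 1).val := by
  rw [← qdTr_col]
  unfold qdE2
  rw [qdpr_conj_qdTr]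
  congr 1
  rw [qdActHom_apply]
  congr 1
  funext i
  fin_cases i <;> simp [Matrix.mulVec, dotProduct, Fin.sum_univ_two]

theorem qdE_pow_eq_one (i j : ℕ) (h : qdE1 p ^ i * qdE2 p ^ j = 1) : p ∣ i ∧ p ∣ j := by
  unfold qdE1 qdE2 at h
  rw [← (qdTr p).map_pow, ← (qdTr p).map_pow, ← (qdTr p).map_mul, ← (qdTr p).map_one] at h
  have h2 := qdTr_injective p h
  have h3 := congrArg Multiplicative.toAdd h2
  have h0 := congrFun h3 0
  have h1 := congrFun h3 1
  simp [toAdd_mul, toAdd_pow] at h0 h1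
  exact ⟨(ZMod.natCast_eq_zero_iff i p).1 h0, (ZMod.natCast_eq_zero_iff j p).1 h1⟩

/-- an element of `Qd(p)` centralizing the translations is a translation -/
theorem qdpr_mem_qdW_of_commute (x : ↥(Cfsg.qd p))
    (h : ∀ w ∈ qdW p, x * w = w * x) : x ∈ qdW p := by
  rw [← qdPr_eq_one_iff]
  have h1 : ∀ v : Multiplicative (Fin 2 → ZMod p), qdActHom p (qdPr p x) v = v := by
    intro v
    apply qdTr_injective p
    rw [← qdpr_conj_qdTr, h _ (qdTr_mem_qdW p v), mul_inv_cancel_right]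
  have e1 := congrArg Multiplicative.toAdd (h1 (Multiplicative.ofAdd ![1, 0]))
  have e2 := congrArg Multiplicative.toAdd (h1 (Multiplicative.ofAdd ![0, 1]))
  rw [qdActHom_apply] at e1 e2
  have e10 := congrFun e1 0
  have e11 := congrFun e1 1
  have e20 := congrFun e2 0
  have e21 := congrFun e2 1
  simp [Matrix.mulVec, dotProduct, Fin.sum_univ_two] at e10 e11 e20 e21
  apply sl_ext' <;> rw [sl_one_apply'] <;> simp [e10, e11, e20, e21]

/-- `Qd(p)` has no nontrivial normal subgroup of order prime to `p`. -/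
theorem qdpr_normal_coprime_eq_bot (N : Subgroup ↥(Cfsg.qd p)) [hN : N.Normal]
    (hc : (Nat.card N).Coprime p) : N = ⊥ := by
  have key : ∀ x ∈ N, x ∈ qdW p → x = 1 := by
    intro x hx hxW
    have h1 : x ^ p = 1 := qdW_pow p x hxW
    have h2 : x ^ Nat.card N = 1 := by
      have := pow_card_eq_one' (G := N) (x := ⟨x, hx⟩)
      exact congrArg Subtype.val this
    have h3 : orderOf x ∣ Nat.gcd (Nat.card N) p :=
      Nat.dvd_gcd (orderOf_dvd_of_pow_eq_one h2) (orderOf_dvd_of_pow_eq_one h1)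
    rw [hc.gcd_eq_one, Nat.dvd_one] at h3
    exact orderOf_eq_one_iff.1 h3
  rw [Subgroup.eq_bot_iff_forall]
  intro x hx
  apply key x hx
  apply qdpr_mem_qdW_of_commute
  intro w hw
  have hW := qdW_normal p
  have h1 : x * w * x⁻¹ * w⁻¹ ∈ N := by
    have := hN.conj_mem x⁻¹ (N.inv_mem hx) w
    have h2 := N.mul_mem hx this
    simpa [mul_assoc] using h2
  have h2 : x * w * x⁻¹ * w⁻¹ ∈ qdW p :=
    (qdW p).mul_mem (hW.conj_mem w hw x) ((qdW p).inv_mem hw)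
  have h3 := key _ h1 h2
  rw [mul_inv_eq_one, mul_inv_eq_iff_eq_mul] at h3
  exact h3

/-- If `Qd(p)` is a section of `M` and `O` is a normal subgroup of `M` of order prime to `p`, then `Qd(p)` is a
section of `M ⧸ O`. -/
theorem qdpr_section_quotient {M : Type*} [Group M] [Finite M] (O : Subgroup M) [O.Normal]
    (hO : (Nat.card O).Coprime p)
    (h : Cfsg.Agent.Helper33.IsSectionOf M ↥(Cfsg.qd p)) :
    Cfsg.Agent.Helper33.IsSectionOf (M ⧸ O) ↥(Cfsg.qd p) := by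
  obtain ⟨K, f, hf⟩ := h
  have hN : ((O.subgroupOf K).map f).Normal := Subgroup.Normal.map inferInstance f hf
  have hcard : (Nat.card ((O.subgroupOf K).map f)).Coprime p := by
    have h1 : Nat.card ((O.subgroupOf K).map f) ∣ Nat.card (O.subgroupOf K) :=
      Subgroup.card_map_dvd (O.subgroupOf K) f
    have h2 : Nat.card (O.subgroupOf K) ∣ Nat.card O :=
      Subgroup.card_comap_dvd_of_injective O K.subtype K.subtype_injective
    exact Nat.Coprime.coprime_dvd_left (h1.trans h2) hO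
  have hbot := qdpr_normal_coprime_eq_bot p ((O.subgroupOf K).map f) hcard
  let π : ↥K →* ↥(K.map (QuotientGroup.mk' O)) := (QuotientGroup.mk' O).subgroupMap K
  have hπ : Function.Surjective π := (QuotientGroup.mk' O).subgroupMap_surjective K
  have hker : π.ker ≤ f.ker := by
    intro x hx
    rw [MonoidHom.mem_ker] at hx ⊢
    have h1 : (QuotientGroup.mk' O) (x : M) = 1 := congrArg Subtype.val hx
    have h2 : (x : M) ∈ O := by
      rwa [QuotientGroup.mk'_apply, QuotientGroup.eq_one_iff] at h1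
    have h3 : f x ∈ (O.subgroupOf K).map f := Subgroup.mem_map_of_mem f h2
    rw [hbot] at h3
    exact Subgroup.mem_bot.1 h3
  refine ⟨K.map (QuotientGroup.mk' O), π.liftOfSurjective hπ ⟨f, hker⟩, ?_⟩
  intro y
  obtain ⟨x, rfl⟩ := hf y
  exact ⟨π x, MonoidHom.liftOfRightInverse_comp_apply _ _ _ _ x⟩

end QdProj

end Cfsg.Agent.Helper99
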