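import Mathlib
import Cfsg.Agent.Helper99.QdProj
import Cfsg.Agent.Helper99.QdSylow
import Cfsg.Agent.Helper84.ModelSub

set_option autoImplicit false
set_option linter.unusedSimpArgs false

/-!
Helper99: a group involving `Qd(p)` has a `p`-centric `p`-subgroup `Q` whose normalizer involves `Qd(p)`.

* `qdloc_frattini`: a group `K` mapping onto `Qd(p)` has subgroups `T ⊴ K₁` with `T` a `p`-group mapping onto
  the translation subgroup and `K₁` still mapping onto `Qd(p)` (Frattini argument);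
* `qdloc_main`: if `K` embeds in the finite group `G`, maps onto `Qd(p)` and has a normal `p`-subgroup `T` mapping
  onto the translations, then for a Sylow `p`-subgroup `Q` of `T C_G(T)`: every `p`-subgroup of `C_G(Q)` lies
  in `Q`, and `Qd(p)` is a section of `N_G(Q)` (`p` odd);
* `qdloc_exists`: the combination; `qdloc_cj`: the three properties are invariant under conjugation.
-/

namespace Cfsg.Agent.Helper99

open Cfsg

open scoped Pointwise

section QdLocal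

variable (p : ℕ) [Fact p.Prime]

theorem qdloc_frattini {K : Type*} [Group K] [Finite K] (f : K →* ↥(Cfsg.qd p))
    (hf : Function.Surjective f) :
    ∃ (K₁ T : Subgroup K), T ≤ K₁ ∧ K₁ ≤ Subgroup.normalizer (T : Set K) ∧ IsPGroup p T ∧
      (∀ y, ∃ k ∈ K₁, f k = y) ∧ (∀ t ∈ T, f t ∈ qdW p) ∧ (∀ w ∈ qdW p, ∃ t ∈ T, f t = w) := by
  have hWn := qdW_normal p
  let V : Subgroup K := (qdW p).comap f
  have hVn : V.Normal := Subgroup.Normal.comap hWn f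
  obtain ⟨P₀⟩ : Nonempty (Sylow p ↥V) := inferInstance
  let T : Subgroup K := (P₀ : Subgroup ↥V).map V.subtype
  have hsup : Subgroup.normalizer (T : Set K) ⊔ V = ⊤ := Sylow.normalizer_sup_eq_top P₀
  have hTV : T ≤ V := Subgroup.map_subtype_le _
  have hTp : IsPGroup p T := P₀.isPGroup'.map _
  have hWT : ∀ w ∈ qdW p, ∃ t ∈ T, f t = w := by
    intro w hw
    let fV : ↥V →* ↥(qdW p) := f.subgroupComap (qdW p)
    have hfV : Function.Surjective fV := f.subgroupComap_surjective_of_surjective (qdW p) hf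
    let P₁ : Sylow p ↥(qdW p) := P₀.mapSurjective hfV
    have hWp : IsPGroup p ↥(qdW p) := qdW_isPGroup p
    have htop : (⊤ : Subgroup ↥(qdW p)) = (P₁ : Subgroup ↥(qdW p)) :=
      P₁.3 (hWp.to_subgroup ⊤) le_top
    have hmem : (⟨w, hw⟩ : ↥(qdW p)) ∈ (P₁ : Subgroup ↥(qdW p)) := by
      rw [← htop]; trivial
    rw [Sylow.coe_mapSurjective] at hmem
    obtain ⟨v, hv, hvw⟩ := hmem
    exact ⟨v.1, ⟨v, hv, rfl⟩, congrArg Subtype.val hvw⟩
  refine ⟨Subgroup.normalizer (T : Set K), T, Subgroup.le_normalizer, le_rfl, hTp, ?_,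
    fun t ht => hTV ht, hWT⟩
  intro y
  obtain ⟨k₀, rfl⟩ := hf y
  have hk₀ : k₀ ∈ Subgroup.normalizer (T : Set K) ⊔ V := by rw [hsup]; trivial
  obtain ⟨n, hn, v, hv, rfl⟩ := Subgroup.mem_sup_of_normal_right.1 hk₀
  obtain ⟨t, ht, htv⟩ := hWT (f v) hv
  refine ⟨n * t, Subgroup.mul_mem _ hn (Subgroup.le_normalizer ht), ?_⟩
  rw [map_mul, map_mul, htv]

theorem qdloc_main {G : Type*} [Group G] [Finite G] (hp : p ≠ 2) {K : Type*} [Group K]
    (j : K →* G) (hj : Function.Injective j) (f : K →* ↥(Cfsg.qd p)) (hf : Function.Surjective f)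
    (T : Subgroup K) [hTn : T.Normal] (hT : IsPGroup p T)
    (hTW : ∀ t ∈ T, f t ∈ qdW p) (hWT : ∀ w ∈ qdW p, ∃ t ∈ T, f t = w) :
    ∃ Q : Subgroup G, IsPGroup p Q ∧
      (∀ D : Subgroup G, D ≤ Subgroup.centralizer (Q : Set G) → IsPGroup p D → D ≤ Q) ∧
      Cfsg.Agent.Helper33.IsSectionOf ↥(Subgroup.normalizer (Q : Set G)) ↥(Cfsg.qd p) := by
  classical
  have hKfin : Finite K := Finite.of_injective j hj
  let T₀ : Subgroup G := T.map j
  let C : Subgroup G := Subgroup.centralizer (T₀ : Set G)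
  let M : Subgroup G := Subgroup.normalizer (T₀ : Set G)
  let U : Subgroup G := T₀ ⊔ C
  have hT₀p : IsPGroup p T₀ := hT.map j
  have hjM : ∀ k : K, j k ∈ M := by
    intro k
    rw [Subgroup.mem_normalizer_iff]
    intro h
    constructor
    · rintro ⟨t, ht, rfl⟩
      exact ⟨k * t * k⁻¹, hTn.conj_mem t ht k, by simp⟩
    · rintro ⟨t, ht, hte⟩
      refine ⟨k⁻¹ * t * k, by simpa using hTn.conj_mem t ht k⁻¹, ?_⟩
      rw [map_mul, map_mul, hte, map_inv]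
      group
  have hMC : ∀ g ∈ M, ∀ c ∈ C, g * c * g⁻¹ ∈ C := by
    intro g hg c hc
    rw [Subgroup.mem_centralizer_iff] at hc ⊢
    intro t ht
    have h1 : g⁻¹ * t * g ∈ T₀ := by
      have := (Subgroup.mem_normalizer_iff.1 (M.inv_mem hg) t).1 ht
      simpa using this
    have h2 := hc _ h1
    calc t * (g * c * g⁻¹) = g * ((g⁻¹ * t * g) * c) * g⁻¹ := by group
      _ = g * (c * (g⁻¹ * t * g)) * g⁻¹ := by rw [h2]
      _ = g * c * g⁻¹ * t := by group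
  have hT₀M : T₀ ≤ M := Subgroup.le_normalizer
  have hCM : C ≤ M := Subgroup.centralizer_le_normalizer _
  have hT₀NC : T₀ ≤ Subgroup.normalizer (C : Set G) := by
    intro t ht
    rw [Subgroup.mem_normalizer_iff]
    intro c
    constructor
    · exact hMC t (hT₀M ht) c
    · intro h
      have := hMC t⁻¹ (M.inv_mem (hT₀M ht)) _ h
      have e : t⁻¹ * (t * c * t⁻¹) * t⁻¹⁻¹ = c := by group
      rwa [e] at this
  have hMU : ∀ g ∈ M, ∀ u ∈ U, g * u * g⁻¹ ∈ U := by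
    intro g hg u hu
    have h1 : U.map (MulAut.conj g).toMonoidHom ≤ U := by
      rw [Subgroup.map_sup]
      apply sup_le
      · rintro _ ⟨t, ht, rfl⟩
        exact Subgroup.mem_sup_left ((Subgroup.mem_normalizer_iff.1 hg t).1 ht)
      · rintro _ ⟨c, hc, rfl⟩
        exact Subgroup.mem_sup_right (hMC g hg c hc)
    exact h1 ⟨u, hu, rfl⟩
  have hT₀U : T₀ ≤ U := le_sup_left
  obtain ⟨P₁, hP₁⟩ := (hT₀p.comap_subtype (K := U)).exists_le_sylow
  let Q : Subgroup G := (P₁ : Subgroup ↥U).map U.subtype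
  have hQU : Q ≤ U := Subgroup.map_subtype_le _
  have hQp : IsPGroup p Q := P₁.isPGroup'.map _
  have hT₀Q : T₀ ≤ Q := by
    intro t ht
    exact ⟨⟨t, hT₀U ht⟩, hP₁ (show (⟨t, hT₀U ht⟩ : ↥U) ∈ T₀.subgroupOf U from ht), rfl⟩
  have hQsub : Q.subgroupOf U = P₁ :=
    Subgroup.comap_map_eq_self_of_injective U.subtype_injective _
  have hmax := (Cfsg.Agent.Helper84.sylowIn_iff hQU).1 ⟨P₁, hQsub.symm⟩
  have hcen : ∀ D : Subgroup G, D ≤ Subgroup.centralizer (Q : Set G) → IsPGroup p D → D ≤ Q := by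
    intro D hD hDp
    have hDC : D ≤ C := hD.trans (Subgroup.centralizer_le hT₀Q)
    have h1 : IsPGroup p (D ⊔ Q : Subgroup G) :=
      hDp.to_sup_of_normal_right' hQp (hD.trans (Subgroup.centralizer_le_normalizer _))
    have h2 : D ⊔ Q ≤ U := sup_le (hDC.trans le_sup_right) hQU
    have h3 := hmax.2 _ h2 h1
    have h4 : Q = D ⊔ Q := Subgroup.eq_of_le_of_card_ge le_sup_right h3
    exact le_sup_left.trans h4.ge
  let NQ : Subgroup G := Subgroup.normalizer (Q : Set G)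
  have hFR : ∀ g ∈ M, ∃ n ∈ NQ, n * g⁻¹ ∈ C := by
    intro g hg
    have hcjU : Cfsg.Agent.Helper84.cj g Q ≤ U := by
      rintro _ ⟨q, hq, rfl⟩
      exact hMU g hg q (hQU hq)
    obtain ⟨h, hhU, hconj⟩ := Cfsg.Agent.Helper84.exists_conj_le_of_maxP hQU hmax.1 hmax.2 hcjU
      (Cfsg.Agent.Helper84.isPGroup_cj hQp)
    have hhg : h * g ∈ NQ := by
      apply Cfsg.Agent.Helper84.mem_normalizer_of_forall_conj_mem Q
      intro a ha
      have := hconj (g * a * g⁻¹) (Cfsg.Agent.Helper84.cj_mem ha)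
      have e : h * g * a * (h * g)⁻¹ = h * (g * a * g⁻¹) * h⁻¹ := by group
      rw [e]; exact this
    have hset : ((T₀ ⊔ C : Subgroup G) : Set G) = (T₀ : Set G) * (C : Set G) :=
      Subgroup.coe_mul_of_left_le_normalizer_right T₀ C hT₀NC
    have hh' : h ∈ (T₀ : Set G) * (C : Set G) := by rw [← hset]; exact hhU
    obtain ⟨t, ht, c, hc, rfl⟩ := Set.mem_mul.mp hh'
    refine ⟨c * g, ?_, ?_⟩
    · have h1 : t⁻¹ ∈ NQ := Subgroup.le_normalizer (hT₀Q (T₀.inv_mem ht))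
      have h2 := NQ.mul_mem h1 hhg
      have e : t⁻¹ * (t * c * g) = c * g := by group
      rwa [e] at h2
    · have e : c * g * g⁻¹ = c := by group
      rw [e]; exact hc
  -- the fibered subgroup
  let Y : Subgroup (G × K) :=
    { carrier := {y | y.1 ∈ NQ ∧ y.1 * (j y.2)⁻¹ ∈ C}
      one_mem' := ⟨NQ.one_mem, by simp [C.one_mem]⟩
      mul_mem' := by
        rintro ⟨n₁, k₁⟩ ⟨n₂, k₂⟩ ⟨h1, h1'⟩ ⟨h2, h2'⟩
        refine ⟨NQ.mul_mem h1 h2, ?_⟩
        have e : n₁ * n₂ * (j (k₁ * k₂))⁻¹ =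
            (n₁ * (j k₁)⁻¹) * (j k₁ * (n₂ * (j k₂)⁻¹) * (j k₁)⁻¹) := by
          rw [map_mul]; group
        show n₁ * n₂ * (j (k₁ * k₂))⁻¹ ∈ C
        rw [e]
        exact C.mul_mem h1' (hMC _ (hjM k₁) _ h2')
      inv_mem' := by
        rintro ⟨n, k⟩ ⟨h1, h1'⟩
        refine ⟨NQ.inv_mem h1, ?_⟩
        have e : n⁻¹ * (j k⁻¹)⁻¹ = (j k)⁻¹ * (n * (j k)⁻¹)⁻¹ * (j k)⁻¹⁻¹ := by
          rw [map_inv]; group
        show n⁻¹ * (j k⁻¹)⁻¹ ∈ C
        rw [e]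
        exact hMC _ (M.inv_mem (hjM k)) _ (C.inv_mem h1') }
  have hYmem : ∀ y : G × K, y ∈ Y ↔ y.1 ∈ NQ ∧ y.1 * (j y.2)⁻¹ ∈ C := fun y => Iff.rfl
  -- conjugation by the first component on `j T` is conjugation by the second component
  have hCONJ : ∀ y ∈ Y, ∀ t ∈ T, y.1 * j t * y.1⁻¹ = j (y.2 * t * y.2⁻¹) := by
    rintro ⟨n, k⟩ ⟨-, hc⟩ t ht
    have hc' : n * (j k)⁻¹ ∈ C := hc
    have h1 : j (k * t * k⁻¹) ∈ T₀ := ⟨_, hTn.conj_mem t ht k, rfl⟩
    have h2 := (Subgroup.mem_centralizer_iff.1 hc') _ h1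
    show n * j t * n⁻¹ = j (k * t * k⁻¹)
    calc n * j t * n⁻¹ = (n * (j k)⁻¹) * j (k * t * k⁻¹) * (n * (j k)⁻¹)⁻¹ := by
          rw [map_mul, map_mul, map_inv]; group
      _ = j (k * t * k⁻¹) * (n * (j k)⁻¹) * (n * (j k)⁻¹)⁻¹ := by rw [h2]
      _ = j (k * t * k⁻¹) := by group
  -- the kernel of the first projection is killed
  have hKER : ∀ y ∈ Y, y.1 ∈ T₀ → qdPr p (f y.2) = 1 := by
    rintro ⟨n, k⟩ ⟨-, hc⟩ ⟨t₀, ht₀, hte⟩
    have hte' : j t₀ = n := hte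
    have hc' : j (t₀ * k⁻¹) ∈ C := by
      rw [map_mul, map_inv, hte']; exact hc
    have h1 : f (t₀ * k⁻¹) ∈ qdW p := by
      apply qdpr_mem_qdW_of_commute
      intro w hw
      obtain ⟨t, ht, rfl⟩ := hWT w hw
      have h2 := (Subgroup.mem_centralizer_iff.1 hc') (j t) ⟨t, ht, rfl⟩
      rw [← map_mul, ← map_mul] at h2
      have h3 := hj h2
      rw [← map_mul, ← map_mul, h3]
    have h2 := (qdPr_eq_one_iff p _).2 h1
    have h3 := (qdPr_eq_one_iff p _).2 (hTW t₀ ht₀)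
    rw [map_mul, map_mul, h3, one_mul, map_inv, map_inv, inv_eq_one] at h2
    exact h2
  let R₀ : Subgroup G := (T ⊓ f.ker).map j
  let Z : Subgroup ↥Y := R₀.comap ((MonoidHom.fst G K).comp Y.subtype)
  have hZmem : ∀ y : ↥Y, y ∈ Z ↔ (y : G × K).1 ∈ R₀ := fun y => Iff.rfl
  have hZn : Z.Normal := by
    constructor
    intro z hz y
    rw [hZmem] at hz ⊢
    obtain ⟨r, hr, hre⟩ := hz
    have h1 := hCONJ y.1 y.2 r hr.1
    show (y : G × K).1 * (z : G × K).1 * ((y : G × K).1)⁻¹ ∈ R₀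
    rw [← hre, h1]
    refine ⟨_, ⟨hTn.conj_mem r hr.1 _, ?_⟩, rfl⟩
    exact (inferInstance : f.ker.Normal).conj_mem r hr.2 _
  let ρY : ↥Y →* Matrix.SpecialLinearGroup (Fin 2) (ZMod p) :=
    (qdPr p).comp (f.comp ((MonoidHom.snd G K).comp Y.subtype))
  have hρY : ∀ y : ↥Y, ρY y = qdPr p (f (y : G × K).2) := fun y => rfl
  have hZρ : Z ≤ ρY.ker := by
    intro z hz
    rw [hZmem] at hz
    rw [MonoidHom.mem_ker, hρY]
    exact hKER z.1 z.2 (Subgroup.map_mono inf_le_left hz)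
  let θ : ↥Y →* ↥Y ⧸ Z := QuotientGroup.mk' Z
  let ρ' : ↥Y ⧸ Z →* Matrix.SpecialLinearGroup (Fin 2) (ZMod p) := QuotientGroup.lift Z ρY hZρ
  have hρ' : ∀ y : ↥Y, ρ' (θ y) = ρY y := fun y => rfl
  -- the diagonal copy of `T`
  let dY : ↥T →* ↥Y :=
    { toFun := fun t => ⟨(j t.1, t.1), ⟨Subgroup.le_normalizer (hT₀Q ⟨t.1, t.2, rfl⟩), by
          show j t.1 * (j t.1)⁻¹ ∈ C
          rw [mul_inv_cancel]; exact C.one_mem⟩⟩
      map_one' := Subtype.ext (Prod.ext (map_one j) rfl)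
      map_mul' := fun a b => Subtype.ext (Prod.ext (map_mul j _ _) rfl) }
  have hdY1 : ∀ t : ↥T, ((dY t : ↥Y) : G × K).1 = j t.1 := fun t => rfl
  have hdY2 : ∀ t : ↥T, ((dY t : ↥Y) : G × K).2 = t.1 := fun t => rfl
  let ψ : ↥T →* ↥Y ⧸ Z := θ.comp dY
  have hψone : ∀ a : ↥T, ψ a = 1 ↔ f a.1 = 1 := by
    intro a
    show θ (dY a) = 1 ↔ _
    rw [QuotientGroup.mk'_apply, QuotientGroup.eq_one_iff, hZmem, hdY1]
    constructor
    · rintro ⟨r, hr, hre⟩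
      have := hj hre
      rw [← this]
      exact hr.2
    · intro h
      exact ⟨a.1, ⟨a.2, h⟩, rfl⟩
  have hψeq : ∀ a b : ↥T, f a.1 = f b.1 → ψ a = ψ b := by
    intro a b hab
    have h1 : ψ (a⁻¹ * b) = 1 := by
      rw [hψone]
      show f (a.1⁻¹ * b.1) = 1
      rw [map_mul, map_inv, hab, inv_mul_cancel]
    rw [map_mul, map_inv, inv_mul_eq_one] at h1
    exact h1
  obtain ⟨t₁, ht₁, hft₁⟩ := hWT _ (qdE1_mem p)
  obtain ⟨t₂, ht₂, hft₂⟩ := hWT _ (qdE2_mem p)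
  let τ₁ : ↥T := ⟨t₁, ht₁⟩
  let τ₂ : ↥T := ⟨t₂, ht₂⟩
  have hfτ₁ : f τ₁.1 = qdE1 p := hft₁
  have hfτ₂ : f τ₂.1 = qdE2 p := hft₂
  have hfpow : ∀ i j' : ℕ, f ((τ₁ ^ i * τ₂ ^ j' : ↥T) : K) = qdE1 p ^ i * qdE2 p ^ j' := by
    intro i j'
    rw [Subgroup.coe_mul, Subgroup.coe_pow, Subgroup.coe_pow, map_mul, map_pow, map_pow, hfτ₁,
      hfτ₂]
  have hinv : Cfsg.Involves ↥(Cfsg.qd p) (↥Y ⧸ Z) := by
    refine qd_involved_of_natural p hp (ψ τ₁) (ψ τ₂) ?_ ?_ ?_ ?_ ⊤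
      (ρ'.comp (⊤ : Subgroup (↥Y ⧸ Z)).subtype) ?_ ?_ ?_
    · -- commute
      show ψ τ₁ * ψ τ₂ = ψ τ₂ * ψ τ₁
      rw [← map_mul, ← map_mul]
      apply hψeq
      show f (t₁ * t₂) = f (t₂ * t₁)
      rw [map_mul, map_mul, hft₁, hft₂]
      exact qdW_comm p _ _ (qdE1_mem p) (qdE2_mem p)
    · rw [← map_pow, hψone]
      show f (τ₁ ^ p : ↥T).1 = 1
      rw [Subgroup.coe_pow, map_pow, hfτ₁]
      exact qdW_pow p _ (qdE1_mem p)
    · rw [← map_pow, hψone]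
      show f (τ₂ ^ p : ↥T).1 = 1
      rw [Subgroup.coe_pow, map_pow, hfτ₂]
      exact qdW_pow p _ (qdE2_mem p)
    · intro i j' h
      rw [← map_pow, ← map_pow, ← map_mul, hψone, hfpow] at h
      exact qdE_pow_eq_one p i j' h
    · intro A
      obtain ⟨M₀, rfl⟩ := qdPr_surjective p A
      obtain ⟨k, rfl⟩ := hf M₀
      obtain ⟨n, hn, hc⟩ := hFR (j k) (hjM k)
      exact ⟨⟨θ ⟨(n, k), ⟨hn, hc⟩⟩, Subgroup.mem_top _⟩, rfl⟩
    · rintro ⟨k', -⟩
      obtain ⟨y, rfl⟩ := QuotientGroup.mk'_surjective Z k'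
      show θ y * ψ τ₁ * (θ y)⁻¹ = ψ τ₁ ^ ((ρ' (θ y)).1 0 0).val * ψ τ₂ ^ ((ρ' (θ y)).1 1 0).val
      rw [hρ', hρY, ← map_pow, ← map_pow, ← map_mul]
      have h1 : θ y * ψ τ₁ * (θ y)⁻¹ =
          ψ ⟨(y : G × K).2 * t₁ * ((y : G × K).2)⁻¹, hTn.conj_mem t₁ ht₁ _⟩ := by
        show θ y * θ (dY τ₁) * (θ y)⁻¹ = θ (dY _)
        rw [← map_inv, ← map_mul, ← map_mul]
        congr 1
        apply Subtype.ext
        apply Prod.ext
        · exact hCONJ y.1 y.2 t₁ ht₁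
        · rfl
      rw [h1]
      apply hψeq
      rw [hfpow]
      show f ((y : G × K).2 * t₁ * ((y : G × K).2)⁻¹) = _
      rw [map_mul, map_mul, map_inv, hft₁]
      exact qdpr_conj_E1 p _
    · rintro ⟨k', -⟩
      obtain ⟨y, rfl⟩ := QuotientGroup.mk'_surjective Z k'
      show θ y * ψ τ₂ * (θ y)⁻¹ = ψ τ₁ ^ ((ρ' (θ y)).1 0 1).val * ψ τ₂ ^ ((ρ' (θ y)).1 1 1).val
      rw [hρ', hρY, ← map_pow, ← map_pow, ← map_mul]
      have h1 : θ y * ψ τ₂ * (θ y)⁻¹ =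
          ψ ⟨(y : G × K).2 * t₂ * ((y : G × K).2)⁻¹, hTn.conj_mem t₂ ht₂ _⟩ := by
        show θ y * θ (dY τ₂) * (θ y)⁻¹ = θ (dY _)
        rw [← map_inv, ← map_mul, ← map_mul]
        congr 1
        apply Subtype.ext
        apply Prod.ext
        · exact hCONJ y.1 y.2 t₂ ht₂
        · rfl
      rw [h1]
      apply hψeq
      rw [hfpow]
      show f ((y : G × K).2 * t₂ * ((y : G × K).2)⁻¹) = _
      rw [map_mul, map_mul, map_inv, hft₂]
      exact qdpr_conj_E2 p _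
  -- `Y ⧸ Z` is a section of `N_G(Q)`
  let π₁ : ↥Y →* ↥NQ := ((MonoidHom.fst G K).comp Y.subtype).codRestrict NQ (fun y => y.2.1)
  have hπ₁ : ∀ y : ↥Y, ((π₁ y : ↥NQ) : G) = (y : G × K).1 := fun y => rfl
  let π : ↥Y →* ↥π₁.range := π₁.rangeRestrict
  have hπ : Function.Surjective π := π₁.rangeRestrict_surjective
  have hker : π.ker ≤ θ.ker := by
    intro y hy
    rw [MonoidHom.mem_ker] at hy
    have h1 : π₁ y = 1 := congrArg Subtype.val hy
    have h2 : (y : G × K).1 = 1 := by rw [← hπ₁, h1]; rfl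
    rw [QuotientGroup.ker_mk', hZmem, h2]
    exact R₀.one_mem
  have hsec1 : Cfsg.Agent.Helper33.IsSectionOf ↥NQ (↥Y ⧸ Z) := by
    refine ⟨π₁.range, π.liftOfSurjective hπ ⟨θ, hker⟩, ?_⟩
    intro x
    obtain ⟨y, rfl⟩ := QuotientGroup.mk'_surjective Z x
    exact ⟨π y, MonoidHom.liftOfRightInverse_comp_apply _ _ _ _ y⟩
  have hsec2 : Cfsg.Agent.Helper33.IsSectionOf (↥Y ⧸ Z) ↥(Cfsg.qd p) := by
    obtain ⟨K', R', hR', ⟨e⟩⟩ := hinv
    exact (Cfsg.Agent.Helper33.isSectionOf_quotient_subgroupOf K' R').of_surjective e.toMonoidHom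
      e.surjective
  exact ⟨Q, hQp, hcen, hsec1.trans hsec2⟩

/-- A finite group involving `Qd(p)`, `p` odd, has a `p`-subgroup `Q` containing every `p`-subgroup of its
centralizer whose normalizer involves `Qd(p)`. -/
theorem qdloc_exists {G : Type*} [Group G] [Finite G] (hp : p ≠ 2)
    (h : Cfsg.Agent.Helper33.IsSectionOf G ↥(Cfsg.qd p)) :
    ∃ Q : Subgroup G, IsPGroup p Q ∧
      (∀ D : Subgroup G, D ≤ Subgroup.centralizer (Q : Set G) → IsPGroup p D → D ≤ Q) ∧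
      Cfsg.Agent.Helper33.IsSectionOf ↥(Subgroup.normalizer (Q : Set G)) ↥(Cfsg.qd p) := by
  obtain ⟨K₀, f, hf⟩ := h
  obtain ⟨K₁, T, hTK, hKT, hTp, hsurj, hTW, hWT⟩ := qdloc_frattini p f hf
  have hTn : (T.subgroupOf K₁).Normal := (Subgroup.normal_subgroupOf_iff_le_normalizer hTK).2 hKT
  refine qdloc_main p hp (K₀.subtype.comp K₁.subtype)
    (K₀.subtype_injective.comp K₁.subtype_injective) (f.comp K₁.subtype) ?_ (T.subgroupOf K₁)
    hTp.comap_subtype (fun t ht => hTW _ ht) ?_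
  · intro y
    obtain ⟨k, hk, rfl⟩ := hsurj y
    exact ⟨⟨k, hk⟩, rfl⟩
  · intro w hw
    obtain ⟨t, ht, rfl⟩ := hWT w hw
    exact ⟨⟨t, hTK ht⟩, ht, rfl⟩

omit [Fact p.Prime] in
/-- The three properties of `qdloc_exists` are invariant under conjugation. -/
theorem qdloc_cj {G : Type*} [Group G] (g : G) (Q : Subgroup G)
    (hcen : ∀ D : Subgroup G, D ≤ Subgroup.centralizer (Q : Set G) → IsPGroup p D → D ≤ Q)
    (hsec : Cfsg.Agent.Helper33.IsSectionOf ↥(Subgroup.normalizer (Q : Set G)) ↥(Cfsg.qd p)) :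
    (∀ D : Subgroup G, D ≤ Subgroup.centralizer (Cfsg.Agent.Helper84.cj g Q : Set G) →
        IsPGroup p D → D ≤ Cfsg.Agent.Helper84.cj g Q) ∧
      Cfsg.Agent.Helper33.IsSectionOf
        ↥(Subgroup.normalizer (Cfsg.Agent.Helper84.cj g Q : Set G)) ↥(Cfsg.qd p) := by
  constructor
  · intro D hD hDp
    have h1 : Cfsg.Agent.Helper84.cj g⁻¹ D ≤ Subgroup.centralizer (Q : Set G) := by
      have := Cfsg.Agent.Helper84.cj_mono (g := g⁻¹) hD
      rwa [Cfsg.Agent.Helper84.cj_centralizer, Cfsg.Agent.Helper84.cj_inv_cj] at this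
    have h2 := hcen _ h1 (Cfsg.Agent.Helper84.isPGroup_cj hDp)
    have h3 := Cfsg.Agent.Helper84.cj_le_iff.1 h2
    rwa [inv_inv] at h3
  · rw [← Cfsg.Agent.Helper84.cj_normalizer]
    let e : ↥(Subgroup.normalizer (Q : Set G)) ≃*
        ↥(Cfsg.Agent.Helper84.cj g (Subgroup.normalizer (Q : Set G))) :=
      Subgroup.equivMapOfInjective _ (MulAut.conj g).toMonoidHom (MulAut.conj g).injective
    exact ((Cfsg.Agent.Helper33.IsSectionOf.refl _).of_surjective e.symm.toMonoidHom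
      e.symm.surjective).trans hsec

end QdLocal

end Cfsg.Agent.Helper99
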