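import Mathlib

/-!
Definitions for S2522 (every non-scalar matrix of determinant 1 is a product of two
regular unipotents), written for endomorphisms of an abstract finite-dimensional space.
-/

namespace Cfsg.Agent.Helper99

open Module

universe u v

section
variable {K : Type u} [Field K] {X : Type v} [AddCommGroup X] [Module K X]

/-- `g = u1 ∘ u2` with `(u1 - 1)^d = 0 = (u2 - 1)^d` (`d = finrank`), `Y` a cyclic vector of `u1`
(`(u1 - 1)^(d-1) Y ≠ 0`) and `ψ` not vanishing on the image of `(u2 - 1)^(d-1)`. -/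
def RuFac (g : X →ₗ[K] X) (Y : X) (ψ : Dual K X) : Prop :=
  ∃ u1 u2 : X →ₗ[K] X, g = u1 ∘ₗ u2 ∧ (u1 - 1) ^ (finrank K X) = 0 ∧ (u2 - 1) ^ (finrank K X) = 0 ∧
    ((u1 - 1) ^ (finrank K X - 1)) Y ≠ 0 ∧ ∃ z : X, ψ (((u2 - 1) ^ (finrank K X - 1)) z) ≠ 0

/-- `g` is not a scalar and not of the form `1 + (rank ≤ 1)`. -/
def RuGood (g : X →ₗ[K] X) : Prop :=
  (∀ c : K, g ≠ c • (1 : X →ₗ[K] X)) ∧ ∀ (e : X) (β : Dual K X), g ≠ 1 + β.smulRight e

/-- The Schur complement of `g` on `ker φ` along `g x`: `w ↦ g w - φ (g w) • g x`. -/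
def ruSchur (g : X →ₗ[K] X) (x : X) (φ : Dual K X) (h2 : φ (g x) = 1) :
    ↥(LinearMap.ker φ) →ₗ[K] ↥(LinearMap.ker φ) :=
  LinearMap.codRestrict (LinearMap.ker φ)
    ((g - (φ ∘ₗ g).smulRight (g x)) ∘ₗ (LinearMap.ker φ).subtype)
    (fun w => by
      simp only [LinearMap.mem_ker, LinearMap.coe_comp, Submodule.coe_subtype, Function.comp_apply,
        LinearMap.sub_apply, LinearMap.smulRight_apply, map_sub, map_smul, h2, smul_eq_mul,
        mul_one, sub_self])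

@[simp] theorem ruSchur_coe (g : X →ₗ[K] X) (x : X) (φ : Dual K X) (h2 : φ (g x) = 1)
    (w : ↥(LinearMap.ker φ)) :
    ((ruSchur g x φ h2 w : ↥(LinearMap.ker φ)) : X) = g (w : X) - φ (g (w : X)) • g x := rfl

/-- the vector `g x - x` of `ker φ`. -/
def ruY (g : X →ₗ[K] X) (x : X) (φ : Dual K X) (h1 : φ x = 1) (h2 : φ (g x) = 1) :
    ↥(LinearMap.ker φ) :=
  ⟨g x - x, by rw [LinearMap.mem_ker, map_sub, h1, h2, sub_self]⟩

@[simp] theorem ruY_coe (g : X →ₗ[K] X) (x : X) (φ : Dual K X) (h1 : φ x = 1) (h2 : φ (g x) = 1) :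
    ((ruY g x φ h1 h2 : ↥(LinearMap.ker φ)) : X) = g x - x := rfl

/-- the functional `w ↦ φ (g w)` on `ker φ`. -/
def ruC (g : X →ₗ[K] X) (φ : Dual K X) : Dual K ↥(LinearMap.ker φ) :=
  (φ ∘ₗ g) ∘ₗ (LinearMap.ker φ).subtype

@[simp] theorem ruC_apply (g : X →ₗ[K] X) (φ : Dual K X) (w : ↥(LinearMap.ker φ)) :
    ruC g φ w = φ (g (w : X)) := rfl

end

/-- a field with at least four elements has four distinct elements. -/
theorem ru_four {K : Type u} (hK : 4 ≤ Cardinal.mk K) :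
    ∃ a b c d : K, a ≠ b ∧ a ≠ c ∧ a ≠ d ∧ b ≠ c ∧ b ≠ d ∧ c ≠ d := by
  have h' : Cardinal.lift.{u} (Cardinal.mk (Fin 4)) ≤ Cardinal.lift.{0} (Cardinal.mk K) := by
    rw [Cardinal.mk_fin, Cardinal.lift_natCast, Cardinal.lift_id']
    exact_mod_cast hK
  obtain ⟨f⟩ := Cardinal.lift_mk_le'.mp h'
  refine ⟨f 0, f 1, f 2, f 3, ?_, ?_, ?_, ?_, ?_, ?_⟩ <;>
    exact fun hh => absurd (f.injective hh) (by decide)

end Cfsg.Agent.Helper99
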