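import Cfsg.Agent.Helper99.RuPair
import Cfsg.Agent.Helper91.RuDET
import Cfsg.Agent.Helper91.RuCONJ
import Cfsg.Agent.Helper91.RuTV
import Cfsg.Agent.Helper42.RuSTEP
import Cfsg.Agent.Helper42.RuSEL
import Cfsg.Agent.Helper14.RuPHI
import Cfsg.Agent.Helper88.RuBASE2

/-!
S2522: assembly.  Every non-scalar matrix of determinant `1` over a field with at least four
elements, of size `n ≥ 3`, is a product of two conjugates of the regular unipotent Jordan block.
Induction on the dimension with a Schur complement step (`ru_main`), pieces by helper14,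
helper42, helper88, helper91.
-/

namespace Cfsg.Agent.Helper99

open Module

universe u v

section
variable {K : Type u} [Field K] {X : Type v} [AddCommGroup X] [Module K X]

/-- PIECE PAIR. -/
theorem ru_pair [FiniteDimensional K X] (g : X →ₗ[K] X) (hdet : LinearMap.det g = 1)
    (φ : Dual K X) (hb : ∀ t : K, φ ∘ₗ g ≠ t • φ)
    (p p' : X) (h1 : φ p = 1) (h2 : φ (g p) = 1) (h1' : φ p' = 1) (h2' : φ (g p') = 1)
    (hN : g (p' - p) ≠ p' - p)
    (hbad : ¬ RuGood (ruSchur g p φ h2)) (hbad' : ¬ RuGood (ruSchur g p' φ h2')) : False :=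
  ru_pair_aux g φ hdet hb p p' h1 h2 h1' h2' hN
    (by rw [Helper91.ru_det g p φ h1 h2, hdet]) (by rw [Helper91.ru_det g p' φ h1' h2', hdet])
    hbad hbad'

theorem ru_lemX [FiniteDimensional K X] (hK : 4 ≤ Cardinal.mk K) (hm : 3 ≤ finrank K X)
    (g : X →ₗ[K] X) (hdet : LinearMap.det g = 1) (hg : RuGood g) (Y : X) (ψ : Dual K X)
    (hY : Y ≠ 0) (hψ : ψ ≠ 0) :
    ∃ (x : X) (φ : Dual K X) (h1 : φ x = 1) (h2 : φ (g x) = 1), ψ x ≠ 0 ∧ φ Y ≠ 0 ∧ g x ≠ x ∧
      ruC g φ ≠ 0 ∧ RuGood (ruSchur g x φ h2) := by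
  obtain ⟨φ, hφY, hb, hc, hd⟩ := Helper14.ru_phi hK hm g hg Y ψ hY hψ
  obtain ⟨x, h1, h2, hx, hgx, hC, hgood⟩ := Helper42.ru_sel hK hm g hdet hg ψ φ hb hc hd
    (fun p p' h1 h2 h1' h2' hN hbad hbad' => ru_pair g hdet φ hb p p' h1 h2 h1' h2' hN hbad hbad')
  exact ⟨x, φ, h1, h2, hx, hφY, hgx, hC, hgood⟩

end

theorem ru_main {K : Type u} [Field K] (hK : 4 ≤ Cardinal.mk K) :
    ∀ (m : ℕ) (X : Type v) [AddCommGroup X] [Module K X] [FiniteDimensional K X],
      finrank K X = m + 2 → ∀ g : X →ₗ[K] X, LinearMap.det g = 1 → RuGood g →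
      ∀ (Y : X) (ψ : Dual K X), Y ≠ 0 → ψ ≠ 0 → RuFac g Y ψ := by
  intro m
  induction m with
  | zero =>
    intro X _ _ _ h g hdet hg Y ψ hY hψ
    exact Helper88.ru_base2 hK h g hdet hg Y ψ hY hψ
  | succ m ih =>
    intro X _ _ _ h g hdet hg Y ψ hY hψ
    obtain ⟨x, φ, h1, h2, hψx, hφY, hgx, hc, hgood⟩ :=
      ru_lemX hK (by omega) g hdet hg Y ψ hY hψ
    have hφ0 : φ ≠ 0 := by
      rintro rfl
      simp at h1
    have hfr : finrank K ↥(LinearMap.ker φ) = m + 2 := by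
      have := Module.Dual.finrank_ker_add_one_of_ne_zero hφ0
      omega
    have hy0 : ruY g x φ h1 h2 ≠ 0 := by
      intro h0
      apply hgx
      have := congrArg (Subtype.val) h0
      simpa [sub_eq_zero] using this
    have hfac := ih ↥(LinearMap.ker φ) hfr (ruSchur g x φ h2)
      (by rw [Helper91.ru_det g x φ h1 h2, hdet]) hgood (ruY g x φ h1 h2) (ruC g φ) hy0 hc
    exact Helper42.ru_step g x φ h1 h2 Y ψ hφY hψx hfac

theorem ru_final {K : Type u} [Field K] (hK : 4 ≤ Cardinal.mk K) (n : ℕ) (hn : 3 ≤ n)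
    (J g : GL (Fin n) K)
    (hJ : ∀ i j : Fin n, (J : Matrix (Fin n) (Fin n) K) i j =
      if i = j then 1 else if j.val = i.val + 1 then 1 else 0)
    (hg : ¬ ∃ c : K, (g : Matrix (Fin n) (Fin n) K) = c • (1 : Matrix (Fin n) (Fin n) K))
    (hdet : (g : Matrix (Fin n) (Fin n) K).det = 1) :
    ∃ x y : GL (Fin n) K, g = (x * J * x⁻¹) * (y * J * y⁻¹) := by
  classical
  obtain ⟨m, rfl⟩ : ∃ m, n = m + 2 := ⟨n - 2, by omega⟩
  set G : (Fin (m + 2) → K) →ₗ[K] (Fin (m + 2) → K) :=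
    Matrix.toLin' (g : Matrix (Fin (m + 2)) (Fin (m + 2)) K) with hG
  have hfr : finrank K (Fin (m + 2) → K) = m + 2 := by simp
  have hdetG : LinearMap.det G = 1 := by rw [hG, LinearMap.det_toLin', hdet]
  have key : ∃ u1 u2 : (Fin (m + 2) → K) →ₗ[K] (Fin (m + 2) → K), G = u1 ∘ₗ u2 ∧
      (u1 - 1) ^ (m + 2) = 0 ∧ (u2 - 1) ^ (m + 2) = 0 ∧
      (u1 - 1) ^ (m + 1) ≠ 0 ∧ (u2 - 1) ^ (m + 1) ≠ 0 := by
    by_cases hgood : RuGood G
    · have h0 : (Pi.single (0 : Fin (m + 2)) (1 : K) : Fin (m + 2) → K) ≠ 0 := by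
        intro h
        have := congrFun h 0
        simp at this
      have hp : (LinearMap.proj (0 : Fin (m + 2)) : Dual K (Fin (m + 2) → K)) ≠ 0 := by
        intro h
        have := congrArg (fun f : Dual K (Fin (m + 2) → K) => f (Pi.single 0 1)) h
        simp at this
      obtain ⟨u1, u2, h, hu1, hu2, hY, z, hz⟩ :=
        ru_main hK m (Fin (m + 2) → K) hfr G hdetG hgood _ _ h0 hp
      rw [hfr] at hu1 hu2 hY hz
      refine ⟨u1, u2, h, hu1, hu2, ?_, ?_⟩
      · intro h0'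
        have e : m + 2 - 1 = m + 1 := rfl
        rw [e, h0'] at hY
        exact hY rfl
      · intro h0'
        have e : m + 2 - 1 = m + 1 := rfl
        rw [e, h0'] at hz
        simp at hz
    · have hcases : (∃ c : K, G = c • (1 : (Fin (m + 2) → K) →ₗ[K] (Fin (m + 2) → K))) ∨
          ∃ (e : Fin (m + 2) → K) (β : Dual K (Fin (m + 2) → K)), G = 1 + β.smulRight e :=
        (ru_not_good_iff G).mp hgood
      have hscal : ∀ c : K, G ≠ c • (1 : (Fin (m + 2) → K) →ₗ[K] (Fin (m + 2) → K)) := by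
        intro c hc
        apply hg
        refine ⟨c, ?_⟩
        have := congrArg LinearMap.toMatrix' hc
        rw [hG, LinearMap.toMatrix'_toLin'] at this
        rw [this]
        simp [LinearMap.toMatrix'_one]
      rcases hcases with ⟨c, hc⟩ | ⟨e, β, he⟩
      · exact absurd hc (hscal c)
      · have he0 : e ≠ 0 := by
          rintro rfl
          apply hscal 1
          rw [he]
          ext v
          simp
        have hβ0 : β ≠ 0 := by
          rintro rfl
          apply hscal 1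
          rw [he]
          ext v
          simp
        have hβe : β e = 0 := ru_det_tv β e (by rw [← he]; exact hdetG)
        obtain ⟨u1, u2, h, hu1, hu2, hu1', hu2'⟩ :=
          Helper91.ru_tv hK (by rw [hfr]; omega) e β he0 hβ0 hβe
        rw [hfr] at hu1 hu2 hu1' hu2'
        exact ⟨u1, u2, by rw [he]; exact h, hu1, hu2, by simpa using hu1', by simpa using hu2'⟩
  obtain ⟨u1, u2, h, hu1, hu2, hu1', hu2'⟩ := key
  let A : ((Fin (m + 2) → K) →ₗ[K] (Fin (m + 2) → K)) ≃ₐ[K] Matrix (Fin (m + 2)) (Fin (m + 2)) K :=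
    LinearMap.toMatrixAlgEquiv'
  have hA1 : (A u1 - 1) ^ (m + 2) = 0 := by
    rw [← map_one A, ← map_sub, ← map_pow, hu1, map_zero]
  have hA2 : (A u2 - 1) ^ (m + 2) = 0 := by
    rw [← map_one A, ← map_sub, ← map_pow, hu2, map_zero]
  have hA1' : (A u1 - 1) ^ (m + 2 - 1) ≠ 0 := by
    rw [← map_one A, ← map_sub, ← map_pow]
    intro h0
    exact hu1' (A.injective (by rw [map_zero]; exact h0))
  have hA2' : (A u2 - 1) ^ (m + 2 - 1) ≠ 0 := by
    rw [← map_one A, ← map_sub, ← map_pow]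
    intro h0
    exact hu2' (A.injective (by rw [map_zero]; exact h0))
  obtain ⟨x, hx⟩ := Helper91.ru_conj (m + 2) J (A u1) hJ hA1 hA1'
  obtain ⟨y, hy⟩ := Helper91.ru_conj (m + 2) J (A u2) hJ hA2 hA2'
  refine ⟨x, y, ?_⟩
  apply Units.ext
  have hgA : (g : Matrix (Fin (m + 2)) (Fin (m + 2)) K) = A u1 * A u2 := by
    rw [← map_mul, Module.End.mul_eq_comp, ← h, hG]
    show _ = LinearMap.toMatrix' (Matrix.toLin' _)
    rw [LinearMap.toMatrix'_toLin']
  rw [hgA, hx, hy]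
  simp

end Cfsg.Agent.Helper99
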