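import Cfsg.Agent.Helper99.RuDefs

/-!
S2522, piece PAIR: two distinct points of the affine family cannot both have a bad Schur
complement.  `ru_pair_aux` takes the determinants of the Schur complements as hypotheses.
-/

namespace Cfsg.Agent.Helper99

open Module

universe u v

variable {K : Type u} [Field K] {X : Type v} [AddCommGroup X] [Module K X]

/-- a functional vanishing on the kernel of `φ` is a multiple of `φ`. -/
theorem ru_dual_of_ker_le (φ χ : Dual K X) (h : LinearMap.ker φ ≤ LinearMap.ker χ) :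
    ∃ t : K, χ = t • φ := by
  by_cases hφ : φ = 0
  · refine ⟨0, ?_⟩
    subst hφ
    ext v
    have : v ∈ LinearMap.ker χ := h (by simp)
    simpa using this
  · obtain ⟨a, ha⟩ : ∃ a, φ a ≠ 0 := by
      by_contra hcon
      push_neg at hcon
      exact hφ (LinearMap.ext hcon)
    refine ⟨χ a / φ a, ?_⟩
    ext v
    have hv : v - (φ v / φ a) • a ∈ LinearMap.ker χ := by
      apply h
      rw [LinearMap.mem_ker, map_sub, map_smul, smul_eq_mul, div_mul_cancel₀ _ ha, sub_self]
    rw [LinearMap.mem_ker, map_sub, map_smul, smul_eq_mul, sub_eq_zero] at hv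
    rw [LinearMap.smul_apply, smul_eq_mul, hv]
    field_simp

/-- determinant `1` for `1 + β ⊗ e` forces `β e = 0`. -/
theorem ru_det_tv [FiniteDimensional K X] (β : Dual K X) (e : X)
    (h : LinearMap.det (1 + β.smulRight e : X →ₗ[K] X) = 1) : β e = 0 := by
  have htv : (1 + β.smulRight e : X →ₗ[K] X) = LinearMap.transvection β e := by
    ext v
    simp [LinearMap.transvection.apply]
  rw [htv, LinearMap.transvection.det] at h
  simpa using h

/-- `det g = 1` makes `g` injective. -/
theorem ru_inj_of_det [FiniteDimensional K X] (g : X →ₗ[K] X) (hdet : LinearMap.det g = 1) :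
    Function.Injective g := by
  rw [← LinearMap.ker_eq_bot]
  by_contra hker
  have := (LinearMap.det_eq_zero_iff_ker_ne_bot (f := g)).mpr hker
  rw [hdet] at this
  exact one_ne_zero this

theorem ru_not_good_iff (g : X →ₗ[K] X) :
    ¬ RuGood g ↔ (∃ c : K, g = c • (1 : X →ₗ[K] X)) ∨
      ∃ (e : X) (β : Dual K X), g = 1 + β.smulRight e := by
  unfold RuGood
  constructor
  · intro h
    by_contra hcon
    push_neg at hcon
    exact h ⟨hcon.1, hcon.2⟩
  · rintro (⟨c, hc⟩ | ⟨e, β, he⟩) ⟨h1, h2⟩
    · exact h1 c hc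
    · exact h2 e β he

section pair

variable [FiniteDimensional K X] (g : X →ₗ[K] X) (φ : Dual K X)

/-- the difference formula of the family. -/
theorem ru_fam (p p' : X) (h2 : φ (g p) = 1) (h2' : φ (g p') = 1) (w : ↥(LinearMap.ker φ)) :
    ((ruSchur g p' φ h2' w : ↥(LinearMap.ker φ)) : X) =
      ((ruSchur g p φ h2 w : ↥(LinearMap.ker φ)) : X) - φ (g (w : X)) • g (p' - p) := by
  rw [ruSchur_coe, ruSchur_coe, map_sub, smul_sub]
  abel

/-- scalar at `p`, `1 + rank ≤ 1` at `p'`. -/
theorem ru_pair_sctv (p p' : X) (h1 : φ p = 1) (h2 : φ (g p) = 1) (h1' : φ p' = 1)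
    (h2' : φ (g p') = 1) (hN : g (p' - p) ≠ p' - p)
    (hdet' : LinearMap.det (ruSchur g p' φ h2') = 1)
    (μ : K) (hS : ruSchur g p φ h2 = μ • 1)
    (e : ↥(LinearMap.ker φ)) (β : Dual K ↥(LinearMap.ker φ))
    (hT : ruSchur g p' φ h2' = 1 + β.smulRight e) : False := by
  have hd1 : φ (p' - p) = 0 := by rw [map_sub, h1, h1', sub_self]
  have hd2 : φ (g (p' - p)) = 0 := by rw [map_sub, map_sub, h2, h2', sub_self]
  set dW : ↥(LinearMap.ker φ) := ⟨p' - p, hd1⟩ with hdW
  have hS1 : g (p' - p) = μ • (p' - p) := by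
    have := ruSchur_coe g p φ h2 dW
    rw [hS] at this
    simp only [hdW, LinearMap.smul_apply, Module.End.one_apply, Submodule.coe_smul, hd2, zero_smul,
      sub_zero] at this
    exact this.symm
  have hT1 : g (p' - p) = (p' - p) + β dW • (e : X) := by
    have := ruSchur_coe g p' φ h2' dW
    rw [hT] at this
    simp only [hdW, LinearMap.add_apply, Module.End.one_apply, LinearMap.smulRight_apply,
      Submodule.coe_add, Submodule.coe_smul, hd2, zero_smul, sub_zero] at this
    exact this.symm
  have hβe : β e = 0 := ru_det_tv β e (by rw [← hT]; exact hdet')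
  have hW : (μ - 1) • dW = β dW • e := by
    apply Subtype.ext
    simp only [Submodule.coe_smul, hdW]
    rw [sub_smul, one_smul, ← hS1, hT1]
    abel
  have := congrArg β hW
  rw [map_smul, map_smul, hβe, smul_zero, smul_eq_mul] at this
  rcases mul_eq_zero.mp this with h | h
  · apply hN
    rw [hS1, sub_eq_zero.mp h, one_smul]
  · apply hN
    rw [hT1, h, zero_smul, add_zero]

/-- `ru_pair` with the determinants of the two Schur complements as hypotheses. -/
theorem ru_pair_aux (hdet : LinearMap.det g = 1) (hb : ∀ t : K, φ ∘ₗ g ≠ t • φ)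
    (p p' : X) (h1 : φ p = 1) (h2 : φ (g p) = 1) (h1' : φ p' = 1) (h2' : φ (g p') = 1)
    (hN : g (p' - p) ≠ p' - p)
    (hdetS : LinearMap.det (ruSchur g p φ h2) = 1)
    (hdetS' : LinearMap.det (ruSchur g p' φ h2') = 1)
    (hbad : ¬ RuGood (ruSchur g p φ h2)) (hbad' : ¬ RuGood (ruSchur g p' φ h2')) : False := by
  have hinj := ru_inj_of_det g hdet
  have hd1 : φ (p' - p) = 0 := by rw [map_sub, h1, h1', sub_self]
  have hd2 : φ (g (p' - p)) = 0 := by rw [map_sub, map_sub, h2, h2', sub_self]
  have hd0 : p' - p ≠ 0 := by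
    intro h0
    apply hN
    rw [h0, map_zero]
  have hgd0 : g (p' - p) ≠ 0 := by
    intro h0
    apply hd0
    apply hinj
    rw [h0, map_zero]
  set dW : ↥(LinearMap.ker φ) := ⟨p' - p, hd1⟩ with hdW
  set δ : ↥(LinearMap.ker φ) := ⟨g (p' - p), hd2⟩ with hδ
  -- a vector of `ker φ` on which `φ ∘ g` does not vanish
  obtain ⟨w1, hw1⟩ : ∃ w1 : ↥(LinearMap.ker φ), φ (g (w1 : X)) ≠ 0 := by
    by_contra hcon
    push_neg at hcon
    obtain ⟨t, ht⟩ := ru_dual_of_ker_le φ (φ ∘ₗ g) (by
      intro w hw
      have := hcon ⟨w, hw⟩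
      simpa [LinearMap.mem_ker] using this)
    exact hb t ht
  have hfam : ∀ w : ↥(LinearMap.ker φ), ruSchur g p' φ h2' w =
      ruSchur g p φ h2 w - φ (g (w : X)) • δ := by
    intro w
    apply Subtype.ext
    rw [ru_fam g φ p p' h2 h2' w]
    simp [hδ]
  have hGd : ruSchur g p φ h2 dW = δ := by
    apply Subtype.ext
    rw [ruSchur_coe]
    simp [hdW, hδ, h2, h2']
  have hGd' : ruSchur g p' φ h2' dW = δ := by
    apply Subtype.ext
    rw [ruSchur_coe]
    simp [hdW, hδ, h2, h2']
  have hδ0 : δ ≠ 0 := by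
    intro h0
    apply hgd0
    have := congrArg Subtype.val h0
    simpa [hδ] using this
  have hdW0 : dW ≠ 0 := by
    intro h0
    apply hd0
    have := congrArg Subtype.val h0
    simpa [hdW] using this
  have hδd : δ ≠ dW := by
    intro h0
    apply hN
    have := congrArg Subtype.val h0
    simpa [hδ, hdW] using this
  rcases (ru_not_good_iff _).mp hbad with ⟨μ, hS⟩ | ⟨e, β, hT⟩
  · rcases (ru_not_good_iff _).mp hbad' with ⟨μ', hS'⟩ | ⟨e', β', hT'⟩
    · -- scalar, scalar
      have e1 : μ • dW = δ := by rw [← hGd, hS]; rfl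
      have e2 : μ' • dW = δ := by rw [← hGd', hS']; rfl
      have hμ : μ = μ' := by
        have : (μ - μ') • dW = 0 := by rw [sub_smul, e1, e2, sub_self]
        rcases smul_eq_zero.mp this with h | h
        · exact sub_eq_zero.mp h
        · exact absurd h hdW0
      have := hfam w1
      rw [hS, hS', hμ] at this
      have h3 : φ (g (w1 : X)) • δ = 0 := by
        have h4 : (μ' • (1 : Module.End K ↥(LinearMap.ker φ))) w1 =
            (μ' • (1 : Module.End K ↥(LinearMap.ker φ))) w1 - φ (g (w1 : X)) • δ := this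
        have h5 := sub_eq_zero.mpr h4
        simpa using h5
      rcases smul_eq_zero.mp h3 with h | h
      · exact hw1 h
      · exact hδ0 h
    · exact ru_pair_sctv g φ p p' h1 h2 h1' h2' hN hdetS' μ hS e' β' hT'
  · rcases (ru_not_good_iff _).mp hbad' with ⟨μ', hS'⟩ | ⟨e', β', hT'⟩
    · refine ru_pair_sctv g φ p' p h1' h2' h1 h2 ?_ hdetS μ' hS' e β hT
      intro h0
      apply hN
      have : p' - p = -(p - p') := by abel
      rw [this, map_neg, h0]
    · -- both of the form `1 + rank ≤ 1`
      have hβ'e' : β' e' = 0 := ru_det_tv β' e' (by rw [← hT']; exact hdetS')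
      -- `β` is not a multiple of `ruC`
      have hT0 : ∀ t : K, β ≠ t • ruC g φ := by
        intro t ht
        apply hδd
        rw [← hGd, hT, ht]
        simp [hdW, h2, h2']
      obtain ⟨w2, hw2c, hw2β⟩ : ∃ w2 : ↥(LinearMap.ker φ), φ (g (w2 : X)) = 0 ∧ β w2 ≠ 0 := by
        by_contra hcon
        push_neg at hcon
        obtain ⟨t, ht⟩ := ru_dual_of_ker_le (ruC g φ) β (by
          intro w hw
          rw [LinearMap.mem_ker, ruC_apply] at hw
          rw [LinearMap.mem_ker]
          exact hcon w hw)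
        exact hT0 t ht
      -- `e` is a multiple of `e'`
      have he : β w2 • e = β' w2 • e' := by
        have := hfam w2
        rw [hT, hT', hw2c, zero_smul, sub_zero] at this
        simp only [LinearMap.add_apply, Module.End.one_apply, LinearMap.smulRight_apply] at this
        exact (add_left_cancel this).symm
      have he2 : e = (β' w2 / β w2) • e' := by
        rw [div_eq_inv_mul, mul_smul, ← he, smul_smul, inv_mul_cancel₀ hw2β, one_smul]
      -- `δ` is a multiple of `e'`
      have hδe : ∃ ρ : K, δ = ρ • e' := by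
        have := hfam w1
        rw [hT, hT'] at this
        simp only [LinearMap.add_apply, Module.End.one_apply, LinearMap.smulRight_apply] at this
        refine ⟨(β w1 * (β' w2 / β w2) - β' w1) / φ (g (w1 : X)), ?_⟩
        have h3 : φ (g (w1 : X)) • δ = β w1 • e - β' w1 • e' := by
          have h4 : β' w1 • e' = β w1 • e - φ (g (w1 : X)) • δ := by
            have h5 : w1 + β' w1 • e' = w1 + (β w1 • e - φ (g (w1 : X)) • δ) := by
              rw [this]; abel
            exact add_left_cancel h5
          rw [h4]; abel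
        rw [he2, smul_smul, ← sub_smul] at h3
        rw [div_eq_inv_mul, mul_smul, ← h3, smul_smul, inv_mul_cancel₀ hw1, one_smul]
      obtain ⟨ρ, hρ⟩ := hδe
      have hβ'δ : β' δ = 0 := by rw [hρ, map_smul, hβ'e', smul_zero]
      have h6 : δ = dW + β' dW • e' := by
        rw [← hGd', hT']
        simp
      have h7 := congrArg β' h6
      rw [map_add, map_smul, hβ'e', smul_zero, add_zero, hβ'δ] at h7
      apply hδd
      rw [h6, ← h7, zero_smul, add_zero]

end pair

end Cfsg.Agent.Helper99
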