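import Mathlib

set_option autoImplicit false

namespace Cfsg.Agent.Helper99

open Equiv

/-- the coset action of `S_6` on an index-6 subgroup is faithful -/
theorem six_toPermHom_injective (H : Subgroup (Perm (Fin 6))) (hH : H.index = 6) :
    Function.Injective (MulAction.toPermHom (Perm (Fin 6)) (Perm (Fin 6) ⧸ H)) := by
  rw [← MonoidHom.ker_eq_bot_iff, ← Subgroup.normalCore_eq_ker]
  by_contra hne
  have hnt : Nontrivial H.normalCore := (Subgroup.nontrivial_iff_ne_bot _).mpr hne
  have hle : alternatingGroup (Fin 6) ≤ H :=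
    (Equiv.Perm.alternatingGroup_le_of_normal (by simp) hnt).trans H.normalCore_le
  have h := Subgroup.index_dvd_of_le hle
  rw [alternatingGroup.index_eq_two, hH] at h
  omega

theorem six_card_perm : Nat.card (Perm (Fin 6)) = 720 := by
  rw [Nat.card_perm, Nat.card_fin]; rfl

theorem six_card_of_index (H : Subgroup (Perm (Fin 6))) (hH : H.index = 6) :
    Nat.card H = 120 := by
  have h := H.index_mul_card
  rw [hH, six_card_perm] at h
  omega

/-- every index-6 subgroup of `S_6` is the preimage of the stabilizer of `0` under an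
automorphism -/
theorem six_exists_aut (H : Subgroup (Perm (Fin 6))) (hH : H.index = 6) :
    ∃ α : Perm (Fin 6) ≃* Perm (Fin 6), ∀ g, g ∈ H ↔ α g 0 = 0 := by
  classical
  have hfin : Finite (Perm (Fin 6) ⧸ H) := inferInstance
  have hcard : Nat.card (Perm (Fin 6) ⧸ H) = 6 := hH
  let e₀ : (Perm (Fin 6) ⧸ H) ≃ Fin 6 := Finite.equivFinOfCardEq hcard
  let e : (Perm (Fin 6) ⧸ H) ≃ Fin 6 := e₀.trans (swap (e₀ ((1 : Perm (Fin 6)) : Perm (Fin 6) ⧸ H)) 0)
  have he : e ((1 : Perm (Fin 6)) : Perm (Fin 6) ⧸ H) = 0 := by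
    simp [e]
  have hinj := six_toPermHom_injective H hH
  have hbij : Function.Bijective (MulAction.toPermHom (Perm (Fin 6)) (Perm (Fin 6) ⧸ H)) := by
    rw [Nat.bijective_iff_injective_and_card]
    refine ⟨hinj, ?_⟩
    rw [Nat.card_perm, Nat.card_perm, hcard, Nat.card_fin]
  let φ : Perm (Fin 6) ≃* Perm (Perm (Fin 6) ⧸ H) := MulEquiv.ofBijective _ hbij
  refine ⟨φ.trans e.permCongrHom, fun g => ?_⟩
  have h1 : (φ.trans e.permCongrHom) g 0 = e (g • ((1 : Perm (Fin 6)) : Perm (Fin 6) ⧸ H)) := by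
    have : e.symm 0 = ((1 : Perm (Fin 6)) : Perm (Fin 6) ⧸ H) := by
      rw [Equiv.symm_apply_eq, he]
    simp [φ, Equiv.permCongrHom, this]
  rw [h1, ← he, e.apply_eq_iff_eq, MulAction.Quotient.smul_mk, QuotientGroup.eq]
  simp

end Cfsg.Agent.Helper99
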