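import Cfsg.Agent.Helper99.Su3I
import Cfsg.Agent.Helper99.SuTv

set_option autoImplicit false

/-!
# `SU_5`: the parabolic `P_1 = R_1 ⋊ SU_3` in coordinates (helper99)

Vectors of `K^5` are written `su5ext a y e` (`a`, `e` the coordinates at `e_0`, `e_4`, `y ∈ K^3` the
middle part).  `Su5P g m w` says that `g` fixes `e_0` and acts on `e_0^⊥ / e_0` as `m`, with
`g e_4 ≡ e_4 + w`.
-/

namespace Cfsg.Agent.Helper99

open Matrix
open Cfsg.Agent.Helper5 (frobQ frobQ_apply frobQ_frobQ)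

section Su5A

variable {K : Type*} [Field K] [Fintype K] {q : ℕ}
variable (hK : Fintype.card K = q ^ 2)

/-- vectors of `K^5` in the decomposition `⟨e_0⟩ ⊕ W_3 ⊕ ⟨e_4⟩`. -/
def su5ext (a : K) (y : Fin 3 → K) (e : K) : Fin 5 → K := ![a, y 0, y 1, y 2, e]

theorem su5_rev0 : Fin.rev (0 : Fin 5) = 4 := by decide
theorem su5_rev1 : Fin.rev (1 : Fin 5) = 3 := by decide
theorem su5_rev2 : Fin.rev (2 : Fin 5) = 2 := by decide
theorem su5_rev3 : Fin.rev (3 : Fin 5) = 1 := by decide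
theorem su5_rev4 : Fin.rev (4 : Fin 5) = 0 := by decide

theorem su5_fin_cases : ∀ j : Fin 5, j = 0 ∨ j = 1 ∨ j = 2 ∨ j = 3 ∨ j = 4 := by decide

theorem su5ext_0 (a : K) (y : Fin 3 → K) (e : K) : su5ext a y e 0 = a := rfl
theorem su5ext_1 (a : K) (y : Fin 3 → K) (e : K) : su5ext a y e 1 = y 0 := rfl
theorem su5ext_2 (a : K) (y : Fin 3 → K) (e : K) : su5ext a y e 2 = y 1 := rfl
theorem su5ext_3 (a : K) (y : Fin 3 → K) (e : K) : su5ext a y e 3 = y 2 := rfl
theorem su5ext_4 (a : K) (y : Fin 3 → K) (e : K) : su5ext a y e 4 = e := rfl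

theorem su5ext_add (a a' e e' : K) (y y' : Fin 3 → K) :
    su5ext a y e + su5ext a' y' e' = su5ext (a + a') (y + y') (e + e') := by
  funext r
  rcases su5_fin_cases r with rfl | rfl | rfl | rfl | rfl <;> rfl

theorem su5ext_sub (a a' e e' : K) (y y' : Fin 3 → K) :
    su5ext a y e - su5ext a' y' e' = su5ext (a - a') (y - y') (e - e') := by
  funext r
  rcases su5_fin_cases r with rfl | rfl | rfl | rfl | rfl <;> rfl

theorem su5ext_smul (l a e : K) (y : Fin 3 → K) :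
    l • su5ext a y e = su5ext (l * a) (l • y) (l * e) := by
  funext r
  rcases su5_fin_cases r with rfl | rfl | rfl | rfl | rfl <;> rfl

theorem su5ext_zero : su5ext (0 : K) 0 0 = 0 := by
  funext r
  rcases su5_fin_cases r with rfl | rfl | rfl | rfl | rfl <;> rfl

theorem su5_e0 : (Pi.single (0 : Fin 5) (1 : K) : Fin 5 → K) = su5ext 1 0 0 := by
  funext r
  rcases su5_fin_cases r with rfl | rfl | rfl | rfl | rfl <;> simp [su5ext, Pi.single_apply]

theorem su5_e4 : (Pi.single (4 : Fin 5) (1 : K) : Fin 5 → K) = su5ext 0 0 1 := by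
  funext r
  rcases su5_fin_cases r with rfl | rfl | rfl | rfl | rfl <;> simp [su5ext, Pi.single_apply]

theorem su5_eta (x : Fin 5 → K) : x = su5ext (x 0) ![x 1, x 2, x 3] (x 4) := by
  funext r
  rcases su5_fin_cases r with rfl | rfl | rfl | rfl | rfl <;> rfl

theorem su5ext_congr {a a' e e' : K} {y y' : Fin 3 → K} (h1 : a = a') (h2 : y = y')
    (h3 : e = e') : su5ext a y e = su5ext a' y' e' := by rw [h1, h2, h3]

theorem su5ext_add_smul_e0 (a b e : K) (y : Fin 3 → K) :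
    su5ext a y e + b • su5ext 1 0 0 = su5ext (a + b) y e := by
  rw [su5ext_smul, su5ext_add, mul_one, smul_zero, add_zero, mul_zero, add_zero]

theorem su5ext_add_smul_e4 (a b e : K) (y w : Fin 3 → K) :
    su5ext a y 0 + e • su5ext b w 1 = su5ext (a + e * b) (y + e • w) e := by
  rw [su5ext_smul, su5ext_add, mul_one, zero_add]

theorem su5ext_vec_zero {a b c d e : K} (ha : a = 0) (hb : b = 0) (hc : c = 0) (hd : d = 0)
    (he : e = 0) : su5ext a ![b, c, d] e = 0 := by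
  subst ha hb hc hd he
  funext r
  rcases su5_fin_cases r with rfl | rfl | rfl | rfl | rfl <;> rfl

theorem su5H_ext (a e a' e' : K) (y y' : Fin 3 → K) :
    suH hK 5 (su5ext a y e) (su5ext a' y' e') =
      a * frobQ hK e' + suH hK 3 y y' + e * frobQ hK a' := by
  rw [su3H_eq]
  unfold suH
  rw [Fin.sum_univ_five, su5_rev0, su5_rev1, su5_rev2, su5_rev3, su5_rev4]
  show a * frobQ hK e' + y 0 * frobQ hK (y' 2) + y 1 * frobQ hK (y' 1) + y 2 * frobQ hK (y' 0) +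
    e * frobQ hK a' = _
  ring

theorem su3_sub_vec (a b d a' b' d' : K) :
    (![a, b, d] : Fin 3 → K) - ![a', b', d'] = ![a - a', b - b', d - d'] := by
  funext i
  fin_cases i <;> rfl

theorem su3X_eq (p : ℕ) [Fact p.Prime] [CharP K p] {t c : K} (h : Su3V hK t c) (x : Fin 3 → K) :
    suAct (su3X hK t c) x = ![x 0 + c * x 2 - frobQ hK t * x 1, x 1 + t * x 2, x 2] := by
  have h1 := su3X_vec hK p h (x 0) (x 1) (x 2)
  rw [← su3_eta x] at h1
  exact h1

theorem su3Y_eq (p : ℕ) [Fact p.Prime] [CharP K p] {t c : K} (h : Su3V hK t c) (x : Fin 3 → K) :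
    suAct (su3Y hK t c) x = ![x 0, x 1 + t * x 0, x 2 + c * x 0 - frobQ hK t * x 1] := by
  have h1 := su3Y_vec hK p h (x 0) (x 1) (x 2)
  rw [← su3_eta x] at h1
  exact h1

theorem su3X_c0 (p : ℕ) [Fact p.Prime] [CharP K p] {t c : K} (h : Su3V hK t c) (x : Fin 3 → K) :
    suAct (su3X hK t c) x 0 = x 0 + c * x 2 - frobQ hK t * x 1 := by
  rw [su3X_eq hK p h]; rfl

theorem su3X_c1 (p : ℕ) [Fact p.Prime] [CharP K p] {t c : K} (h : Su3V hK t c) (x : Fin 3 → K) :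
    suAct (su3X hK t c) x 1 = x 1 + t * x 2 := by
  rw [su3X_eq hK p h]; rfl

theorem su3X_c2 (p : ℕ) [Fact p.Prime] [CharP K p] {t c : K} (h : Su3V hK t c) (x : Fin 3 → K) :
    suAct (su3X hK t c) x 2 = x 2 := by
  rw [su3X_eq hK p h]; rfl

/-- validity of the parameters of an element of the radical `R_1`. -/
def Su5V (hK : Fintype.card K = q ^ 2) (w : Fin 3 → K) (c : K) : Prop :=
  c + frobQ hK c + suH hK 3 w w = 0

/-- the elements of the radical `R_1` of the stabilizer of `e_0`. -/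
noncomputable def su5E (hK : Fintype.card K = q ^ 2) (w : Fin 3 → K) (c : K) : ↥(suG hK 5) :=
  suEl hK (Pi.single (0 : Fin 5) 1) (su5ext 0 w 0) c

theorem su5E_HE {w : Fin 3 → K} {c : K} (h : Su5V hK w c) :
    SuHE hK (Pi.single (0 : Fin 5) 1) (su5ext 0 w 0) c := by
  refine suHE_single hK (a := (0 : Fin 5)) (by decide) ?_ ?_
  · rw [su5_rev0]; rfl
  · rw [su5H_ext, zero_mul, zero_add, add_zero]; exact h

theorem su5E_act (p : ℕ) [Fact p.Prime] [CharP K p] {w : Fin 3 → K} {c : K} (h : Su5V hK w c)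
    (a : K) (y : Fin 3 → K) (e : K) :
    suAct (su5E hK w c) (su5ext a y e) =
      su5ext (a - suH hK 3 y w + c * e) (y + e • w) e := by
  unfold su5E
  rw [suAct_suEl_single hK p (su5E_HE hK h), su5_rev0, su5H_ext, su5_e0, su5ext_4]
  funext r
  rcases su5_fin_cases r with rfl | rfl | rfl | rfl | rfl <;>
    simp only [Pi.add_apply, Pi.sub_apply, Pi.smul_apply, smul_eq_mul, su5ext_0, su5ext_1,
      su5ext_2, su5ext_3, su5ext_4, Pi.zero_apply, map_zero] <;> ring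

theorem su5E_mul (p : ℕ) [Fact p.Prime] [CharP K p] {w w' : Fin 3 → K} {c c' : K}
    (h : Su5V hK w c) (h' : Su5V hK w' c') :
    su5E hK w c * su5E hK w' c' = su5E hK (w + w') (c + c' - suH hK 3 w' w) ∧
      Su5V hK (w + w') (c + c' - suH hK 3 w' w) := by
  have h1 := suEl_mul hK p (su5E_HE hK h) (su5E_HE hK h')
  simp only [su5ext_add, su5H_ext, add_zero, zero_mul, zero_add] at h1
  refine ⟨h1.1, ?_⟩
  have h2 := h1.2.2.2
  simp only [su5H_ext, add_zero, zero_mul, zero_add] at h2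
  exact h2

theorem su5E_zero_mul (p : ℕ) [Fact p.Prime] [CharP K p] {w : Fin 3 → K} {c z : K}
    (hz : Su5V hK 0 z) (h : Su5V hK w c) :
    su5E hK 0 z * su5E hK w c = su5E hK w (z + c) := by
  have h1 := (su5E_mul hK p hz h).1
  rw [zero_add, suH_zero_right, sub_zero] at h1
  exact h1

/-- the Levi root elements. -/
noncomputable def su5X (hK : Fintype.card K = q ^ 2) (t c : K) : ↥(suG hK 5) :=
  suM hK (1 : Fin 5) 2 t c

/-- the Levi root elements (lower). -/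
noncomputable def su5Y (hK : Fintype.card K = q ^ 2) (t c : K) : ↥(suG hK 5) :=
  suM hK (3 : Fin 5) 2 t c

theorem su5X_act (p : ℕ) [Fact p.Prime] [CharP K p] {t c : K} (h : Su3V hK t c) (a : K)
    (y : Fin 3 → K) (e : K) :
    suAct (su5X hK t c) (su5ext a y e) = su5ext a (suAct (su3X hK t c) y) e := by
  rw [su3X_eq hK p h]
  funext r
  unfold su5X
  rw [suM_apply hK p (a := (1 : Fin 5)) (m := 2) (by decide) (by decide) h, su5_rev1]
  rcases su5_fin_cases r with rfl | rfl | rfl | rfl | rfl <;> simp [su5ext] <;> ring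

theorem su5Y_act (p : ℕ) [Fact p.Prime] [CharP K p] {t c : K} (h : Su3V hK t c) (a : K)
    (y : Fin 3 → K) (e : K) :
    suAct (su5Y hK t c) (su5ext a y e) = su5ext a (suAct (su3Y hK t c) y) e := by
  rw [su3Y_eq hK p h]
  funext r
  unfold su5Y
  rw [suM_apply hK p (a := (3 : Fin 5)) (m := 2) (by decide) (by decide) h, su5_rev3]
  rcases su5_fin_cases r with rfl | rfl | rfl | rfl | rfl <;> simp [su5ext] <;> ring

/-- `g` fixes `e_0`, acts as `m` on `e_0^⊥ / e_0`, and `g e_4 ≡ e_4 + w`. -/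
def Su5P (hK : Fintype.card K = q ^ 2) (g : ↥(suG hK 5)) (m : ↥(suG hK 3)) (w : Fin 3 → K) :
    Prop :=
  suAct g (su5ext 1 0 0) = su5ext 1 0 0 ∧
    ∀ (a : K) (y : Fin 3 → K) (e : K), ∃ a' : K,
      suAct g (su5ext a y e) = su5ext a' (suAct m y + e • w) e

theorem su5P_one : Su5P hK 1 1 0 :=
  ⟨suAct_one _, fun a y e => ⟨a, by rw [suAct_one, suAct_one, smul_zero, add_zero]⟩⟩

theorem su5P_mul {g g' : ↥(suG hK 5)} {m m' : ↥(suG hK 3)} {w w' : Fin 3 → K}
    (h : Su5P hK g m w) (h' : Su5P hK g' m' w') :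
    Su5P hK (g * g') (m * m') (w + suAct m w') := by
  refine ⟨by rw [suAct_mul, h'.1, h.1], fun a y e => ?_⟩
  obtain ⟨a1, h1⟩ := h'.2 a y e
  obtain ⟨a2, h2⟩ := h.2 a1 (suAct m' y + e • w') e
  refine ⟨a2, ?_⟩
  rw [suAct_mul, h1, h2, suAct_add, suAct_smul, suAct_mul, smul_add]
  apply su5ext_congr rfl _ rfl
  abel

theorem su5P_inv {g : ↥(suG hK 5)} {m : ↥(suG hK 3)} {w : Fin 3 → K} (h : Su5P hK g m w) :
    Su5P hK g⁻¹ m⁻¹ (-suAct m⁻¹ w) := by
  have h0 : suAct g⁻¹ (su5ext 1 0 0) = su5ext 1 0 0 := by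
    conv_lhs => rw [← h.1]
    exact suAct_inv_suAct g _
  refine ⟨h0, fun a y e => ?_⟩
  obtain ⟨a', ha'⟩ := h.2 0 (suAct m⁻¹ y + e • (-suAct m⁻¹ w)) e
  have h1 : suAct m (suAct m⁻¹ y + e • (-suAct m⁻¹ w)) + e • w = y := by
    rw [suAct_add, suAct_smul, suAct_neg, suAct_suAct_inv, suAct_suAct_inv, smul_neg,
      neg_add_cancel_right]
  rw [h1] at ha'
  refine ⟨a - a', ?_⟩
  calc suAct g⁻¹ (su5ext a y e)
      = suAct g⁻¹ (suAct g (su5ext 0 (suAct m⁻¹ y + e • (-suAct m⁻¹ w)) e) +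
          (a - a') • su5ext 1 0 0) := by
        rw [ha', su5ext_add_smul_e0, add_sub_cancel]
    _ = su5ext 0 (suAct m⁻¹ y + e • (-suAct m⁻¹ w)) e + (a - a') • su5ext 1 0 0 := by
        rw [suAct_add, suAct_smul, suAct_inv_suAct, h0]
    _ = su5ext (a - a') (suAct m⁻¹ y + e • (-suAct m⁻¹ w)) e := by
        rw [su5ext_add_smul_e0, zero_add]

theorem su5P_E (p : ℕ) [Fact p.Prime] [CharP K p] {w : Fin 3 → K} {c : K} (h : Su5V hK w c) :
    Su5P hK (su5E hK w c) 1 w := by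
  refine ⟨?_, fun a y e => ⟨_, by rw [su5E_act hK p h, suAct_one]⟩⟩
  rw [su5E_act hK p h, suH_zero_left, sub_zero, mul_zero, add_zero, zero_smul, add_zero]

theorem su5P_X (p : ℕ) [Fact p.Prime] [CharP K p] {t c : K} (h : Su3V hK t c) :
    Su5P hK (su5X hK t c) (su3X hK t c) 0 :=
  ⟨by rw [su5X_act hK p h, suAct_zero],
    fun a y e => ⟨a, by rw [su5X_act hK p h, smul_zero, add_zero]⟩⟩

theorem su5P_Y (p : ℕ) [Fact p.Prime] [CharP K p] {t c : K} (h : Su3V hK t c) :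
    Su5P hK (su5Y hK t c) (su3Y hK t c) 0 :=
  ⟨by rw [su5Y_act hK p h, suAct_zero],
    fun a y e => ⟨a, by rw [su5Y_act hK p h, smul_zero, add_zero]⟩⟩

/-- every element of `SU_3` lifts to the Levi complement. -/
theorem su5_lift (p : ℕ) [Fact p.Prime] [CharP K p] (m : ↥(suG hK 3)) :
    ∃ g : ↥(suG hK 5), Su5P hK g m 0 := by
  let S : Subgroup ↥(suG hK 3) :=
    { carrier := {m | ∃ g : ↥(suG hK 5), Su5P hK g m 0}
      mul_mem' := by
        rintro m m' ⟨g, hg⟩ ⟨g', hg'⟩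
        refine ⟨g * g', ?_⟩
        have h1 := su5P_mul hK hg hg'
        rw [suAct_zero, add_zero] at h1
        exact h1
      one_mem' := ⟨1, su5P_one hK⟩
      inv_mem' := by
        rintro m ⟨g, hg⟩
        refine ⟨g⁻¹, ?_⟩
        have h1 := su5P_inv hK hg
        rw [suAct_zero, neg_zero] at h1
        exact h1 }
  have hmem : ∀ m, m ∈ S ↔ ∃ g : ↥(suG hK 5), Su5P hK g m 0 := fun m => Iff.rfl
  have hS : S = ⊤ := by
    obtain ⟨ε, hε0, hε⟩ := Cfsg.Agent.Helper13.ufld_exists_skew hK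
    have hVε : Su3V hK 0 ε := by
      unfold Su3V
      rw [hε, map_zero, mul_zero]
      ring
    refine su3_top_of_U hK p S ?_ (su3Y hK 0 ε) ((hmem _).2 ⟨su5Y hK 0 ε, su5P_Y hK p hVε⟩) ?_
    · intro x hx
      obtain ⟨hV, hx'⟩ := su3_normal hK p hx
      rw [hx']
      exact (hmem _).2 ⟨su5X hK _ _, su5P_X hK p hV⟩
    · rw [su3Y_vec hK p hVε]
      show (0 : K) + ε * 1 - frobQ hK 0 * 0 ≠ 0
      rw [map_zero, mul_zero, sub_zero, mul_one, zero_add]
      exact hε0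
  have h1 : m ∈ S := by
    rw [hS]
    exact Subgroup.mem_top m
  exact (hmem m).1 h1

/-- an element with trivial Levi part is in the radical. -/
theorem su5P_pure (p : ℕ) [Fact p.Prime] [CharP K p] {g : ↥(suG hK 5)} {w : Fin 3 → K}
    (h : Su5P hK g 1 w) : ∃ c, Su5V hK w c ∧ g = su5E hK w c := by
  obtain ⟨c, hc⟩ := h.2 0 0 1
  rw [suAct_one, one_smul, zero_add] at hc
  have hV : Su5V hK w c := by
    have h1 := suH_suAct g (su5ext 0 0 1) (su5ext 0 0 1)
    rw [hc] at h1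
    simp only [su5H_ext, map_one, map_zero, mul_one, one_mul, mul_zero, zero_mul, suH_zero_left,
      add_zero, zero_add] at h1
    unfold Su5V
    linear_combination h1
  refine ⟨c, hV, su_ext fun x => ?_⟩
  rw [su5_eta x, su5E_act hK p hV]
  obtain ⟨a', ha'⟩ := h.2 (x 0) ![x 1, x 2, x 3] 0
  rw [suAct_one, zero_smul, add_zero] at ha'
  have h2 := suH_suAct g (su5ext (x 0) ![x 1, x 2, x 3] 0) (su5ext 0 0 1)
  rw [ha', hc] at h2
  simp only [su5H_ext, map_one, map_zero, mul_one, mul_zero, zero_mul, suH_zero_right,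
    add_zero] at h2
  calc suAct g (su5ext (x 0) ![x 1, x 2, x 3] (x 4))
      = suAct g (su5ext (x 0) ![x 1, x 2, x 3] 0 + x 4 • su5ext 0 0 1) := by
        rw [su5ext_add_smul_e4, mul_zero, add_zero, smul_zero, add_zero]
    _ = su5ext a' ![x 1, x 2, x 3] 0 + x 4 • su5ext c w 1 := by
        rw [suAct_add, suAct_smul, ha', hc]
    _ = su5ext (x 0 - suH hK 3 ![x 1, x 2, x 3] w + c * x 4) (![x 1, x 2, x 3] + x 4 • w)
          (x 4) := by
        rw [su5ext_add_smul_e4]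
        exact su5ext_congr (by linear_combination h2) rfl rfl

/-- `m` has a lift in `H` with translation part `w`. -/
def Su5L (hK : Fintype.card K = q ^ 2) (H : Subgroup ↥(suG hK 5)) (m : ↥(suG hK 3))
    (w : Fin 3 → K) : Prop :=
  ∃ g ∈ H, Su5P hK g m w

theorem su5L_one (H : Subgroup ↥(suG hK 5)) : Su5L hK H 1 0 := ⟨1, H.one_mem, su5P_one hK⟩

theorem su5L_mul {H : Subgroup ↥(suG hK 5)} {m m' : ↥(suG hK 3)} {w w' : Fin 3 → K}
    (h : Su5L hK H m w) (h' : Su5L hK H m' w') : Su5L hK H (m * m') (w + suAct m w') := by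
  obtain ⟨g, hg, hP⟩ := h
  obtain ⟨g', hg', hP'⟩ := h'
  exact ⟨g * g', H.mul_mem hg hg', su5P_mul hK hP hP'⟩

theorem su5L_inv {H : Subgroup ↥(suG hK 5)} {m : ↥(suG hK 3)} {w : Fin 3 → K}
    (h : Su5L hK H m w) : Su5L hK H m⁻¹ (-suAct m⁻¹ w) := by
  obtain ⟨g, hg, hP⟩ := h
  exact ⟨g⁻¹, H.inv_mem hg, su5P_inv hK hP⟩

theorem su5L_conj {H : Subgroup ↥(suG hK 5)} {m g : ↥(suG hK 3)} {a b : Fin 3 → K}
    (h : Su5L hK H m a) (hg : Su5L hK H g b) :
    Su5L hK H (g * m * g⁻¹) (b + suAct g a - suAct (g * m * g⁻¹) b) := by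
  have h1 := su5L_mul hK (su5L_mul hK hg h) (su5L_inv hK hg)
  rw [suAct_neg, ← suAct_mul, ← sub_eq_add_neg] at h1
  exact h1

theorem su5L_comm {H : Subgroup ↥(suG hK 5)} {m1 m2 : ↥(suG hK 3)} {a1 a2 : Fin 3 → K}
    (h1 : Su5L hK H m1 a1) (h2 : Su5L hK H m2 a2) :
    Su5L hK H (m1 * m2 * m1⁻¹ * m2⁻¹)
      (a1 + suAct m1 a2 - suAct (m1 * m2 * m1⁻¹) a1 - suAct (m1 * m2 * m1⁻¹ * m2⁻¹) a2) := by
  have h3 := su5L_mul hK (su5L_conj hK h2 h1) (su5L_inv hK h2)
  rw [suAct_neg, ← suAct_mul, ← sub_eq_add_neg] at h3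
  exact h3

theorem su5L_pure_add {H : Subgroup ↥(suG hK 5)} {w w' : Fin 3 → K} (h : Su5L hK H 1 w)
    (h' : Su5L hK H 1 w') : Su5L hK H 1 (w + w') := by
  have h1 := su5L_mul hK h h'
  rw [mul_one, suAct_one] at h1
  exact h1

theorem su5L_pure_neg {H : Subgroup ↥(suG hK 5)} {w : Fin 3 → K} (h : Su5L hK H 1 w) :
    Su5L hK H 1 (-w) := by
  have h1 := su5L_inv hK h
  rw [inv_one, suAct_one] at h1
  exact h1

theorem su5L_pure_sub {H : Subgroup ↥(suG hK 5)} {w w' : Fin 3 → K} (h : Su5L hK H 1 w)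
    (h' : Su5L hK H 1 w') : Su5L hK H 1 (w - w') := by
  rw [sub_eq_add_neg]
  exact su5L_pure_add hK h (su5L_pure_neg hK h')

theorem su5L_pure_act {H : Subgroup ↥(suG hK 5)} {m : ↥(suG hK 3)} {b w : Fin 3 → K}
    (hm : Su5L hK H m b) (h : Su5L hK H 1 w) : Su5L hK H 1 (suAct m w) := by
  have h1 := su5L_conj hK h hm
  rw [mul_one, mul_inv_cancel, suAct_one, add_sub_cancel_left] at h1
  exact h1

end Su5A

end Cfsg.Agent.Helper99
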