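import Cfsg.Agent.Helper99.Su5A

set_option autoImplicit false

/-!
# `SU_5`: the non-splitting lemma and the radical `R_1` (helper99)
-/

namespace Cfsg.Agent.Helper99

open Matrix
open Cfsg.Agent.Helper5 (frobQ frobQ_apply frobQ_frobQ)

section Su5B

variable {K : Type*} [Field K] [Fintype K] {q : ℕ}
variable (hK : Fintype.card K = q ^ 2)

theorem su5L_congr {H : Subgroup ↥(suG hK 5)} {m : ↥(suG hK 3)} {w w' : Fin 3 → K}
    (h : Su5L hK H m w) (e : w = w') : Su5L hK H m w' := e ▸ h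

theorem su5_ns1 (p : ℕ) [Fact p.Prime] [CharP K p] (H : Subgroup ↥(suG hK 5)) {t c : K}
    (hV : Su3V hK t c) {a b : Fin 3 → K} (hX : Su5L hK H (su3X hK t c) a) (w : ↥(suG hK 3))
    (hw : Su5L hK H w b) (l : K) (hwl : suAct w ![1, 0, 0] = ![l, 0, 0]) :
    ∃ (c' : K) (v : Fin 3 → K), Su3V hK (frobQ hK l ^ 2 / l * t) c' ∧
      Su5L hK H (su3X hK (frobQ hK l ^ 2 / l * t) c') v ∧ v 2 * frobQ hK l = a 2 := by
  obtain ⟨c', hV', hc'⟩ := su3_conj_upper hK p w l hwl hV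
  have h1 := su5L_conj hK hX hw
  rw [hc'] at h1
  refine ⟨c', _, hV', h1, ?_⟩
  rw [Pi.sub_apply, Pi.add_apply, su3X_c2 hK p hV', add_sub_cancel_left]
  have h2 := suH_suAct w a ![1, 0, 0]
  rw [hwl, su3H_eq, su3H_eq] at h2
  simpa using h2

theorem su5_ns2 (p : ℕ) [Fact p.Prime] [CharP K p] (H : Subgroup ↥(suG hK 5)) {t c t' c' : K}
    (hV : Su3V hK t c) (hV' : Su3V hK t' c') {a v : Fin 3 → K}
    (hX : Su5L hK H (su3X hK t c) a) (hX' : Su5L hK H (su3X hK t' c') v) :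
    ∃ z : Fin 3 → K, Su3V hK 0 (frobQ hK t' * t - frobQ hK t * t') ∧
      Su5L hK H (su3X hK 0 (frobQ hK t' * t - frobQ hK t * t')) z ∧ z 2 = 0 ∧
      z 1 = t * v 2 - t' * a 2 := by
  have hZ : Su3V hK 0 (frobQ hK t' * t - frobQ hK t * t') := by
    unfold Su3V
    rw [map_sub, map_mul, map_mul, frobQ_frobQ, frobQ_frobQ, zero_mul]
    ring
  have hV1 : Su3V hK t' (c' + (frobQ hK t' * t - frobQ hK t * t')) := by
    unfold Su3V at hV' ⊢
    rw [map_add, map_sub, map_mul, map_mul, frobQ_frobQ, frobQ_frobQ]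
    linear_combination hV'
  have e1 : su3X hK t c * su3X hK t' c' * (su3X hK t c)⁻¹ =
      su3X hK t' (c' + (frobQ hK t' * t - frobQ hK t * t')) := by
    rw [su3X_inv hK p hV, su3X_mul hK p hV hV',
      su3X_mul hK p (su3V_mul hK hV hV') (su3V_inv hK hV)]
    have hc : c + c' - frobQ hK t * t' + frobQ hK c - frobQ hK (t + t') * -t =
        c' + (frobQ hK t' * t - frobQ hK t * t') := by
      rw [map_add]
      unfold Su3V at hV
      linear_combination hV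
    have ht : t + t' + -t = t' := by ring
    rw [hc, ht]
  have e2 : su3X hK t c * su3X hK t' c' * (su3X hK t c)⁻¹ * (su3X hK t' c')⁻¹ =
      su3X hK 0 (frobQ hK t' * t - frobQ hK t * t') := by
    rw [e1, su3X_inv hK p hV', su3X_mul hK p hV1 (su3V_inv hK hV')]
    have hc : c' + (frobQ hK t' * t - frobQ hK t * t') + frobQ hK c' - frobQ hK t' * -t' =
        frobQ hK t' * t - frobQ hK t * t' := by
      unfold Su3V at hV'
      linear_combination hV'
    rw [hc, add_neg_cancel]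
  have h1 := su5L_comm hK hX hX'
  rw [e2, e1] at h1
  refine ⟨_, hZ, h1, ?_, ?_⟩
  · simp only [Pi.sub_apply, Pi.add_apply, su3X_c2 hK p hV, su3X_c2 hK p hV1, su3X_c2 hK p hZ]
    ring
  · simp only [Pi.sub_apply, Pi.add_apply, su3X_c1 hK p hV, su3X_c1 hK p hV1, su3X_c1 hK p hZ]
    ring

theorem su5_ns3 (p : ℕ) [Fact p.Prime] [CharP K p] (H : Subgroup ↥(suG hK 5)) {t c ζ : K}
    (hV : Su3V hK t c) (hZ : Su3V hK 0 ζ) {a z : Fin 3 → K}
    (hX : Su5L hK H (su3X hK t c) a) (hZL : Su5L hK H (su3X hK 0 ζ) z) (hz2 : z 2 = 0) :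
    Su5L hK H 1 ![-(frobQ hK t * z 1) - ζ * a 2, 0, 0] := by
  have e1 : su3X hK t c * su3X hK 0 ζ * (su3X hK t c)⁻¹ = su3X hK 0 ζ := by
    rw [su3X_inv hK p hV, su3X_mul hK p hV hZ,
      su3X_mul hK p (su3V_mul hK hV hZ) (su3V_inv hK hV)]
    have hc : c + ζ - frobQ hK t * 0 + frobQ hK c - frobQ hK (t + 0) * -t = ζ := by
      rw [add_zero]
      unfold Su3V at hV
      linear_combination hV
    have ht : t + 0 + -t = 0 := by ring
    rw [hc, ht]
  have e2 : su3X hK t c * su3X hK 0 ζ * (su3X hK t c)⁻¹ * (su3X hK 0 ζ)⁻¹ = 1 := by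
    rw [e1, mul_inv_cancel]
  have h1 := su5L_comm hK hX hZL
  rw [e2, e1, suAct_one] at h1
  refine su5L_congr hK h1 ?_
  rw [su3_eta (a + suAct (su3X hK t c) z - suAct (su3X hK 0 ζ) a - z)]
  apply su3_vec_eq <;>
    simp only [Pi.sub_apply, Pi.add_apply, su3X_c0 hK p hV, su3X_c1 hK p hV, su3X_c2 hK p hV,
      su3X_c0 hK p hZ, su3X_c1 hK p hZ, su3X_c2 hK p hZ, hz2, map_zero] <;> ring

/-- the non-splitting lemma: the relator `[X, [X, w X w⁻¹]] = 1` of `U_3` lifts to a nontrivial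
element of the radical. -/
theorem su5_ns (p : ℕ) [Fact p.Prime] [CharP K p] (H : Subgroup ↥(suG hK 5)) {t c : K}
    (hV : Su3V hK t c) (ht : t ≠ 0) {a b : Fin 3 → K} (ha2 : a 2 ≠ 0)
    (hX : Su5L hK H (su3X hK t c) a) (w : ↥(suG hK 3)) (hw : Su5L hK H w b) (l : K)
    (hwl : suAct w ![1, 0, 0] = ![l, 0, 0])
    (hF : l ^ 3 - 2 * frobQ hK l ^ 3 + l ≠ 0) : ∃ τ : K, τ ≠ 0 ∧ Su5L hK H 1 ![τ, 0, 0] := by
  have hl : l ≠ 0 := by
    intro h0
    have h2 := suH_suAct w ![1, 0, 0] ![0, 0, 1]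
    rw [hwl, h0, su3H_eq, su3H_vec] at h2
    simp at h2
  have hsl : frobQ hK l ≠ 0 := su_frob_ne_zero hK hl
  have hst : frobQ hK t ≠ 0 := su_frob_ne_zero hK ht
  obtain ⟨c', v, hV', hX', hv2⟩ := su5_ns1 hK p H hV hX w hw l hwl
  obtain ⟨z, hZ, hZL, hz2, hz1⟩ := su5_ns2 hK p H hV hV' hX hX'
  have h3 := su5_ns3 hK p H hV hZ hX hZL hz2
  refine ⟨_, ?_, h3⟩
  have hv2' : v 2 = a 2 / frobQ hK l := by
    rw [eq_div_iff hsl]
    exact hv2
  intro h0
  have key : (-(frobQ hK t * z 1) - (frobQ hK (frobQ hK l ^ 2 / l * t) * t -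
      frobQ hK t * (frobQ hK l ^ 2 / l * t)) * a 2) * (l * frobQ hK l) =
      -(t * frobQ hK t * a 2 * (l ^ 3 - 2 * frobQ hK l ^ 3 + l)) := by
    rw [hz1, hv2', map_mul, map_div₀, map_pow, frobQ_frobQ]
    field_simp
    ring
  rw [h0, zero_mul] at key
  have h5 : t * frobQ hK t * a 2 * (l ^ 3 - 2 * frobQ hK l ^ 3 + l) = 0 := by
    linear_combination key
  exact mul_ne_zero (mul_ne_zero (mul_ne_zero ht hst) ha2) hF h5

/-- the translation lattice is everything as soon as it contains the line `K e_1`. -/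
theorem su5_lambda (p : ℕ) [Fact p.Prime] [CharP K p] (H : Subgroup ↥(suG hK 5))
    {t c t' c' : K} (hV : Su3V hK t c) (ht : t ≠ 0) (hV' : Su3V hK t' c') (hc' : c' ≠ 0)
    {a b : Fin 3 → K} (hX : Su5L hK H (su3X hK t c) a) (hY : Su5L hK H (su3Y hK t' c') b)
    (hline : ∀ x : K, Su5L hK H 1 ![x, 0, 0]) (w : Fin 3 → K) : Su5L hK H 1 w := by
  have h1 : ∀ x : K, Su5L hK H 1 ![x, t' * x, c' * x] := by
    intro x
    refine su5L_congr hK (su5L_pure_act hK hY (hline x)) ?_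
    rw [su3Y_vec hK p hV']
    exact su3_vec_eq (by ring) (by ring) (by ring)
  have h2 : ∀ x : K, Su5L hK H 1 ![0, t' * x, c' * x] := by
    intro x
    refine su5L_congr hK (su5L_pure_sub hK (h1 x) (hline x)) ?_
    rw [su3_sub_vec]
    exact su3_vec_eq (by ring) (by ring) (by ring)
  have h4 : ∀ x : K, Su5L hK H 1 ![0, t * (c' * x), 0] := by
    intro x
    refine su5L_congr hK (su5L_pure_sub hK (su5L_pure_sub hK (su5L_pure_act hK hX (h2 x)) (h2 x))
      (hline (c * (c' * x) - frobQ hK t * (t' * x)))) ?_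
    rw [su3X_vec hK p hV, su3_sub_vec, su3_sub_vec]
    exact su3_vec_eq (by ring) (by ring) (by ring)
  have h5 : ∀ y : K, Su5L hK H 1 ![0, y, 0] := by
    intro y
    refine su5L_congr hK (h4 (y / (t * c'))) ?_
    exact su3_vec_eq rfl (by field_simp) rfl
  have h6 : ∀ e : K, Su5L hK H 1 ![0, 0, e] := by
    intro e
    refine su5L_congr hK (su5L_pure_sub hK (h2 (e / c')) (h5 (t' * (e / c')))) ?_
    rw [su3_sub_vec]
    exact su3_vec_eq (by ring) (by ring) (by rw [sub_zero]; field_simp)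
  refine su5L_congr hK (su5L_pure_add hK (su5L_pure_add hK (hline (w 0)) (h5 (w 1))) (h6 (w 2))) ?_
  rw [su3_add_vec, su3_add_vec]
  conv_rhs => rw [su3_eta w]
  exact su3_vec_eq (by ring) (by ring) (by ring)

/-- if the translation lattice is everything then the whole radical `R_1` lies in `H`. -/
theorem su5_R1 (p : ℕ) [Fact p.Prime] [CharP K p] (H : Subgroup ↥(suG hK 5))
    (hΛ : ∀ w : Fin 3 → K, Su5L hK H 1 w) (w : Fin 3 → K) (c : K) (hV : Su5V hK w c) :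
    su5E hK w c ∈ H := by
  have hE : ∀ w : Fin 3 → K, ∃ c, Su5V hK w c ∧ su5E hK w c ∈ H := by
    intro w
    obtain ⟨g, hg, hP⟩ := hΛ w
    obtain ⟨c, hc, rfl⟩ := su5P_pure hK p hP
    exact ⟨c, hc, hg⟩
  have hZ : ∀ x : K, su5E hK 0 (x - frobQ hK x) ∈ H := by
    intro x
    obtain ⟨c1, hV1, h1⟩ := hE ![x, 0, 0]
    obtain ⟨c2, hV2, h2⟩ := hE ![0, 0, 1]
    obtain ⟨e12, -⟩ := su5E_mul hK p hV1 hV2
    obtain ⟨e21, hV21⟩ := su5E_mul hK p hV2 hV1
    have hz : Su5V hK 0 (x - frobQ hK x) := by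
      unfold Su5V
      rw [suH_zero_left, map_sub, frobQ_frobQ]
      ring
    have h3 := su5E_zero_mul hK p hz hV21
    have h4 : su5E hK (![x, 0, 0] + ![0, 0, 1]) (c1 + c2 - suH hK 3 ![0, 0, 1] ![x, 0, 0]) =
        su5E hK (![0, 0, 1] + ![x, 0, 0])
          (x - frobQ hK x + (c2 + c1 - suH hK 3 ![x, 0, 0] ![0, 0, 1])) := by
      rw [add_comm ![x, 0, 0] ![0, 0, 1], su3H_vec, su3H_vec]
      congr 1
      simp only [map_zero, map_one, mul_zero, zero_mul, mul_one, one_mul, add_zero, zero_add]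
      ring
    have h5 : su5E hK 0 (x - frobQ hK x) = su5E hK ![x, 0, 0] c1 * su5E hK ![0, 0, 1] c2 *
        (su5E hK ![0, 0, 1] c2 * su5E hK ![x, 0, 0] c1)⁻¹ := by
      rw [e12, h4, ← h3, e21, mul_inv_cancel_right]
    rw [h5]
    exact H.mul_mem (H.mul_mem h1 h2) (H.inv_mem (H.mul_mem h2 h1))
  obtain ⟨c0, hV0, h0⟩ := hE w
  obtain ⟨b, hb⟩ := Cfsg.Agent.Helper13.ufld_exists_trace_one hK
  have hz : Su5V hK 0 (c - c0) := by
    unfold Su5V at hV hV0 ⊢
    rw [suH_zero_left, map_sub]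
    linear_combination hV - hV0
  have hsk : frobQ hK (c - c0) = -(c - c0) := by
    unfold Su5V at hV hV0
    rw [map_sub]
    linear_combination hV - hV0
  have h6 : c - c0 = (c - c0) * b - frobQ hK ((c - c0) * b) := by
    rw [map_mul, hsk]
    linear_combination (-(c - c0)) * hb
  have h7 := su5E_zero_mul hK p hz hV0
  rw [sub_add_cancel] at h7
  rw [← h7]
  refine H.mul_mem ?_ h0
  rw [h6]
  exact hZ _

end Su5B

end Cfsg.Agent.Helper99
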