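import Cfsg.Agent.Helper99.Su5C

set_option autoImplicit false

/-!
# `SU_5`: three conjugate regular unipotent elements generate, `q ≥ 3` (helper99)
-/

namespace Cfsg.Agent.Helper99

open Matrix
open Cfsg.Agent.Helper5 (frobQ frobQ_apply frobQ_frobQ)

section Su5D

variable {K : Type*} [Field K] [Fintype K] {q : ℕ}
variable (hK : Fintype.card K = q ^ 2)

/-- the regular unipotent element. -/
noncomputable def su5U (hK : Fintype.card K = q ^ 2) (t c ε : K) : ↥(suG hK 5) :=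
  su5E hK ![0, 0, 1] ε * su5X hK t c

/-- the transvection at `e_4`. -/
noncomputable def su5T (hK : Fintype.card K = q ^ 2) (ε : K) : ↥(suG hK 5) :=
  suEl hK (Pi.single (4 : Fin 5) 1) 0 ε

theorem su5_w0V {ε : K} (hε : frobQ hK ε = -ε) : Su5V hK ![0, 0, 1] ε := by
  unfold Su5V
  rw [su3H_vec, hε, map_zero]
  ring

theorem su5U_P (p : ℕ) [Fact p.Prime] [CharP K p] {t c ε : K} (hV : Su3V hK t c)
    (hε : frobQ hK ε = -ε) : Su5P hK (su5U hK t c ε) (su3X hK t c) ![0, 0, 1] := by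
  have h1 := su5P_mul hK (su5P_E hK p (su5_w0V hK hε)) (su5P_X hK p hV)
  rw [one_mul, suAct_one, add_zero] at h1
  exact h1

theorem su5U_act (p : ℕ) [Fact p.Prime] [CharP K p] {t c ε : K} (hV : Su3V hK t c)
    (hε : frobQ hK ε = -ε) (a y0 y1 y2 e : K) :
    suAct (su5U hK t c ε) (su5ext a ![y0, y1, y2] e) =
      su5ext (a - (y0 + c * y2 - frobQ hK t * y1) + ε * e)
        ![y0 + c * y2 - frobQ hK t * y1, y1 + t * y2, y2 + e] e := by
  unfold su5U
  rw [suAct_mul, su5X_act hK p hV, su5E_act hK p (su5_w0V hK hε), su3X_vec hK p hV, su3H_vec,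
    su3_smul_vec, su3_add_vec]
  exact su5ext_congr (by rw [map_zero, map_one]; ring)
    (su3_vec_eq (by ring) (by ring) (by ring)) rfl

theorem su5T_act (p : ℕ) [Fact p.Prime] [CharP K p] {ε : K} (hε : frobQ hK ε = -ε) (a : K)
    (y : Fin 3 → K) (e : K) :
    suAct (su5T hK ε) (su5ext a y e) = su5ext a y (e + ε * a) := by
  have hiso : suH hK 5 (Pi.single (4 : Fin 5) (1 : K)) (Pi.single (4 : Fin 5) (1 : K)) = 0 := by
    rw [suH_single_one_right, su5_rev4]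
    exact Pi.single_eq_of_ne (by decide) _
  unfold su5T
  rw [su_tv_act hK p hiso hε, suH_single_one_right, su5_rev4, su5ext_0, su5_e4, su5ext_smul,
    su5ext_add]
  exact su5ext_congr (by ring) (by rw [smul_zero, add_zero]) (by ring)

theorem su5_exit (p : ℕ) [Fact p.Prime] [CharP K p] {t c ε : K} (hV : Su3V hK t c)
    (hε : frobQ hK ε = -ε) (hε0 : ε ≠ 0) :
    suAct (su5T hK ε * su5U hK t c ε * (su5T hK ε)⁻¹) (su5ext 1 0 0) 4 ≠ 0 := by
  have h1 : suAct (su5T hK ε)⁻¹ (su5ext 1 0 0) = su5ext 1 0 (-ε) := by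
    have h2 := su5T_act hK p hε 1 0 (-ε)
    rw [mul_one, neg_add_cancel] at h2
    rw [← h2, suAct_inv_suAct]
  have h3 : (su5ext 1 0 (-ε) : Fin 5 → K) = su5ext 1 ![0, 0, 0] (-ε) := by
    refine su5ext_congr rfl ?_ rfl
    funext i
    fin_cases i <;> rfl
  rw [suAct_mul, suAct_mul, h1, h3, su5U_act hK p hV hε, su5T_act hK p hε, su5ext_4]
  have h4 : -ε + ε * (1 - (0 + c * 0 - frobQ hK t * 0) + ε * -ε) = -(ε ^ 3) := by ring
  rw [h4]
  exact neg_ne_zero.mpr (pow_ne_zero 3 hε0)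

/-- `su5U` is regular unipotent. -/
theorem su5_reg (p : ℕ) [Fact p.Prime] [CharP K p] {t c ε : K} (hV : Su3V hK t c) (ht : t ≠ 0)
    (hε : frobQ hK ε = -ε) :
    IsNilpotent (((su5U hK t c ε : Matrix.SpecialLinearGroup (Fin 5) K) :
        Matrix (Fin 5) (Fin 5) K) - 1) ∧
      (((su5U hK t c ε : Matrix.SpecialLinearGroup (Fin 5) K) : Matrix (Fin 5) (Fin 5) K) - 1) ^
        (5 - 1) ≠ 0 := by
  obtain ⟨N, hNdef⟩ : ∃ N : Matrix (Fin 5) (Fin 5) K,
      N = ((su5U hK t c ε : Matrix.SpecialLinearGroup (Fin 5) K) : Matrix (Fin 5) (Fin 5) K) - 1 :=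
    ⟨_, rfl⟩
  rw [← hNdef]
  have hN : ∀ a y0 y1 y2 e : K, N *ᵥ su5ext a ![y0, y1, y2] e =
      su5ext (-(y0 + c * y2 - frobQ hK t * y1) + ε * e)
        ![c * y2 - frobQ hK t * y1, t * y2, e] 0 := by
    intro a y0 y1 y2 e
    have h1 : N *ᵥ su5ext a ![y0, y1, y2] e =
        suAct (su5U hK t c ε) (su5ext a ![y0, y1, y2] e) - su5ext a ![y0, y1, y2] e := by
      rw [hNdef, Matrix.sub_mulVec, Matrix.one_mulVec]
      rfl
    rw [h1, su5U_act hK p hV hε, su5ext_sub, su3_sub_vec]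
    exact su5ext_congr (by ring) (su3_vec_eq (by ring) (by ring) (by ring)) (by ring)
  have h5 : ∀ x : Fin 5 → K, N *ᵥ (N *ᵥ (N *ᵥ (N *ᵥ (N *ᵥ x)))) = 0 := by
    intro x
    rw [su5_eta x, hN, hN, hN, hN, hN]
    exact su5ext_vec_zero (by ring) (by ring) (by ring) rfl rfl
  constructor
  · refine ⟨5, ?_⟩
    apply Matrix.mulVec_injective
    funext x
    have e5 : N ^ 5 = N * N * N * N * N := by simp only [pow_succ, pow_zero, one_mul]
    rw [e5, Matrix.zero_mulVec]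
    simp only [← Matrix.mulVec_mulVec]
    exact h5 x
  · intro h
    have h' : N ^ 4 = 0 := h
    have e4 : N ^ 4 = N * N * N * N := by simp only [pow_succ, pow_zero, one_mul]
    have h4 : N *ᵥ (N *ᵥ (N *ᵥ (N *ᵥ su5ext 0 ![0, 0, 0] 1))) = 0 := by
      have h6 : (N * N * N * N) *ᵥ su5ext 0 ![0, 0, 0] 1 = 0 := by
        rw [← e4, h', Matrix.zero_mulVec]
      simp only [← Matrix.mulVec_mulVec] at h6
      exact h6
    rw [hN, hN, hN, hN] at h4
    have h7 := congrFun h4 0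
    simp only [su5ext_0, Pi.zero_apply] at h7
    have h8 : frobQ hK t * t = 0 := by linear_combination h7
    exact mul_ne_zero (su_frob_ne_zero hK ht) ht h8

/-- the generation criterion for subgroups of `SU_5` meeting `P_1` in a big subgroup. -/
theorem su5_core (p : ℕ) [Fact p.Prime] [CharP K p] (H : Subgroup ↥(suG hK 5)) {t c : K}
    (hV : Su3V hK t c) (ht : t ≠ 0) {a : Fin 3 → K} (ha2 : a 2 ≠ 0)
    (hX : Su5L hK H (su3X hK t c) a) {t' c' : K} (hV' : Su3V hK t' c') (hc' : c' ≠ 0)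
    {b : Fin 3 → K} (hY : Su5L hK H (su3Y hK t' c') b) (w : ↥(suG hK 3)) {bw : Fin 3 → K}
    (hw : Su5L hK H w bw) (l : K) (hwl : suAct w ![1, 0, 0] = ![l, 0, 0])
    (hF : l ^ 3 - 2 * frobQ hK l ^ 3 + l ≠ 0)
    (hline : ∀ τ : K, τ ≠ 0 → Su5L hK H 1 ![τ, 0, 0] → ∀ x : K, Su5L hK H 1 ![x, 0, 0])
    (y : ↥(suG hK 5)) (hy : y ∈ H) (hy4 : suAct y (su5ext 1 0 0) 4 ≠ 0) : H = ⊤ := by
  obtain ⟨τ, hτ, hLτ⟩ := su5_ns hK p H hV ht ha2 hX w hw l hwl hF
  have hΛ := su5_lambda hK p H hV ht hV' hc' hX hY (hline τ hτ hLτ)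
  exact su5_top_of_R1 hK p H (su5_R1 hK p H hΛ) y hy hy4

theorem su5_exists_F (p : ℕ) [Fact p.Prime] [CharP K p] :
    ∃ l : K, l ≠ 0 ∧ l ^ 3 - 2 * frobQ hK l ^ 3 + l ≠ 0 := by
  by_cases h2 : p = 2
  · have h2K : (2 : K) = 0 := by
      have h := CharP.cast_eq_zero K p
      rw [h2] at h
      exact_mod_cast h
    obtain ⟨l, hl⟩ := Cfsg.Agent.Helper13.ufld_exists_not_fixed hK
    have hl0 : l ≠ 0 := by
      rintro rfl
      exact hl (map_zero _)
    have hl1 : l + 1 ≠ 0 := by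
      intro h
      have h' : l = -1 := by linear_combination h
      apply hl
      rw [h', map_neg, map_one]
    refine ⟨l, hl0, ?_⟩
    have e : l ^ 3 - 2 * frobQ hK l ^ 3 + l = l * (l + 1) ^ 2 := by
      linear_combination (-(frobQ hK l ^ 3) - l ^ 2) * h2K
    rw [e]
    exact mul_ne_zero hl0 (pow_ne_zero 2 hl1)
  by_cases h3 : p = 3
  · have h3K : (3 : K) = 0 := by
      have h := CharP.cast_eq_zero K p
      rw [h3] at h
      exact_mod_cast h
    obtain ⟨ε, hε0, hε⟩ := Cfsg.Agent.Helper13.ufld_exists_skew hK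
    refine ⟨ε, hε0, ?_⟩
    have e : ε ^ 3 - 2 * frobQ hK ε ^ 3 + ε = ε := by
      rw [hε]
      linear_combination (ε ^ 3) * h3K
    rw [e]
    exact hε0
  · have h6 : (6 : K) ≠ 0 := by
      intro h
      have h' : ((6 : ℕ) : K) = 0 := by exact_mod_cast h
      rw [CharP.cast_eq_zero_iff K p] at h'
      have hp : p.Prime := Fact.out
      have h'' : p ∣ 2 * 3 := h'
      rcases (Nat.Prime.dvd_mul hp).1 h'' with h | h
      · exact h2 ((Nat.prime_dvd_prime_iff_eq hp Nat.prime_two).1 h)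
      · exact h3 ((Nat.prime_dvd_prime_iff_eq hp Nat.prime_three).1 h)
    have h2K : (2 : K) ≠ 0 := by
      intro h
      apply h6
      linear_combination 3 * h
    refine ⟨2, h2K, ?_⟩
    have e : (2 : K) ^ 3 - 2 * frobQ hK 2 ^ 3 + 2 = -6 := by
      rw [map_ofNat]
      norm_num
    rw [e]
    exact neg_ne_zero.mpr h6

/-- three conjugate regular unipotent elements generating `SU_5(q)`, `q ≥ 3` (antidiagonal
model). -/
theorem su5_gen_q3 (p : ℕ) [Fact p.Prime] [CharP K p] (hq3 : 3 ≤ q) :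
    ∃ u g h : ↥(suG hK 5),
      (IsNilpotent (((u : Matrix.SpecialLinearGroup (Fin 5) K) : Matrix (Fin 5) (Fin 5) K) - 1) ∧
        (((u : Matrix.SpecialLinearGroup (Fin 5) K) : Matrix (Fin 5) (Fin 5) K) - 1) ^ (5 - 1)
          ≠ 0) ∧
      Subgroup.closure ({u, g * u * g⁻¹, h * u * h⁻¹} : Set ↥(suG hK 5)) = ⊤ := by
  obtain ⟨t, c, hV, ht, g, hg⟩ := su3_gen_exists hK p hq3
  obtain ⟨ε, hε0, hε⟩ := Cfsg.Agent.Helper13.ufld_exists_skew hK
  obtain ⟨g5, hg5⟩ := su5_lift hK p g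
  refine ⟨su5U hK t c ε, g5, su5T hK ε, su5_reg hK p hV ht hε, ?_⟩
  obtain ⟨H, hH⟩ : ∃ H : Subgroup ↥(suG hK 5), H = Subgroup.closure
      ({su5U hK t c ε, g5 * su5U hK t c ε * g5⁻¹,
        su5T hK ε * su5U hK t c ε * (su5T hK ε)⁻¹} : Set ↥(suG hK 5)) := ⟨_, rfl⟩
  rw [← hH]
  have hu : su5U hK t c ε ∈ H := by
    rw [hH]
    exact Subgroup.subset_closure (Set.mem_insert _ _)
  have hu2 : g5 * su5U hK t c ε * g5⁻¹ ∈ H := by
    rw [hH]
    exact Subgroup.subset_closure (Set.mem_insert_of_mem _ (Set.mem_insert _ _))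
  have hu3 : su5T hK ε * su5U hK t c ε * (su5T hK ε)⁻¹ ∈ H := by
    rw [hH]
    exact Subgroup.subset_closure
      (Set.mem_insert_of_mem _ (Set.mem_insert_of_mem _ (Set.mem_singleton _)))
  have hLX : Su5L hK H (su3X hK t c) ![0, 0, 1] := ⟨_, hu, su5U_P hK p hV hε⟩
  have hLg : ∃ w, Su5L hK H (g * su3X hK t c * g⁻¹) w :=
    ⟨_, _, hu2, su5P_mul hK (su5P_mul hK hg5 (su5U_P hK p hV hε)) (su5P_inv hK hg5)⟩
  have hall : ∀ m : ↥(suG hK 3), ∃ w, Su5L hK H m w := by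
    let S : Subgroup ↥(suG hK 3) :=
      { carrier := {m | ∃ w, Su5L hK H m w}
        mul_mem' := by
          rintro m m' ⟨w, hw⟩ ⟨w', hw'⟩
          exact ⟨_, su5L_mul hK hw hw'⟩
        one_mem' := ⟨0, su5L_one hK H⟩
        inv_mem' := by
          rintro m ⟨w, hw⟩
          exact ⟨_, su5L_inv hK hw⟩ }
    have hmem : ∀ m, m ∈ S ↔ ∃ w, Su5L hK H m w := fun m => Iff.rfl
    have hS : S = ⊤ := by
      rw [eq_top_iff, ← hg, Subgroup.closure_le]
      intro x hx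
      rcases hx with rfl | rfl
      · exact (hmem _).2 ⟨_, hLX⟩
      · exact (hmem _).2 hLg
    intro m
    exact (hmem m).1 (by rw [hS]; exact Subgroup.mem_top m)
  have hD : ∀ l : K, l ≠ 0 → ∃ (w : ↥(suG hK 3)) (bw : Fin 3 → K), Su5L hK H w bw ∧
      ∀ x : K, suAct w ![x, 0, 0] = ![l * x, 0, 0] := by
    intro l hl
    have hsl : frobQ hK l ≠ 0 := su_frob_ne_zero hK hl
    have hd : SuDH hK ![l, frobQ hK l / l, (frobQ hK l)⁻¹] := by
      constructor
      · rw [Fin.prod_univ_three]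
        show l * (frobQ hK l / l) * (frobQ hK l)⁻¹ = 1
        field_simp
      · intro i
        rcases su3_fin_cases i with rfl | rfl | rfl
        · rw [su3_rev0]
          show l * frobQ hK ((frobQ hK l)⁻¹) = 1
          rw [map_inv₀, frobQ_frobQ, mul_inv_cancel₀ hl]
        · rw [su3_rev1]
          show frobQ hK l / l * frobQ hK (frobQ hK l / l) = 1
          rw [map_div₀, frobQ_frobQ]
          field_simp
        · rw [su3_rev2]
          show (frobQ hK l)⁻¹ * frobQ hK l = 1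
          exact inv_mul_cancel₀ hsl
    obtain ⟨bw, hbw⟩ := hall (suD hK ![l, frobQ hK l / l, (frobQ hK l)⁻¹])
    refine ⟨_, bw, hbw, fun x => ?_⟩
    rw [su3_suD_vec hK hd]
    exact su3_vec_eq rfl (mul_zero _) (mul_zero _)
  obtain ⟨l0, hl0, hF⟩ := su5_exists_F hK p
  obtain ⟨w, bw, hw, hwl⟩ := hD l0 hl0
  have hVY : Su3V hK 0 ε := by
    unfold Su3V
    rw [hε, map_zero, mul_zero]
    ring
  obtain ⟨bY, hY⟩ := hall (su3Y hK 0 ε)
  refine su5_core hK p H hV ht (a := ![0, 0, 1]) (one_ne_zero) hLX hVY hε0 hY w hw l0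
    (by rw [hwl 1, mul_one]) hF ?_ _ hu3 (su5_exit hK p hV hε hε0)
  intro τ hτ hLτ x
  by_cases hx : x = 0
  · rw [hx]
    refine su5L_congr hK (su5L_one hK H) ?_
    funext i
    fin_cases i <;> rfl
  · obtain ⟨w', bw', hw', hwl'⟩ := hD (x / τ) (div_ne_zero hx hτ)
    refine su5L_congr hK (su5L_pure_act hK hw' hLτ) ?_
    rw [hwl']
    exact su3_vec_eq (by field_simp) rfl rfl

end Su5D

end Cfsg.Agent.Helper99
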