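import Cfsg.Agent.Helper99.Su5D

set_option autoImplicit false

/-!
# `SU_5(q)` is generated by three conjugate regular unipotent elements, all `q` (helper99)
-/

namespace Cfsg.Agent.Helper99

open Matrix
open Cfsg.Agent.Helper5 (frobQ frobQ_apply frobQ_frobQ)

section Su5E

variable {K : Type*} [Field K] [Fintype K] {q : ℕ}
variable (hK : Fintype.card K = q ^ 2)

theorem su3_neg_vec (a b d : K) : -(![a, b, d] : Fin 3 → K) = ![-a, -b, -d] := by
  funext i
  fin_cases i <;> rfl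

/-- three conjugate regular unipotent elements generating `SU_5(2)` (antidiagonal model). -/
theorem su5_gen_q2 (p : ℕ) [Fact p.Prime] [CharP K p] (hq : q = 2) :
    ∃ u g h : ↥(suG hK 5),
      (IsNilpotent (((u : Matrix.SpecialLinearGroup (Fin 5) K) : Matrix (Fin 5) (Fin 5) K) - 1) ∧
        (((u : Matrix.SpecialLinearGroup (Fin 5) K) : Matrix (Fin 5) (Fin 5) K) - 1) ^ (5 - 1)
          ≠ 0) ∧
      Subgroup.closure ({u, g * u * g⁻¹, h * u * h⁻¹} : Set ↥(suG hK 5)) = ⊤ := by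
  have h2 : (2 : K) = 0 := by
    have h4 : ((Fintype.card K : ℕ) : K) = 0 := Nat.cast_card_eq_zero K
    rw [hK, hq] at h4
    have h5 : (2 : K) ^ 2 = 0 := by exact_mod_cast h4
    exact (pow_eq_zero_iff (two_ne_zero)).1 h5
  obtain ⟨ω, hω'⟩ := Cfsg.Agent.Helper13.ufld_exists_not_fixed hK
  have hσ : ∀ x : K, frobQ hK x = x ^ 2 := by
    intro x
    rw [frobQ_apply, hq]
  have hω0 : ω ≠ 0 := by
    rintro rfl
    exact hω' (map_zero _)
  have hω1 : ω - 1 ≠ 0 := by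
    intro h
    have h' : ω = 1 := by linear_combination h
    apply hω'
    rw [h', map_one]
  have hω4 : ω ^ 4 = ω := by
    have h := FiniteField.pow_card ω
    rw [hK, hq] at h
    exact h
  have hω : ω ^ 2 + ω + 1 = 0 := by
    have h : ω * (ω - 1) * (ω ^ 2 + ω + 1) = 0 := by linear_combination hω4
    rcases mul_eq_zero.1 h with h | h
    · rcases mul_eq_zero.1 h with h | h
      · exact absurd h hω0
      · exact absurd h hω1
    · exact h
  have hV : Su3V hK 1 ω := by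
    unfold Su3V
    rw [hσ ω, map_one, mul_one]
    linear_combination hω
  obtain ⟨g, hg⟩ := su3_conj_XY hK p hV hV one_ne_zero (β := 1) one_ne_zero
    (by rw [map_one, one_pow, div_one, mul_one]; linear_combination h2)
  obtain ⟨ε, hε0, hε⟩ := Cfsg.Agent.Helper13.ufld_exists_skew hK
  obtain ⟨g5, hg5⟩ := su5_lift hK p g
  refine ⟨su5U hK 1 ω ε, g5, su5T hK ε, su5_reg hK p hV one_ne_zero hε, ?_⟩
  obtain ⟨H, hH⟩ : ∃ H : Subgroup ↥(suG hK 5), H = Subgroup.closure
      ({su5U hK 1 ω ε, g5 * su5U hK 1 ω ε * g5⁻¹,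
        su5T hK ε * su5U hK 1 ω ε * (su5T hK ε)⁻¹} : Set ↥(suG hK 5)) := ⟨_, rfl⟩
  rw [← hH]
  have hu : su5U hK 1 ω ε ∈ H := by
    rw [hH]
    exact Subgroup.subset_closure (Set.mem_insert _ _)
  have hu2 : g5 * su5U hK 1 ω ε * g5⁻¹ ∈ H := by
    rw [hH]
    exact Subgroup.subset_closure (Set.mem_insert_of_mem _ (Set.mem_insert _ _))
  have hu3 : su5T hK ε * su5U hK 1 ω ε * (su5T hK ε)⁻¹ ∈ H := by
    rw [hH]
    exact Subgroup.subset_closure
      (Set.mem_insert_of_mem _ (Set.mem_insert_of_mem _ (Set.mem_singleton _)))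
  have hLX : Su5L hK H (su3X hK 1 ω) ![0, 0, 1] := ⟨_, hu, su5U_P hK p hV hε⟩
  obtain ⟨bY, hY⟩ : ∃ b, Su5L hK H (su3Y hK 1 ω) b := by
    have h1 : Su5L hK H (g * su3X hK 1 ω * g⁻¹) _ :=
      ⟨_, hu2, su5P_mul hK (su5P_mul hK hg5 (su5U_P hK p hV hε)) (su5P_inv hK hg5)⟩
    rw [hg] at h1
    exact ⟨_, h1⟩
  have hwL := su5L_mul hK (su5L_mul hK hY hLX) hY
  have hwl : suAct (su3Y hK 1 ω * su3X hK 1 ω * su3Y hK 1 ω) ![1, 0, 0] = ![ω ^ 2, 0, 0] := by
    rw [suAct_mul, suAct_mul, su3Y_vec hK p hV, su3X_vec hK p hV, su3Y_vec hK p hV]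
    exact su3_vec_eq (by rw [map_one]; ring) (by rw [map_one]; linear_combination hω)
      (by rw [map_one]; linear_combination (ω - 1) * hω)
  have hF : (ω ^ 2) ^ 3 - 2 * frobQ hK (ω ^ 2) ^ 3 + ω ^ 2 ≠ 0 := by
    have e : (ω ^ 2) ^ 3 - 2 * frobQ hK (ω ^ 2) ^ 3 + ω ^ 2 = ω := by
      linear_combination ((ω - 1) * (ω ^ 3 + 1) + 1) * hω + (-ω - frobQ hK (ω ^ 2) ^ 3) * h2
    rw [e]
    exact hω0
  refine su5_core hK p H hV one_ne_zero (a := ![0, 0, 1]) one_ne_zero hLX hV hω0 hY _ hwL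
    (ω ^ 2) hwl hF ?_ _ hu3 (su5_exit hK p hV hε hε0)
  intro τ hτ hLτ x
  have hw2 : Su5L hK H 1 ![ω ^ 2 * τ, 0, 0] := by
    refine su5L_congr hK (su5L_pure_act hK hwL hLτ) ?_
    have e : (![τ, 0, 0] : Fin 3 → K) = τ • ![1, 0, 0] := by
      rw [su3_smul_vec]
      exact su3_vec_eq (by ring) (by ring) (by ring)
    rw [e, suAct_smul, hwl, su3_smul_vec]
    exact su3_vec_eq (by ring) (by ring) (by ring)
  have hy4 : (x / τ) ^ 4 = x / τ := by
    have h := FiniteField.pow_card (x / τ)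
    rw [hK, hq] at h
    exact h
  have hx : x = x / τ * τ := by field_simp
  obtain ⟨y, hy⟩ : ∃ y, y = x / τ := ⟨_, rfl⟩
  rw [← hy] at hy4 hx
  have hprod : y * (y - 1) * (y - ω) * (y - ω ^ 2) = 0 := by
    linear_combination hy4 + (y * (y - 1) * (ω - 1 - y)) * hω
  rcases mul_eq_zero.1 hprod with h | h
  · rcases mul_eq_zero.1 h with h | h
    · rcases mul_eq_zero.1 h with h | h
      · have hx0 : x = 0 := by rw [hx, h, zero_mul]
        rw [hx0]
        refine su5L_congr hK (su5L_one hK H) ?_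
        funext i
        fin_cases i <;> rfl
      · have hx1 : x = τ := by
          rw [hx]
          linear_combination τ * h
        rw [hx1]
        exact hLτ
    · refine su5L_congr hK (su5L_pure_sub hK (su5L_pure_neg hK hw2) hLτ) ?_
      rw [su3_neg_vec, su3_sub_vec]
      exact su3_vec_eq (by rw [hx]; linear_combination (-τ) * hω - τ * h) (by ring) (by ring)
  · have hx2 : x = ω ^ 2 * τ := by
      rw [hx]
      linear_combination τ * h
    rw [hx2]
    exact hw2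

/-- **`SU_5(q)` is generated by three conjugate regular unipotent elements** (all `q`). -/
theorem su5_three_conj_unip (hK : Fintype.card K = q ^ 2) :
    ∃ u g h : ↥(Cfsg.SU 5 K q),
      (IsNilpotent (((u : Matrix.SpecialLinearGroup (Fin 5) K) : Matrix (Fin 5) (Fin 5) K) - 1) ∧
        (((u : Matrix.SpecialLinearGroup (Fin 5) K) : Matrix (Fin 5) (Fin 5) K) - 1) ^ 4 ≠ 0) ∧
      Subgroup.closure ({u, g * u * g⁻¹, h * u * h⁻¹} : Set ↥(Cfsg.SU 5 K q)) = ⊤ := by
  obtain ⟨p, hp⟩ := CharP.exists K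
  haveI := hp
  haveI : Fact p.Prime := ⟨CharP.char_is_prime K p⟩
  have h2q := su_two_le_q hK
  obtain ⟨u, g, h, ⟨hnil, hreg⟩, hgen⟩ : ∃ u g h : ↥(suG hK 5),
      (IsNilpotent (((u : Matrix.SpecialLinearGroup (Fin 5) K) : Matrix (Fin 5) (Fin 5) K) - 1) ∧
        (((u : Matrix.SpecialLinearGroup (Fin 5) K) : Matrix (Fin 5) (Fin 5) K) - 1) ^ (5 - 1)
          ≠ 0) ∧
      Subgroup.closure ({u, g * u * g⁻¹, h * u * h⁻¹} : Set ↥(suG hK 5)) = ⊤ := by
    by_cases hq : q = 2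
    · exact su5_gen_q2 hK p hq
    · exact su5_gen_q3 hK p (by omega)
  exact su_transport_three hK 5 u g h hnil hreg hgen

end Su5E

end Cfsg.Agent.Helper99
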